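import Mathlib
import Cfsg.Agent.Lib.Helper88.GrpSat
import Cfsg.Agent.Lib.Helper88.GrpSyl
import Cfsg.Agent.Lib.Helper91.Sat2
import Cfsg.Agent.Lib.Helper90.Normal

set_option autoImplicit false
open Cfsg

namespace Cfsg.Agent.Lib.Helper91.SimpleGen

open Cfsg.FusionSystem Cfsg.Agent.Lib.Helper88 Cfsg.Agent.Lib.Helper90 Cfsg.Agent.Lib.Helper91

variable {G : Type*} [Group G]

/-- a `p`-element normalizing a Sylow `p`-subgroup lies in it -/
theorem mem_sylow_of_normalizer_pow {p : ℕ} [Fact p.Prime] (S : Sylow p G) (t : G)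
    (ht : t ∈ Subgroup.normalizer ((S : Subgroup G) : Set G)) (b : ℕ) (htb : t ^ p ^ b = 1) :
    t ∈ (S : Subgroup G) := by
  have hz : IsPGroup p (Subgroup.zpowers t) := by
    rintro ⟨y, hy⟩
    obtain ⟨i, rfl⟩ := Subgroup.mem_zpowers_iff.mp hy
    refine ⟨b, ?_⟩
    apply Subtype.ext
    show (t ^ i) ^ p ^ b = 1
    rw [← zpow_natCast, ← _root_.zpow_mul, mul_comm, _root_.zpow_mul, zpow_natCast, htb,
      _root_.one_zpow]
  have hle : Subgroup.zpowers t ≤ Subgroup.normalizer ((S : Subgroup G) : Set G) := by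
    rw [Subgroup.zpowers_le]; exact ht
  have hsup := hz.to_sup_of_normal_right' S.isPGroup' hle
  have := S.is_maximal' hsup le_sup_right
  rw [← this]
  exact (le_sup_left : Subgroup.zpowers t ≤ _) (Subgroup.mem_zpowers t)

/-- an element of the normalizer of a Sylow `p`-subgroup `S`, a `p`-power of which centralizes
`S`, acts on `S` as an element of `S` -/
theorem exists_inner_of_pow_centralizes [Finite G] {p : ℕ} [Fact p.Prime] (S : Sylow p G) (g : G)
    (hg : g ∈ Subgroup.normalizer ((S : Subgroup G) : Set G)) (m : ℕ)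
    (hc : ∀ u ∈ (S : Subgroup G), g ^ p ^ m * u = u * g ^ p ^ m) :
    ∃ s ∈ (S : Subgroup G), ∀ u ∈ (S : Subgroup G), g * u * g⁻¹ = s * u * s⁻¹ := by
  have hp := (Fact.out : p.Prime)
  have hg0 : orderOf g ≠ 0 := (orderOf_pos g).ne'
  obtain ⟨a, m', hm', hom⟩ := Nat.exists_eq_pow_mul_and_not_dvd hg0 p hp.ne_one
  have h1 : (g ^ m') ^ p ^ a = 1 := by
    rw [← pow_mul, mul_comm, ← hom]
    exact pow_orderOf_eq_one g
  have h2 : g ^ m' ∈ (S : Subgroup G) :=
    mem_sylow_of_normalizer_pow S _ (Subgroup.pow_mem _ hg _) a h1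
  have hcop : Nat.Coprime m' (p ^ m) :=
    Nat.Coprime.pow_right _ ((Nat.Prime.coprime_iff_not_dvd hp).mpr hm').symm
  have hb := Nat.gcd_eq_gcd_ab m' (p ^ m)
  rw [hcop, Nat.cast_one] at hb
  set x := Nat.gcdA m' (p ^ m) with hx
  set y := Nat.gcdB m' (p ^ m) with hy
  refine ⟨(g ^ m') ^ x, Subgroup.zpow_mem _ h2 x, ?_⟩
  intro u hu
  have h3 : (g ^ m') ^ x = g * (g ^ p ^ m) ^ (-y) := by
    have e1 : (g ^ m') ^ x = g ^ ((m' : ℤ) * x) := by
      rw [_root_.zpow_mul, zpow_natCast]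
    have e2 : (g ^ p ^ m) ^ (-y) = g ^ (((p ^ m : ℕ) : ℤ) * (-y)) := by
      rw [_root_.zpow_mul, zpow_natCast]
    have e3 : (m' : ℤ) * x = 1 + ((p ^ m : ℕ) : ℤ) * (-y) := by linarith
    rw [e1, e2, e3, zpow_add, zpow_one]
  have h4 : Commute ((g ^ p ^ m) ^ (-y)) u := (Commute.zpow_left (hc u hu) (-y))
  rw [h3]
  have h5 : (g ^ p ^ m) ^ (-y) * u * ((g ^ p ^ m) ^ (-y))⁻¹ = u := by
    rw [h4.eq, mul_assoc, mul_inv_cancel, mul_one]
  calc g * u * g⁻¹ = g * ((g ^ p ^ m) ^ (-y) * u * ((g ^ p ^ m) ^ (-y))⁻¹) * g⁻¹ := by rw [h5]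
    _ = g * (g ^ p ^ m) ^ (-y) * u * (g * (g ^ p ^ m) ^ (-y))⁻¹ := by group

/-- the chain argument: an element normalizing `S` and centralizing a self-centralizing normal
subgroup `P` of `S` has a power, by the order of `S`, centralizing `S` -/
theorem pow_card_centralizes [Finite G] {p : ℕ} [Fact p.Prime] (S : Sylow p G) (P : Subgroup G)
    (hPn : ∀ s ∈ (S : Subgroup G), ∀ x ∈ P, s * x * s⁻¹ ∈ P)
    (hPc : ∀ c ∈ (S : Subgroup G), (∀ x ∈ P, c * x = x * c) → c ∈ P)
    (g : G) (hg : g ∈ Subgroup.normalizer ((S : Subgroup G) : Set G))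
    (hgP : ∀ x ∈ P, g * x = x * g) :
    ∀ u ∈ (S : Subgroup G),
      g ^ Nat.card (S : Subgroup G) * u = u * g ^ Nat.card (S : Subgroup G) := by
  intro u hu
  have hguS : g * u * g⁻¹ ∈ (S : Subgroup G) := conj_mem_of_mem_normalizer' hg hu
  set z := u⁻¹ * (g * u * g⁻¹) with hz
  have hzS : z ∈ (S : Subgroup G) := Subgroup.mul_mem _ (Subgroup.inv_mem _ hu) hguS
  have hgP' : ∀ x ∈ P, g * x * g⁻¹ = x := by
    intro x hx
    rw [hgP x hx, mul_assoc, mul_inv_cancel, mul_one]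
  have hzc : ∀ x ∈ P, z * x = x * z := by
    intro x hx
    have h1 : u * x * u⁻¹ ∈ P := hPn u hu x hx
    have h2 := hgP' _ h1
    have h3 := hgP' x hx
    have h4 : g * u * g⁻¹ * x = u * x * u⁻¹ * (g * u * g⁻¹) := by
      calc g * u * g⁻¹ * x = g * u * g⁻¹ * (g * x * g⁻¹) := by rw [h3]
        _ = g * (u * x * u⁻¹) * g⁻¹ * (g * u * g⁻¹) := by group
        _ = u * x * u⁻¹ * (g * u * g⁻¹) := by rw [h2]
    rw [hz, mul_assoc, h4]
    group
  have hzP : z ∈ P := hPc z hzS hzc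
  have hgz : g * z * g⁻¹ = z := hgP' z hzP
  have key : ∀ k : ℕ, g ^ k * u * (g ^ k)⁻¹ = u * z ^ k := by
    intro k
    induction k with
    | zero => simp
    | succ k ih =>
      have h1 : g ^ (k + 1) * u * (g ^ (k + 1))⁻¹ = g * (g ^ k * u * (g ^ k)⁻¹) * g⁻¹ := by
        rw [pow_succ']; group
      have h2 : g * z ^ k * g⁻¹ = z ^ k := by
        have := map_pow (MulAut.conj g).toMonoidHom z k
        simp only [MulEquiv.toMonoidHom_eq_coe, MonoidHom.coe_coe, MulAut.conj_apply] at this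
        rw [this, hgz]
      rw [h1, ih]
      calc g * (u * z ^ k) * g⁻¹ = (g * u * g⁻¹) * (g * z ^ k * g⁻¹) := by group
        _ = u * z * z ^ k := by rw [h2, hz]; group
        _ = u * z ^ (k + 1) := by rw [pow_succ', mul_assoc]
  have hz1 : z ^ Nat.card (S : Subgroup G) = 1 := by
    have := pow_card_eq_one' (G := ↥(S : Subgroup G)) (x := ⟨z, hzS⟩)
    exact congrArg Subtype.val this
  have h5 := key (Nat.card (S : Subgroup G))
  rw [hz1, mul_one] at h5
  calc g ^ Nat.card (S : Subgroup G) * u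
      = g ^ Nat.card (S : Subgroup G) * u * (g ^ Nat.card (S : Subgroup G))⁻¹ *
          g ^ Nat.card (S : Subgroup G) := by group
    _ = u * g ^ Nat.card (S : Subgroup G) := by rw [h5]

/-- the elements of `N_G(P)` whose conjugation on `P` is a morphism of `E` -/
def morSub {S : Subgroup G} (E : FusionSystem S) (P : Subgroup G) [Finite P] (hP : P ≤ S) :
    Subgroup G where
  carrier := {x | x ∈ Subgroup.normalizer (P : Set G) ∧ Mor E P (fun u => x * u * x⁻¹)}
  mul_mem' := by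
    rintro a b ⟨haN, ha⟩ ⟨hbN, hb⟩
    refine ⟨Subgroup.mul_mem _ haN hbN, ?_⟩
    have h1 := hb.comp ha (fun x hx => conj_mem_of_mem_normalizer hbN hx)
    refine h1.congr ?_
    intro x _
    show a * (b * x * b⁻¹) * a⁻¹ = a * b * x * (a * b)⁻¹
    group
  one_mem' := by
    refine ⟨Subgroup.one_mem _, (mor_id E hP).congr ?_⟩
    intro x _
    simp
  inv_mem' := by
    rintro a ⟨haN, ha⟩
    refine ⟨Subgroup.inv_mem _ haN, ?_⟩
    have himg : img P (fun u => a * u * a⁻¹) = P :=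
      ha.img_eq_self (fun x hx => conj_mem_of_mem_normalizer haN hx)
    have h1 := ha.inv
    rw [himg] at h1
    refine h1.congr ?_
    intro u hu
    have h2 : a⁻¹ * u * a⁻¹⁻¹ ∈ P := conj_mem_of_mem_normalizer (Subgroup.inv_mem _ haN) hu
    have h3 := ha.invFn_apply h2
    have h4 : a * (a⁻¹ * u * a⁻¹⁻¹) * a⁻¹ = u := by group
    simp only [h4] at h3
    exact h3

theorem mem_morSub {S : Subgroup G} (E : FusionSystem S) (P : Subgroup G) [Finite P] (hP : P ≤ S)
    (x : G) : x ∈ morSub E P hP ↔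
      x ∈ Subgroup.normalizer (P : Set G) ∧ Mor E P (fun u => x * u * x⁻¹) := Iff.rfl

/-- the main step: an element `h` of `N_G(S)` that lies in the subgroup generated by the
`p`-elements of `N_G(P)`, for a self-centralizing normal subgroup `P` of `S`, induces a morphism
of every weakly normal subsystem over `S` -/
theorem conj_mor_of_gen [Finite G] {p : ℕ} [Fact p.Prime] (S : Sylow p G)
    (E : FusionSystem (S : Subgroup G)) (hEsat : E.IsSaturated p)
    (hsub : E.IsSubsystemOf (Cfsg.groupFusionSystem (S : Subgroup G)))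
    (hfrat : ∀ (P : Subgroup G), P ≤ (S : Subgroup G) → ∀ (φ : P →* G),
      φ ∈ (Cfsg.groupFusionSystem (S : Subgroup G)).Hom P →
      ∃ α ∈ (Cfsg.groupFusionSystem (S : Subgroup G)).autGroup (S : Subgroup G),
        ∃ φ₀ ∈ E.Hom P, ∀ (x : P) (hx : φ₀ x ∈ (S : Subgroup G)),
          φ x = ((α ⟨φ₀ x, hx⟩ : ↥(S : Subgroup G)) : G))
    (h : G) (hh : h ∈ Subgroup.normalizer ((S : Subgroup G) : Set G))
    (P : Subgroup G) (hPS : P ≤ (S : Subgroup G))
    (hPn : ∀ s ∈ (S : Subgroup G), ∀ x ∈ P, s * x * s⁻¹ ∈ P)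
    (hPc : ∀ c ∈ (S : Subgroup G), (∀ x ∈ P, c * x = x * c) → c ∈ P)
    (hgen : h ∈ Subgroup.closure
      {x : G | x ∈ Subgroup.normalizer (P : Set G) ∧ ∃ k : ℕ, x ^ p ^ k = 1}) :
    Mor E (S : Subgroup G) (fun u => h * u * h⁻¹) := by
  classical
  set F := Cfsg.groupFusionSystem (S : Subgroup G) with hFdef
  have hgrp : IsGrpSys F ⊤ := groupFusionSystem_isGrpSys _
  have hSp : IsPGroup p (S : Subgroup G) := S.isPGroup'
  haveI : Finite P := Finite.of_injective _ (Subgroup.inclusion_injective hPS)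
  have hSN : (S : Subgroup G) ≤ Subgroup.normalizer (P : Set G) := by
    intro s hs
    exact mem_normalizer_of_finite (fun x hx => hPn s hs x hx)
  -- Frattini in function form
  have hfratF : ∀ (y : G), y ∈ Subgroup.normalizer (P : Set G) →
      ∃ g ∈ Subgroup.normalizer ((S : Subgroup G) : Set G),
        Mor E P (fun u => g⁻¹ * y * u * (g⁻¹ * y)⁻¹) := by
    intro y hy
    have hφ : ((MulAut.conj y).toMonoidHom.comp P.subtype) ∈ F.Hom P := by
      refine ⟨hPS, fun x => hPS (conj_mem_of_mem_normalizer hy x.2), y, fun x => rfl⟩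
    obtain ⟨α, hα, φ₀, hφ₀, hφα⟩ := hfrat P hPS _ hφ
    have hαm := (mem_autGroup_iff F le_rfl α).mp hα
    obtain ⟨-, g, -, hg⟩ := (grp_mor_iff hgrp).mp hαm
    have hgN : g ∈ Subgroup.normalizer ((S : Subgroup G) : Set G) :=
      mem_normalizer_of_finite (fun x hx => (hg x hx).2)
    refine ⟨g, hgN, φ₀, hφ₀, ?_⟩
    intro x
    have hx0 : φ₀ x ∈ (S : Subgroup G) := (mor_of_hom hφ₀).mem x.2 |> fun h => by
      rw [extFun_apply] at h; exact h
    have h1 := hφα x hx0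
    have h2 := (hg (φ₀ x) hx0).1
    rw [autFun_apply' α hx0] at h2
    have h3 : y * (x : G) * y⁻¹ = g * φ₀ x * g⁻¹ := by
      rw [← h2, ← h1]; rfl
    show φ₀ x = g⁻¹ * y * (x : G) * (g⁻¹ * y)⁻¹
    calc φ₀ x = g⁻¹ * (g * φ₀ x * g⁻¹) * g := by group
      _ = g⁻¹ * (y * (x : G) * y⁻¹) * g := by rw [h3]
      _ = g⁻¹ * y * (x : G) * (g⁻¹ * y)⁻¹ := by group
  -- every `p`-element of `N_G(P)` induces a morphism of `E`
  have hpel : ∀ x : G, x ∈ Subgroup.normalizer (P : Set G) → (∃ k : ℕ, x ^ p ^ k = 1) →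
      x ∈ morSub E P hPS := by
    rintro x hxN ⟨k, hxk⟩
    have hz : IsPGroup p (Subgroup.zpowers x) := by
      rintro ⟨y, hy⟩
      obtain ⟨i, rfl⟩ := Subgroup.mem_zpowers_iff.mp hy
      refine ⟨k, ?_⟩
      apply Subtype.ext
      show (x ^ i) ^ p ^ k = 1
      rw [← zpow_natCast, ← _root_.zpow_mul, mul_comm, _root_.zpow_mul, zpow_natCast, hxk,
        _root_.one_zpow]
    obtain ⟨y, hyN, hy⟩ := exists_conj_le_sylow_in S _ hSN (Subgroup.zpowers x) hz
      (by rw [Subgroup.zpowers_le]; exact hxN)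
    have hsS : y * x * y⁻¹ ∈ (S : Subgroup G) := hy x (Subgroup.mem_zpowers x)
    obtain ⟨g, hgN, hw⟩ := hfratF y hyN
    set w := g⁻¹ * y with hwdef
    set s' := g⁻¹ * (y * x * y⁻¹) * g with hs'
    have hs'S : s' ∈ (S : Subgroup G) := inv_conj_mem_of_mem_normalizer hgN hsS
    have hP' : img P (fun u => w * u * w⁻¹) ≤ (S : Subgroup G) := hw.img_le
    have hc2 : Mor E (img P (fun u => w * u * w⁻¹)) (fun u => s' * u * s'⁻¹) :=
      mor_conj E hP' hs'S
    have hxw : x = w⁻¹ * s' * w := by rw [hwdef, hs']; group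
    -- `s'` normalizes the image
    have hs'img : ∀ v ∈ img P (fun u => w * u * w⁻¹),
        s' * v * s'⁻¹ ∈ img P (fun u => w * u * w⁻¹) := by
      intro v hv
      obtain ⟨u, hu, rfl⟩ := hw.mem_img.mp hv
      rw [hw.mem_img]
      refine ⟨x * u * x⁻¹, conj_mem_of_mem_normalizer hxN hu, ?_⟩
      show w * (x * u * x⁻¹) * w⁻¹ = s' * (w * u * w⁻¹) * s'⁻¹
      rw [hxw]; group
    have h1 := hw.comp hc2 (fun u hu => hw.mem_img_of_mem hu)
    have h2 := h1.comp hw.inv (fun u hu => hs'img _ (hw.mem_img_of_mem hu))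
    refine ⟨hxN, h2.congr ?_⟩
    intro u hu
    show invFn P (fun u => w * u * w⁻¹) (s' * (w * u * w⁻¹) * s'⁻¹) = x * u * x⁻¹
    have h3 : s' * (w * u * w⁻¹) * s'⁻¹ = w * (x * u * x⁻¹) * w⁻¹ := by rw [hxw]; group
    rw [h3]
    exact hw.invFn_apply (conj_mem_of_mem_normalizer hxN hu)
  have hhB : h ∈ morSub E P hPS := by
    have hle : Subgroup.closure
        {x : G | x ∈ Subgroup.normalizer (P : Set G) ∧ ∃ k : ℕ, x ^ p ^ k = 1} ≤
        morSub E P hPS := by
      rw [Subgroup.closure_le]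
      rintro x ⟨hxN, hxk⟩
      exact hpel x hxN hxk
    exact hle hgen
  obtain ⟨hhN, hhm⟩ := hhB
  -- extension to `S`
  have hfn : E.IsFullyNormalized P := by
    refine ⟨hPS, fun Q _ => ?_⟩
    have h1 : normalizerIn (S : Subgroup G) P = (S : Subgroup G) := inf_of_le_left hSN
    rw [h1]
    exact Nat.card_le_card_of_injective _
      (Subgroup.inclusion_injective (inf_le_left : normalizerIn (S : Subgroup G) Q ≤ _))
  have hrec : E.IsReceptive P := (fa_rec_of_fullyNormalized hSp hEsat hfn).2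
  have himg : img P (fun u => h * u * h⁻¹) = P :=
    hhm.img_eq_self (fun x hx => conj_mem_of_mem_normalizer hhN hx)
  obtain ⟨f', hf', hf'P⟩ := receptive_extend hrec hhm himg (S : Subgroup G) hPS (by
    intro a ha
    refine ⟨ha, hSN ha, h * a * h⁻¹, conj_mem_of_mem_normalizer' hh ha, ?_⟩
    intro x _
    group)
  -- `f'` is conjugation by some `g'`
  obtain ⟨-, g', -, hg'⟩ := (grp_mor_iff hgrp).mp (mor_of_subsystem hsub hf')
  have hg'N : g' ∈ Subgroup.normalizer ((S : Subgroup G) : Set G) :=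
    mem_normalizer_of_finite (fun x hx => (hg' x hx).2)
  set g := g'⁻¹ * h with hgdef
  have hgN : g ∈ Subgroup.normalizer ((S : Subgroup G) : Set G) :=
    Subgroup.mul_mem _ (Subgroup.inv_mem _ hg'N) hh
  have hgP : ∀ x ∈ P, g * x = x * g := by
    intro x hx
    have h1 : g' * x * g'⁻¹ = h * x * h⁻¹ := by
      rw [← (hg' x (hPS hx)).1, hf'P x hx]
    have h2 : g * x * g⁻¹ = x := by
      calc g * x * g⁻¹ = g'⁻¹ * (h * x * h⁻¹) * g' := by rw [hgdef]; group
        _ = g'⁻¹ * (g' * x * g'⁻¹) * g' := by rw [h1]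
        _ = x := by group
    calc g * x = g * x * g⁻¹ * g := by group
      _ = x * g := by rw [h2]
  obtain ⟨m, hm⟩ := (IsPGroup.iff_card.mp hSp)
  have hcent := pow_card_centralizes S P hPn hPc g hgN hgP
  rw [hm] at hcent
  obtain ⟨s, hsS, hs⟩ := exists_inner_of_pow_centralizes S g hgN m hcent
  have h3 := (mor_conj E (le_refl (S : Subgroup G)) hsS).comp hf'
    (fun x hx => conj_mem_of_mem_normalizer' (Subgroup.le_normalizer hsS) hx)
  refine h3.congr ?_
  intro u hu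
  show f' (s * u * s⁻¹) = h * u * h⁻¹
  have hsu : s * u * s⁻¹ ∈ (S : Subgroup G) :=
    conj_mem_of_mem_normalizer' (Subgroup.le_normalizer hsS) hu
  rw [(hg' _ hsu).1, ← hs u hu, hgdef]
  group

/-- **Criterion for simplicity** of the fusion system of a finite group `G` on a Sylow
`p`-subgroup `S`: no proper nontrivial strongly closed subgroup, and `N_G(S)` is generated by
`S`, `C_G(S)` and elements lying in the subgroup generated by the `p`-elements of `N_G(P)` for
self-centralizing normal subgroups `P` of `S`. -/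
theorem simple_of_gen [Finite G] {p : ℕ} [Fact p.Prime] (S : Sylow p G)
    (hS1 : (S : Subgroup G) ≠ ⊥)
    (H1 : ∀ T : Subgroup G, T ≤ (S : Subgroup G) →
      (∀ x ∈ T, ∀ g : G, g * x * g⁻¹ ∈ (S : Subgroup G) → g * x * g⁻¹ ∈ T) →
      T = ⊥ ∨ T = (S : Subgroup G))
    (H2 : Subgroup.normalizer ((S : Subgroup G) : Set G) ≤
      Subgroup.closure (((S : Subgroup G) : Set G) ∪
        (Subgroup.centralizer ((S : Subgroup G) : Set G) : Set G) ∪
        {h : G | h ∈ Subgroup.normalizer ((S : Subgroup G) : Set G) ∧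
          ∃ P : Subgroup G, P ≤ (S : Subgroup G) ∧
            (∀ s ∈ (S : Subgroup G), ∀ x ∈ P, s * x * s⁻¹ ∈ P) ∧
            (∀ c ∈ (S : Subgroup G), (∀ x ∈ P, c * x = x * c) → c ∈ P) ∧
            h ∈ Subgroup.closure
              {x : G | x ∈ Subgroup.normalizer (P : Set G) ∧ ∃ k : ℕ, x ^ p ^ k = 1}})) :
    (Cfsg.groupFusionSystem (S : Subgroup G)).IsSimple p := by
  classical
  have hgrp : IsGrpSys (Cfsg.groupFusionSystem (S : Subgroup G)) ⊤ := groupFusionSystem_isGrpSys _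
  refine ⟨groupFusionSystem_isSaturated S, hS1, ?_⟩
  intro T E hE
  obtain ⟨⟨hEsat, -, hsub, hclosed, -, hfrat⟩, -⟩ := hE
  obtain ⟨hTS, hcl⟩ := hclosed
  have hT' : ∀ x ∈ T, ∀ g : G, g * x * g⁻¹ ∈ (S : Subgroup G) → g * x * g⁻¹ ∈ T := by
    intro x hx g hg
    have hR : Subgroup.zpowers x ≤ T := by rw [Subgroup.zpowers_le]; exact hx
    have hmem : ∀ y : Subgroup.zpowers x, g * (y : G) * g⁻¹ ∈ (S : Subgroup G) := by
      rintro ⟨y, hy⟩
      obtain ⟨i, rfl⟩ := Subgroup.mem_zpowers_iff.mp hy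
      have : g * x ^ i * g⁻¹ = (g * x * g⁻¹) ^ i :=
        (map_zpow (MulAut.conj g).toMonoidHom x i)
      show g * x ^ i * g⁻¹ ∈ (S : Subgroup G)
      rw [this]
      exact Subgroup.zpow_mem _ hg i
    have := hcl (Subgroup.zpowers x) hR
      (((MulAut.conj g).toMonoidHom).comp (Subgroup.zpowers x).subtype)
      ⟨hR.trans hTS, hmem, g, fun y => rfl⟩ ⟨x, Subgroup.mem_zpowers x⟩
    exact this
  rcases H1 T hTS hT' with h | h
  · exact Or.inl h
  refine Or.inr ⟨h, ?_⟩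
  subst h
  have hA : Subgroup.normalizer ((S : Subgroup G) : Set G) ≤
      morSub E (S : Subgroup G) (le_refl _) := by
    refine H2.trans ?_
    rw [Subgroup.closure_le]
    rintro x ((hx | hx) | hx)
    · exact ⟨Subgroup.le_normalizer hx, mor_conj E (le_refl _) hx⟩
    · refine ⟨Subgroup.centralizer_le_normalizer _ hx, (mor_id E (le_refl _)).congr ?_⟩
      intro u hu
      have h1 : u * x = x * u := (Subgroup.mem_centralizer_iff.mp hx) u hu
      show id u = x * u * x⁻¹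
      rw [← h1, mul_assoc, mul_inv_cancel, mul_one]; rfl
    · obtain ⟨hxN, P, hPS, hPn, hPc, hgen⟩ := hx
      exact ⟨hxN, conj_mor_of_gen S E hEsat hsub hfrat x hxN P hPS hPn hPc hgen⟩
  intro P
  refine Set.Subset.antisymm (hsub P) ?_
  intro φ hφ
  have hP : P ≤ (S : Subgroup G) := hφ.1
  obtain ⟨α, hα, φ₀, hφ₀, hφα⟩ := hfrat P hP φ hφ
  have hαm := (mem_autGroup_iff (Cfsg.groupFusionSystem (S : Subgroup G)) (le_refl _) α).mp hα
  obtain ⟨-, g, -, hg⟩ := (grp_mor_iff hgrp).mp hαm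
  have hgN : g ∈ Subgroup.normalizer ((S : Subgroup G) : Set G) :=
    mem_normalizer_of_finite (fun x hx => (hg x hx).2)
  obtain ⟨-, hgm⟩ := hA hgN
  have h0 := mor_of_hom hφ₀
  have h1 := h0.comp hgm (fun x hx => h0.mem hx)
  refine h1.hom φ ?_
  intro x
  have hx0 : φ₀ x ∈ (S : Subgroup G) := by
    have := h0.mem x.2
    rwa [extFun_apply] at this
  rw [hφα x hx0]
  show _ = g * extFun P φ₀ x * g⁻¹
  rw [extFun_apply, ← (hg _ hx0).1, autFun_apply' α hx0]

/-- the hypotheses of the simplicity criterion `simple_of_gen`, for a subgroup `S` of `G` -/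
def GoodSyl (p : ℕ) (S : Subgroup G) : Prop :=
  S ≠ ⊥ ∧
  (∀ T : Subgroup G, T ≤ S → (∀ x ∈ T, ∀ g : G, g * x * g⁻¹ ∈ S → g * x * g⁻¹ ∈ T) →
    T = ⊥ ∨ T = S) ∧
  Subgroup.normalizer (S : Set G) ≤
    Subgroup.closure ((S : Set G) ∪ (Subgroup.centralizer (S : Set G) : Set G) ∪
      {h : G | h ∈ Subgroup.normalizer (S : Set G) ∧
        ∃ P : Subgroup G, P ≤ S ∧ (∀ s ∈ S, ∀ x ∈ P, s * x * s⁻¹ ∈ P) ∧
          (∀ c ∈ S, (∀ x ∈ P, c * x = x * c) → c ∈ P) ∧
          h ∈ Subgroup.closure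
            {x : G | x ∈ Subgroup.normalizer (P : Set G) ∧ ∃ k : ℕ, x ^ p ^ k = 1}})

theorem simple_of_goodSyl [Finite G] {p : ℕ} [Fact p.Prime] (S : Sylow p G)
    (h : GoodSyl p (S : Subgroup G)) : (Cfsg.groupFusionSystem (S : Subgroup G)).IsSimple p :=
  simple_of_gen S h.1 h.2.1 h.2.2

end Cfsg.Agent.Lib.Helper91.SimpleGen
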