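import Mathlib

/-! Project QA (helper48, S2787): piece QA-BTRANSFER. -/

set_option autoImplicit false

universe u

namespace Cfsg.Agent.Lib.Helper48.QA

open Matrix Polynomial

/-- QA-BTRANSFER -/
theorem pgroup_of_transfer {G : Type*} [Group G] [Finite G] (p : ℕ) [Fact p.Prime] (T : Set G)
    (hgen : Subgroup.closure T = ⊤) (hT : ∀ t ∈ T, t ^ p = 1)
    (hNC : ∀ (r : ℕ) [Fact r.Prime], r ≠ p → ∀ R : Sylow r G,
      Subgroup.normalizer (R : Set G) ≤ Subgroup.centralizer (R : Set G)) :
    ∃ k : ℕ, Nat.card G = p ^ k := by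
  have hpp : p.Prime := Fact.out
  have key : ∀ r : ℕ, r.Prime → r ∣ Nat.card G → r = p := by
    intro r hr hdvd
    by_contra hne
    haveI : Fact r.Prime := ⟨hr⟩
    obtain ⟨R⟩ : Nonempty (Sylow r G) := inferInstance
    have hR := hNC r hne R
    have hker : (MonoidHom.transferSylow R hR).ker = ⊤ := by
      rw [eq_top_iff, ← hgen, Subgroup.closure_le]
      intro t ht
      rw [SetLike.mem_coe, MonoidHom.mem_ker]
      have h1 : (MonoidHom.transferSylow R hR t) ^ p = 1 := by
        rw [← map_pow, hT t ht, map_one]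
      obtain ⟨k, hk⟩ := R.isPGroup' (MonoidHom.transferSylow R hR t)
      have h2 : orderOf (MonoidHom.transferSylow R hR t) ∣ p := orderOf_dvd_of_pow_eq_one h1
      have h3 : orderOf (MonoidHom.transferSylow R hR t) ∣ r ^ k :=
        orderOf_dvd_of_pow_eq_one hk
      have h4 : orderOf (MonoidHom.transferSylow R hR t) ∣ Nat.gcd p (r ^ k) :=
        Nat.dvd_gcd h2 h3
      have h5 : Nat.gcd p (r ^ k) = 1 :=
        Nat.Coprime.pow_right k ((Nat.coprime_primes hpp hr).2 (Ne.symm hne))
      rw [h5, Nat.dvd_one] at h4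
      exact orderOf_eq_one_iff.1 h4
    have hcomp := MonoidHom.ker_transferSylow_isComplement' R hR
    have hcard := hcomp.card_mul
    rw [hker, Subgroup.card_top] at hcard
    have hG : 0 < Nat.card G := Nat.card_pos
    have hR1 : Nat.card R = 1 := by nlinarith
    have hR2 := Sylow.card_eq_multiplicity R
    have hfac : 0 < (Nat.card G).factorization r :=
      hr.factorization_pos_of_dvd hG.ne' hdvd
    have hle : r ≤ Nat.card R := by
      rw [hR2]
      calc r = r ^ 1 := (pow_one r).symm
        _ ≤ r ^ (Nat.card G).factorization r := Nat.pow_le_pow_right hr.pos hfac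
    have h2le := hr.two_le
    omega
  exact ⟨_, Nat.eq_prime_pow_of_unique_prime_dvd Nat.card_pos.ne'
    (fun {d} hd hdvd => key d hd hdvd)⟩

end Cfsg.Agent.Lib.Helper48.QA
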