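import Mathlib
import Cfsg.Agent.S0071

set_option autoImplicit false

/-!
# Brauer–Suzuki for `Q8`: the fusion step

If a Sylow 2-subgroup `P` of `G` is quaternion of order 8 and `G` has no normal 2-complement, then
all elements of order 4 of `P` are conjugate in `G` (Frobenius' normal p-complement theorem
gives an element of odd order normalizing, and not centralizing, a subgroup of `P`).
-/

namespace Cfsg.Agent.Lib.Helper91

universe u

section Q8facts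

set_option maxRecDepth 100000 in
theorem q8_pow4 : ∀ x : QuaternionGroup 2, x * x * (x * x) = 1 := by decide

set_option maxRecDepth 100000 in
theorem q8_invol_unique : ∀ a b : QuaternionGroup 2, a * a = 1 → b * b = 1 → a ≠ 1 → b ≠ 1 →
    a = b := by decide

set_option maxRecDepth 100000 in
theorem q8_exists_pair : ∃ x y : QuaternionGroup 2, x * x ≠ 1 ∧ y * y ≠ 1 ∧ y ≠ x ∧ y ≠ x⁻¹ := by
  decide

set_option maxRecDepth 100000 in
theorem q8_conj_inv : ∀ x y : QuaternionGroup 2, x * x ≠ 1 → y * y ≠ 1 → y ≠ x → y ≠ x⁻¹ →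
    y * x * y⁻¹ = x⁻¹ := by decide

set_option maxRecDepth 100000 in
theorem q8_mul_inv : ∀ x y : QuaternionGroup 2, x * x ≠ 1 → y * y ≠ 1 → y ≠ x → y ≠ x⁻¹ →
    y * x = (x * y)⁻¹ := by decide

set_option maxRecDepth 100000 in
theorem q8_elts : ∀ x y : QuaternionGroup 2, x * x ≠ 1 → y * y ≠ 1 → y ≠ x → y ≠ x⁻¹ →
    ∀ q : QuaternionGroup 2, q = 1 ∨ q = x ∨ q = x * x ∨ q = x⁻¹ ∨ q = y ∨ q = y⁻¹ ∨
      q = x * y ∨ q = y * x := by decide

end Q8facts

section Q8sub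
variable {G : Type u} [Group G] {P : Subgroup G} (e : P ≃* QuaternionGroup 2)
include e

theorem q8s_sq_ne {x : G} (hx : x ∈ P) (hx2 : x * x ≠ 1) : e ⟨x, hx⟩ * e ⟨x, hx⟩ ≠ 1 := by
  intro h
  apply hx2
  have h1 : (⟨x, hx⟩ : P) * ⟨x, hx⟩ = 1 := e.injective (by rw [map_mul, map_one]; exact h)
  exact congrArg Subtype.val h1

theorem q8s_ne {x y : G} (hx : x ∈ P) (hy : y ∈ P) (hyx : y ≠ x) : e ⟨y, hy⟩ ≠ e ⟨x, hx⟩ := by
  intro h
  apply hyx
  exact congrArg Subtype.val (e.injective h)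

theorem q8s_ne_inv {x y : G} (hx : x ∈ P) (hy : y ∈ P) (hyx : y ≠ x⁻¹) :
    e ⟨y, hy⟩ ≠ (e ⟨x, hx⟩)⁻¹ := by
  intro h
  apply hyx
  have h1 : (⟨y, hy⟩ : P) = (⟨x, hx⟩ : P)⁻¹ := e.injective (by rw [map_inv]; exact h)
  exact congrArg Subtype.val h1

theorem q8s_pow4 {x : G} (hx : x ∈ P) : x * x * (x * x) = 1 := by
  have h := q8_pow4 (e ⟨x, hx⟩)
  have h1 : (⟨x, hx⟩ : P) * ⟨x, hx⟩ * (⟨x, hx⟩ * ⟨x, hx⟩) = 1 :=
    e.injective (by rw [map_mul, map_mul, map_one]; exact h)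
  exact congrArg Subtype.val h1

theorem q8s_invol_unique {a b : G} (ha : a ∈ P) (hb : b ∈ P) (ha2 : a * a = 1) (hb2 : b * b = 1)
    (ha1 : a ≠ 1) (hb1 : b ≠ 1) : a = b := by
  have h := q8_invol_unique (e ⟨a, ha⟩) (e ⟨b, hb⟩)
    (by rw [← map_mul, ← map_one e]; exact congrArg e (Subtype.ext ha2))
    (by rw [← map_mul, ← map_one e]; exact congrArg e (Subtype.ext hb2))
    (fun h => ha1 (congrArg Subtype.val (e.injective (h.trans (map_one e).symm))))
    (fun h => hb1 (congrArg Subtype.val (e.injective (h.trans (map_one e).symm))))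
  exact congrArg Subtype.val (e.injective h)

theorem q8s_conj_inv {x y : G} (hx : x ∈ P) (hy : y ∈ P) (hx2 : x * x ≠ 1) (hy2 : y * y ≠ 1)
    (hyx : y ≠ x) (hyx' : y ≠ x⁻¹) : y * x * y⁻¹ = x⁻¹ := by
  have h := q8_conj_inv (e ⟨x, hx⟩) (e ⟨y, hy⟩) (q8s_sq_ne e hx hx2) (q8s_sq_ne e hy hy2)
    (q8s_ne e hx hy hyx) (q8s_ne_inv e hx hy hyx')
  have h1 : (⟨y, hy⟩ : P) * ⟨x, hx⟩ * (⟨y, hy⟩ : P)⁻¹ = (⟨x, hx⟩ : P)⁻¹ :=
    e.injective (by rw [map_mul, map_mul, map_inv, map_inv]; exact h)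
  exact congrArg Subtype.val h1

theorem q8s_mul_inv {x y : G} (hx : x ∈ P) (hy : y ∈ P) (hx2 : x * x ≠ 1) (hy2 : y * y ≠ 1)
    (hyx : y ≠ x) (hyx' : y ≠ x⁻¹) : y * x = (x * y)⁻¹ := by
  have h := q8_mul_inv (e ⟨x, hx⟩) (e ⟨y, hy⟩) (q8s_sq_ne e hx hx2) (q8s_sq_ne e hy hy2)
    (q8s_ne e hx hy hyx) (q8s_ne_inv e hx hy hyx')
  have h1 : (⟨y, hy⟩ : P) * ⟨x, hx⟩ = ((⟨x, hx⟩ : P) * ⟨y, hy⟩)⁻¹ :=
    e.injective (by rw [map_mul, map_inv, map_mul]; exact h)
  exact congrArg Subtype.val h1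

theorem q8s_elts {x y : G} (hx : x ∈ P) (hy : y ∈ P) (hx2 : x * x ≠ 1) (hy2 : y * y ≠ 1)
    (hyx : y ≠ x) (hyx' : y ≠ x⁻¹) {q : G} (hq : q ∈ P) :
    q = 1 ∨ q = x ∨ q = x * x ∨ q = x⁻¹ ∨ q = y ∨ q = y⁻¹ ∨ q = x * y ∨ q = y * x := by
  have h := q8_elts (e ⟨x, hx⟩) (e ⟨y, hy⟩) (q8s_sq_ne e hx hx2) (q8s_sq_ne e hy hy2)
    (q8s_ne e hx hy hyx) (q8s_ne_inv e hx hy hyx') (e ⟨q, hq⟩)
  rcases h with h | h | h | h | h | h | h | h
  · left
    exact congrArg Subtype.val (e.injective (h.trans (map_one e).symm))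
  · right; left
    exact congrArg Subtype.val (e.injective h)
  · right; right; left
    have h1 : (⟨q, hq⟩ : P) = ⟨x, hx⟩ * ⟨x, hx⟩ := e.injective (by rw [map_mul]; exact h)
    exact congrArg Subtype.val h1
  · right; right; right; left
    have h1 : (⟨q, hq⟩ : P) = (⟨x, hx⟩ : P)⁻¹ := e.injective (by rw [map_inv]; exact h)
    exact congrArg Subtype.val h1
  · right; right; right; right; left
    exact congrArg Subtype.val (e.injective h)
  · right; right; right; right; right; left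
    have h1 : (⟨q, hq⟩ : P) = (⟨y, hy⟩ : P)⁻¹ := e.injective (by rw [map_inv]; exact h)
    exact congrArg Subtype.val h1
  · right; right; right; right; right; right; left
    have h1 : (⟨q, hq⟩ : P) = ⟨x, hx⟩ * ⟨y, hy⟩ := e.injective (by rw [map_mul]; exact h)
    exact congrArg Subtype.val h1
  · right; right; right; right; right; right; right
    have h1 : (⟨q, hq⟩ : P) = ⟨y, hy⟩ * ⟨x, hx⟩ := e.injective (by rw [map_mul]; exact h)
    exact congrArg Subtype.val h1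

end Q8sub

section fusion
variable {G : Type u} [Group G]

/-- an element `g` of odd order commutes with `x` as soon as `g ^ 2 ^ k` does. -/
theorem commute_of_pow_two_pow {g x : G} (hg : Nat.Coprime (orderOf g) 2) (k : ℕ)
    (h : Commute (g ^ 2 ^ k) x) : Commute g x := by
  have hcop : Nat.Coprime (2 ^ k) (orderOf g) := Nat.Coprime.pow_left k hg.symm
  obtain ⟨m, hm⟩ := exists_pow_eq_self_of_coprime hcop
  rw [← hm]
  exact h.pow_left m

theorem commute_of_conj_sq {g x : G} (hg : Nat.Coprime (orderOf g) 2)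
    (h : g * (g * x * g⁻¹) * g⁻¹ = x) : Commute g x := by
  apply commute_of_pow_two_pow hg 1
  show g ^ 2 ^ 1 * x = x * g ^ 2 ^ 1
  have e1 : g ^ 2 ^ 1 = g * g := by rw [pow_one, pow_two]
  rw [e1]
  calc g * g * x = (g * (g * x * g⁻¹) * g⁻¹) * (g * g) := by group
    _ = x * (g * g) := by rw [h]

theorem commute_of_conj_sq_inv {g x : G} (hg : Nat.Coprime (orderOf g) 2)
    (h : g * (g * x * g⁻¹) * g⁻¹ = x⁻¹) : Commute g x := by
  apply commute_of_pow_two_pow hg 2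
  show g ^ 2 ^ 2 * x = x * g ^ 2 ^ 2
  have e1 : g ^ 2 ^ 2 = g * g * (g * g) := by
    rw [show (2 : ℕ) ^ 2 = 2 + 2 from rfl, pow_add, pow_two]
  have h3 : g * (g * x⁻¹ * g⁻¹) * g⁻¹ = (g * (g * x * g⁻¹) * g⁻¹)⁻¹ := by
    simp only [mul_inv_rev, inv_inv, mul_assoc]
  have h4 : g * (g * (g * (g * x * g⁻¹) * g⁻¹) * g⁻¹) * g⁻¹ = x := by
    rw [h, h3, h, inv_inv]
  rw [e1]
  calc g * g * (g * g) * x
      = (g * (g * (g * (g * x * g⁻¹) * g⁻¹) * g⁻¹) * g⁻¹) * (g * g * (g * g)) := by group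
    _ = x * (g * g * (g * g)) := by rw [h4]

theorem isConj_inv_of {a b : G} (h : IsConj a b) : IsConj a⁻¹ b⁻¹ := by
  obtain ⟨c, hc⟩ := isConj_iff.1 h
  refine isConj_iff.2 ⟨c, ?_⟩
  rw [← hc]
  group

theorem conj_eq_of_commute {g x : G} (h : Commute g x) : g * x * g⁻¹ = x := by
  rw [h.eq, mul_inv_cancel_right]

/-- **Fusion step for `Q8` Sylow 2-subgroups.** -/
theorem bsq8_fusion [Finite G] (P : Sylow 2 G) (e : (P : Subgroup G) ≃* QuaternionGroup 2)
    (hnc : ¬ ∃ N : Subgroup G, N.Normal ∧ N.IsComplement' (P : Subgroup G)) :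
    ∀ x y : G, x ∈ P → y ∈ P → orderOf x = 4 → orderOf y = 4 → IsConj x y := by
  have hfact : Fact (Nat.Prime 2) := ⟨Nat.prime_two⟩
  rw [Cfsg.Agent.S0071.result P] at hnc
  push Not at hnc
  obtain ⟨Q, hQP, g, hgN, hgo, hgC⟩ := hnc
  have hconjQ : ∀ q : G, q ∈ Q → g * q * g⁻¹ ∈ Q := fun q hq =>
    (Subgroup.mem_normalizer_iff.1 hgN q).1 hq
  have hsq : ∀ q : G, (g * q * g⁻¹) * (g * q * g⁻¹) = g * (q * q) * g⁻¹ := by
    intro q
    group
  have hsq1 : ∀ q : G, q * q ≠ 1 → (g * q * g⁻¹) * (g * q * g⁻¹) ≠ 1 := by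
    intro q hq h
    apply hq
    rw [hsq] at h
    have h1 : q * q = g⁻¹ * (g * (q * q) * g⁻¹) * g := by group
    rw [h1, h]
    group
  have hinj : ∀ a b : G, g * a * g⁻¹ = g * b * g⁻¹ → a = b := by
    intro a b h
    have h1 : a = g⁻¹ * (g * a * g⁻¹) * g := by group
    rw [h1, h]
    group
  have hcinv : ∀ a : G, g * a⁻¹ * g⁻¹ = (g * a * g⁻¹)⁻¹ := by
    intro a
    group
  -- an element of order 4 of `Q` moved by `g` outside `{x, x⁻¹}`
  have hex : ∃ x : G, x ∈ Q ∧ x * x ≠ 1 ∧ g * x * g⁻¹ ≠ x ∧ g * x * g⁻¹ ≠ x⁻¹ := by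
    by_contra hcon
    push Not at hcon
    apply hgC
    rw [Subgroup.mem_centralizer_iff]
    intro q hq
    have hq' : q ∈ Q := hq
    have hgoal : ∀ (_ : g * q * g⁻¹ = q), q * g = g * q := by
      intro h
      have h1 : g * q = g * q * g⁻¹ * g := by group
      rw [h1, h]
    by_cases hq2 : q * q = 1
    · by_cases hq1 : q = 1
      · rw [hq1, one_mul, mul_one]
      · apply hgoal
        have h2 : (g * q * g⁻¹) * (g * q * g⁻¹) = 1 := by
          rw [hsq, hq2]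
          group
        have h3 : g * q * g⁻¹ ≠ 1 := by
          intro h
          apply hq1
          apply hinj
          rw [h]
          group
        exact q8s_invol_unique e (hQP (hconjQ q hq')) (hQP hq') h2 hq2 h3 hq1
    · by_cases hqq : g * q * g⁻¹ = q
      · exact hgoal hqq
      · have hqi := hcon q hq' hq2 hqq
        have hc2 : g * (g * q * g⁻¹) * g⁻¹ = q := by
          rw [hqi, hcinv, hqi, inv_inv]
        exact hgoal (conj_eq_of_commute (commute_of_conj_sq hgo hc2))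
  obtain ⟨x, hxQ, hx2, hx1ne, hx1ne'⟩ := hex
  obtain ⟨x₁, hx₁⟩ : ∃ x₁, x₁ = g * x * g⁻¹ := ⟨_, rfl⟩
  obtain ⟨x₂, hx₂⟩ : ∃ x₂, x₂ = g * x₁ * g⁻¹ := ⟨_, rfl⟩
  rw [← hx₁] at hx1ne hx1ne'
  have hxP : x ∈ (P : Subgroup G) := hQP hxQ
  have hx₁Q : x₁ ∈ Q := hx₁ ▸ hconjQ x hxQ
  have hx₁P : x₁ ∈ (P : Subgroup G) := hQP hx₁Q
  have hx₂Q : x₂ ∈ Q := hx₂ ▸ hconjQ x₁ hx₁Q
  have hx₂P : x₂ ∈ (P : Subgroup G) := hQP hx₂Q
  have hx₁2 : x₁ * x₁ ≠ 1 := hx₁ ▸ hsq1 x hx2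
  have hx₂2 : x₂ * x₂ ≠ 1 := hx₂ ▸ hsq1 x₁ hx₁2
  have hncomm : ¬ Commute g x := by
    intro h
    apply hx1ne
    rw [hx₁]
    exact conj_eq_of_commute h
  -- `x₂` is not in `{x, x⁻¹, x₁, x₁⁻¹}`
  have h21 : x₂ ≠ x₁ := by
    intro h
    apply hx1ne
    apply hinj
    rw [← hx₂, ← hx₁]
    exact h
  have h21' : x₂ ≠ x₁⁻¹ := by
    intro h
    apply hx1ne'
    apply hinj
    rw [← hx₂, hcinv, ← hx₁]
    exact h
  have h20 : x₂ ≠ x := by
    intro h
    apply hncomm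
    apply commute_of_conj_sq hgo
    rw [← hx₁, ← hx₂, h]
  have h20' : x₂ ≠ x⁻¹ := by
    intro h
    apply hncomm
    apply commute_of_conj_sq_inv hgo
    rw [← hx₁, ← hx₂, h]
  have hx₂cases : x₂ = x * x₁ ∨ x₂ = x₁ * x := by
    rcases q8s_elts e hxP hx₁P hx2 hx₁2 hx1ne hx1ne' hx₂P with h | h | h | h | h | h | h | h
    · exfalso
      apply hx₂2
      rw [h, one_mul]
    · exact absurd h h20
    · exfalso
      apply hx₂2
      rw [h]
      exact q8s_pow4 e hxP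
    · exact absurd h h20'
    · exact absurd h h21
    · exact absurd h h21'
    · exact Or.inl h
    · exact Or.inr h
  -- conjugacy
  have hc1 : IsConj x x₁ := isConj_iff.2 ⟨g, hx₁.symm⟩
  have hc2 : IsConj x x₂ := hc1.trans (isConj_iff.2 ⟨g, hx₂.symm⟩)
  have hci : IsConj x x⁻¹ :=
    isConj_iff.2 ⟨x₁, q8s_conj_inv e hxP hx₁P hx2 hx₁2 hx1ne hx1ne'⟩
  have hc1i : IsConj x x₁⁻¹ := hci.trans (isConj_inv_of hc1)
  have hc2i : IsConj x x₂⁻¹ := hci.trans (isConj_inv_of hc2)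
  have hmi : x₁ * x = (x * x₁)⁻¹ := q8s_mul_inv e hxP hx₁P hx2 hx₁2 hx1ne hx1ne'
  have hmi' : x * x₁ = (x₁ * x)⁻¹ := by rw [hmi, inv_inv]
  have hall : ∀ y : G, y ∈ (P : Subgroup G) → y * y ≠ 1 → IsConj x y := by
    intro y hyP hy2
    rcases q8s_elts e hxP hx₁P hx2 hx₁2 hx1ne hx1ne' hyP with h | h | h | h | h | h | h | h
    · exfalso
      apply hy2
      rw [h, one_mul]
    · rw [h]
    · exfalso
      apply hy2
      rw [h]
      exact q8s_pow4 e hxP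
    · rw [h]
      exact hci
    · rw [h]
      exact hc1
    · rw [h]
      exact hc1i
    · rcases hx₂cases with h' | h'
      · rw [h, ← h']
        exact hc2
      · rw [h, hmi', ← h']
        exact hc2i
    · rcases hx₂cases with h' | h'
      · rw [h, hmi, ← h']
        exact hc2i
      · rw [h, ← h']
        exact hc2
  have hord : ∀ y : G, orderOf y = 4 → y * y ≠ 1 := by
    intro y hy h
    have h1 : orderOf y ∣ 2 := orderOf_dvd_of_pow_eq_one (by rw [pow_two]; exact h)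
    rw [hy] at h1
    omega
  intro y y' hy hy' hyo hyo'
  exact (hall y hy (hord y hyo)).symm.trans (hall y' hy' (hord y' hyo'))

/-- If the Sylow 2-subgroup `P` has a normal complement and `G` has no nontrivial normal subgroup
of odd order, then `G = P`. -/
theorem bsq8_of_complement [Finite G] (P : Sylow 2 G)
    (hO : ∀ N : Subgroup G, N.Normal → Odd (Nat.card N) → N = ⊥)
    (hc : ∃ N : Subgroup G, N.Normal ∧ N.IsComplement' (P : Subgroup G)) :
    (P : Subgroup G) = ⊤ := by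
  have hfact : Fact (Nat.Prime 2) := ⟨Nat.prime_two⟩
  obtain ⟨N, hNn, hNP⟩ := hc
  have hodd : Odd (Nat.card N) := by
    have h1 : (P : Subgroup G).index = Nat.card N := hNP.index_eq_card
    have h2 : ¬ 2 ∣ (P : Subgroup G).index := P.not_dvd_index
    rw [h1] at h2
    exact Nat.odd_iff.2 (Nat.two_dvd_ne_zero.1 h2)
  have hbot := hO N hNn hodd
  rw [hbot] at hNP
  exact Subgroup.isComplement'_bot_left.1 hNP

end fusion

end Cfsg.Agent.Lib.Helper91
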