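import Mathlib

set_option autoImplicit false

namespace Cfsg.Agent.Lib.Helper91

open QuaternionGroup

/-- if `j ^ m ≡ 1` modulo `2 ^ k` with `m` odd then `j ≡ 1` -/
theorem odd_pow_modEq_one {k j m : ℕ} (hk : 1 ≤ k) (hm : Odd m)
    (h : j ^ m ≡ 1 [MOD 2 ^ k]) : j ≡ 1 [MOD 2 ^ k] := by
  have hm0 : m ≠ 0 := by rintro rfl; simp at hm
  have hcop : Nat.Coprime j (2 ^ k) := by
    have h1 : Nat.Coprime (j ^ m) (2 ^ k) := by
      have := h.gcd_eq
      rw [Nat.Coprime, this]; simp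
    exact (Nat.coprime_pow_left_iff (Nat.pos_of_ne_zero hm0) _ _).mp h1
  let u : (ZMod (2 ^ k))ˣ := ZMod.unitOfCoprime j hcop
  have hu1 : u ^ m = 1 := by
    ext
    rw [Units.val_pow_eq_pow_val, ZMod.coe_unitOfCoprime, Units.val_one]
    have := (ZMod.natCast_eq_natCast_iff _ _ _).mpr h
    push_cast at this
    exact this
  have hu2 : u ^ (2 ^ k).totient = 1 := ZMod.pow_totient u
  have hord : orderOf u = 1 := by
    have d1 := orderOf_dvd_of_pow_eq_one hu1
    have d2 := orderOf_dvd_of_pow_eq_one hu2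
    rw [Nat.totient_prime_pow Nat.prime_two (by omega)] at d2
    have hc : Nat.Coprime m (2 ^ (k - 1) * (2 - 1)) := by
      simp only [Nat.add_one_sub_one, mul_one]
      exact Nat.Coprime.pow_right _ (Nat.coprime_two_right.mpr hm)
    have := Nat.dvd_gcd d1 d2
    rw [hc] at this
    exact Nat.dvd_one.mp this
  have hu : u = 1 := orderOf_eq_one_iff.mp hord
  have hj : (j : ZMod (2 ^ k)) = 1 := by
    have := congrArg Units.val hu
    rwa [ZMod.coe_unitOfCoprime, Units.val_one] at this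
  exact (ZMod.natCast_eq_natCast_iff _ _ _).mp (by push_cast; exact hj)

section

variable {H : Type*} [Group H] {n : ℕ} [NeZero n]

/-- A surjection from the generalised quaternion group of order `4n` that kills the central
involution and whose kernel has exponent two: the target is dihedral of order `2n`. -/
structure DihQuot (ψ : QuaternionGroup n →* H) : Prop where
  surj : Function.Surjective ψ
  an : ψ (a (n : ZMod (2 * n))) = 1
  ker : ∀ y, ψ y = 1 → y * y = 1

namespace DihQuot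

variable {ψ : QuaternionGroup n →* H}

omit [NeZero n] in
theorem psi_a [NeZero n] (i : ZMod (2 * n)) : ψ (a i) = ψ (a 1) ^ i.val := by
  rw [← map_pow, a_one_pow, ZMod.natCast_zmod_val]

omit [NeZero n] in
theorem psi_xa [NeZero n] (i : ZMod (2 * n)) : ψ (xa i) = ψ (xa 0) * ψ (a 1) ^ i.val := by
  rw [← psi_a, ← map_mul, xa_mul_a, zero_add]

theorem n_ne : (n : ZMod (2 * n)) ≠ 0 := by
  intro h
  rw [ZMod.natCast_eq_zero_iff] at h
  have := Nat.le_of_dvd (Nat.pos_of_ne_zero (NeZero.ne n)) h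
  have := Nat.pos_of_ne_zero (NeZero.ne n)
  omega

theorem psi_xa_ne (h : DihQuot ψ) (i : ZMod (2 * n)) : ψ (xa i) ≠ 1 := by
  intro h1
  have := h.ker _ h1
  rw [xa_mul_xa, one_def] at this
  have h2 : (n : ZMod (2 * n)) + i - i = 0 := by injection this
  rw [add_sub_cancel_right] at h2
  exact n_ne h2

omit [NeZero n] in
theorem dvd_of_psi_a (h : DihQuot ψ) (i : ℕ) (hi : ψ (a (i : ZMod (2 * n))) = 1) : n ∣ i := by
  have := h.ker _ hi
  rw [a_mul_a, one_def] at this
  have h2 : (i : ZMod (2 * n)) + i = 0 := by injection this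
  have h3 : ((i + i : ℕ) : ZMod (2 * n)) = 0 := by push_cast; exact h2
  rw [ZMod.natCast_eq_zero_iff] at h3
  have : 2 * n ∣ 2 * i := by rwa [two_mul i]
  exact Nat.dvd_of_mul_dvd_mul_left (by norm_num) this

theorem orderOf_a_one (h : DihQuot ψ) : orderOf (ψ (a 1)) = n := by
  have hn := Nat.pos_of_ne_zero (NeZero.ne n)
  rw [orderOf_eq_iff hn]
  refine ⟨?_, ?_⟩
  · rw [← map_pow, a_one_pow]; exact h.an
  · intro m hm hm0 h1
    rw [← map_pow, a_one_pow] at h1
    have := Nat.le_of_dvd hm0 (h.dvd_of_psi_a m h1)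
    omega

theorem orderOf_xa (h : DihQuot ψ) (i : ZMod (2 * n)) : orderOf (ψ (xa i)) = 2 := by
  refine orderOf_eq_prime ?_ (h.psi_xa_ne i)
  rw [pow_two, ← map_mul, xa_mul_xa, add_sub_cancel_right]
  exact h.an

theorem closure_invol (h : DihQuot ψ) : Subgroup.closure {y : H | orderOf y = 2} = ⊤ := by
  rw [eq_top_iff]
  intro y _
  obtain ⟨q, rfl⟩ := h.surj y
  cases q with
  | a i =>
    have : (a i : QuaternionGroup n) = xa 0 * xa (i - (n : ZMod (2 * n))) := by
      rw [xa_mul_xa]; congr 1; ring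
    rw [this, map_mul]
    exact Subgroup.mul_mem _ (Subgroup.subset_closure (h.orderOf_xa _))
      (Subgroup.subset_closure (h.orderOf_xa _))
  | xa i => exact Subgroup.subset_closure (h.orderOf_xa i)

theorem ne_one (h : DihQuot ψ) : ∃ y : H, y ≠ 1 := ⟨_, h.psi_xa_ne 0⟩

end DihQuot

end

/-- an automorphism of odd order of a dihedral 2-group of order at least 8 is trivial -/
theorem DihQuot.aut_odd {H : Type*} [Group H] {n : ℕ} [NeZero n] {k : ℕ} (hk : 2 ≤ k)
    (hnk : n = 2 ^ k)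
    {ψ : QuaternionGroup n →* H} (h : DihQuot ψ) (β : MulAut H)
    (hβ : Odd (orderOf β)) : β = 1 := by
  have hn4 : 4 ≤ n := by
    rw [hnk]
    calc 4 = 2 ^ 2 := by norm_num
      _ ≤ 2 ^ k := Nat.pow_le_pow_right (by norm_num) hk
  have hordA : orderOf (ψ (a 1)) = n := h.orderOf_a_one
  -- Step 1
  have h1 : ∃ j : ℕ, β (ψ (a 1)) = ψ (a 1) ^ j := by
    obtain ⟨q, hq⟩ := h.surj (β (ψ (a 1)))
    cases q with
    | a i => exact ⟨i.val, by rw [← hq, DihQuot.psi_a]⟩
    | xa i =>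
      exfalso
      have h2 : β (ψ (a 1)) ^ 2 = 1 := by
        rw [← hq]
        have := h.orderOf_xa i
        exact this ▸ pow_orderOf_eq_one (ψ (xa i))
      have h3 : ψ (a 1) ^ 2 = 1 := by
        have : β (ψ (a 1) ^ 2) = β 1 := by rw [map_pow, h2, map_one]
        exact β.injective this
      have h4 : orderOf (ψ (a 1)) ∣ 2 := orderOf_dvd_of_pow_eq_one h3
      rw [hordA] at h4
      have := Nat.le_of_dvd (by norm_num) h4
      omega
  obtain ⟨j, hj⟩ := h1
  have hpow : ∀ r : ℕ, (β ^ r) (ψ (a 1)) = ψ (a 1) ^ (j ^ r) := by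
    intro r
    induction r with
    | zero => simp
    | succ r ih =>
      rw [pow_succ' β r, MulAut.mul_apply, ih, map_pow, hj, ← pow_mul, pow_succ' j r]
  have hm := hpow (orderOf β)
  rw [pow_orderOf_eq_one, MulAut.one_apply] at hm
  have hmod : j ^ orderOf β ≡ 1 [MOD 2 ^ k] := by
    have : ψ (a 1) ^ (j ^ orderOf β) = ψ (a 1) ^ 1 := by rw [pow_one]; exact hm.symm
    rw [pow_eq_pow_iff_modEq, hordA, hnk] at this
    exact this
  have hj1 : j ≡ 1 [MOD 2 ^ k] := odd_pow_modEq_one (by omega) hβ hmod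
  have hβA : β (ψ (a 1)) = ψ (a 1) := by
    rw [hj]
    have : ψ (a 1) ^ j = ψ (a 1) ^ 1 := by
      rw [pow_eq_pow_iff_modEq, hordA, hnk]; exact hj1
    rw [this, pow_one]
  have hAn : ψ (a 1) ^ n = 1 := by
    have := pow_orderOf_eq_one (ψ (a 1))
    rwa [hordA] at this
  -- Step 3
  have h3 : ∃ c : H, β (ψ (xa 0)) = ψ (xa 0) * c ∧ β c = c ∧ c ^ n = 1 := by
    obtain ⟨q, hq⟩ := h.surj (β (ψ (xa 0)))
    cases q with
    | a i =>
      exfalso
      have h5 : β (ψ (xa 0)) = β (ψ (a 1) ^ i.val) := by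
        rw [map_pow, hβA, ← hq, DihQuot.psi_a]
      have hXA : ψ (xa 0) = ψ (a i) := by
        rw [DihQuot.psi_a]; exact β.injective h5
      apply h.psi_xa_ne (0 - i)
      have : (xa (0 - i) : QuaternionGroup n) = xa 0 * (a i)⁻¹ := by
        rw [eq_mul_inv_iff_mul_eq, xa_mul_a]; congr 1; ring
      rw [this, map_mul, map_inv, hXA, mul_inv_cancel]
    | xa i =>
      refine ⟨ψ (a 1) ^ i.val, ?_, ?_, ?_⟩
      · rw [← hq, DihQuot.psi_xa]
      · rw [map_pow, hβA]
      · rw [← pow_mul, mul_comm (ZMod.val i) n, pow_mul, hAn, one_pow]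
  obtain ⟨c, hc1, hc2, hc3⟩ := h3
  have hpowX : ∀ r : ℕ, (β ^ r) (ψ (xa 0)) = ψ (xa 0) * c ^ r := by
    intro r
    induction r with
    | zero => simp
    | succ r ih =>
      rw [pow_succ' β r, MulAut.mul_apply, ih, map_mul, map_pow, hc2, hc1, mul_assoc,
        ← pow_succ' c r]
  have hmX := hpowX (orderOf β)
  rw [pow_orderOf_eq_one, MulAut.one_apply] at hmX
  have hcm : c ^ orderOf β = 1 := by
    have : ψ (xa 0) * 1 = ψ (xa 0) * c ^ orderOf β := by rw [mul_one]; exact hmX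
    exact (mul_left_cancel this).symm
  have hc : c = 1 := by
    have d1 : orderOf c ∣ orderOf β := orderOf_dvd_of_pow_eq_one hcm
    have d2 : orderOf c ∣ 2 ^ k := by rw [← hnk]; exact orderOf_dvd_of_pow_eq_one hc3
    have hcop : Nat.Coprime (orderOf β) (2 ^ k) :=
      Nat.Coprime.pow_right _ (Nat.coprime_two_right.mpr hβ)
    have := Nat.dvd_gcd d1 d2
    rw [hcop] at this
    exact orderOf_eq_one_iff.mp (Nat.dvd_one.mp this)
  have hβX : β (ψ (xa 0)) = ψ (xa 0) := by rw [hc1, hc, mul_one]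
  ext y
  obtain ⟨q, rfl⟩ := h.surj y
  cases q with
  | a i => rw [DihQuot.psi_a, map_pow, hβA]; rfl
  | xa i => rw [DihQuot.psi_xa, map_mul, map_pow, hβA, hβX]; rfl

end Cfsg.Agent.Lib.Helper91
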