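import Mathlib

set_option autoImplicit false

namespace Cfsg.Agent.Lib.Helper91

/-- Structure of a non-abelian group of order `p ^ 3`: a non-trivial commutator `c` is central,
generates the centre, and every commutator is a power of it. -/
theorem heis_type {Q : Type*} [Group Q] [Finite Q] {p : ℕ} [Fact p.Prime]
    (hcard : Nat.card Q = p ^ 3) (hnc : ¬ ∀ a b : Q, a * b = b * a) :
    ∃ x y : Q, y * x * y⁻¹ * x⁻¹ ≠ 1 ∧ (∀ q : Q, q * (y * x * y⁻¹ * x⁻¹) = (y * x * y⁻¹ * x⁻¹) * q) ∧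
      (∀ q : Q, (∀ r : Q, q * r = r * q) → q ∈ Subgroup.zpowers (y * x * y⁻¹ * x⁻¹)) ∧
      (∀ q r : Q, q * r * q⁻¹ * r⁻¹ ∈ Subgroup.zpowers (y * x * y⁻¹ * x⁻¹)) := by
  have hp : p.Prime := Fact.out
  have hQ : IsPGroup p Q := IsPGroup.of_card hcard
  have hnt : Nontrivial Q := by
    rw [← Finite.one_lt_card_iff_nontrivial, hcard]
    exact Nat.one_lt_pow (by norm_num) hp.one_lt
  have hcnt : Nontrivial (Subgroup.center Q) := hQ.center_nontrivial
  have hdvd : Nat.card (Subgroup.center Q) ∣ p ^ 3 := hcard ▸ Subgroup.card_subgroup_dvd_card _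
  obtain ⟨k, hk3, hk⟩ := (Nat.dvd_prime_pow hp).1 hdvd
  have hk0 : k ≠ 0 := by
    rintro rfl
    rw [pow_zero] at hk
    have := Finite.one_lt_card_iff_nontrivial.2 hcnt
    omega
  have hidx : Nat.card (Q ⧸ Subgroup.center Q) * p ^ k = p ^ 3 := by
    rw [← hk, ← hcard, ← Subgroup.index_eq_card, Subgroup.index_mul_card]
  -- k = 1
  have hk1 : k = 1 := by
    by_contra hk1
    have hk23 : k = 2 ∨ k = 3 := by omega
    apply hnc
    rcases hk23 with rfl | rfl
    · have hq : Nat.card (Q ⧸ Subgroup.center Q) = p := by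
        have : Nat.card (Q ⧸ Subgroup.center Q) * p ^ 2 = p * p ^ 2 := by rw [hidx]; ring
        exact Nat.eq_of_mul_eq_mul_right (pow_pos hp.pos 2) this
      have hcyc : IsCyclic (Q ⧸ Subgroup.center Q) := isCyclic_of_prime_card hq
      intro a b
      exact (MonoidHom.isMulCommutative_of_isCyclic_of_ker_le_center
        (QuotientGroup.mk' (Subgroup.center Q)) (by simp)).is_comm.comm a b
    · have htop : Subgroup.center Q = ⊤ := by
        apply Subgroup.eq_top_of_card_eq
        rw [hk, hcard]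
      intro a b
      have hb : b ∈ Subgroup.center Q := htop ▸ Subgroup.mem_top b
      exact (Subgroup.mem_center_iff.1 hb a)
  subst hk1
  rw [pow_one] at hk
  have hq : Nat.card (Q ⧸ Subgroup.center Q) = p ^ 2 := by
    have : Nat.card (Q ⧸ Subgroup.center Q) * p ^ 1 = p ^ 2 * p ^ 1 := by rw [hidx]; ring
    exact Nat.eq_of_mul_eq_mul_right (pow_pos hp.pos 1) this
  have hqc : ∀ a b : Q ⧸ Subgroup.center Q, a * b = b * a :=
    fun a b => (IsPGroup.isMulCommutative_of_card_eq_prime_sq hq).is_comm.comm a b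
  have hcomm : ∀ q r : Q, q * r * q⁻¹ * r⁻¹ ∈ Subgroup.center Q := by
    intro q r
    rw [← QuotientGroup.eq_one_iff]
    simp only [QuotientGroup.mk_mul, QuotientGroup.mk_inv]
    rw [hqc (q : Q ⧸ Subgroup.center Q) r]
    group
  push Not at hnc
  obtain ⟨x, y, hxy⟩ := hnc
  have hc1 : y * x * y⁻¹ * x⁻¹ ≠ 1 := by
    intro h
    apply hxy
    have : y * x = x * y := by
      calc y * x = (y * x * y⁻¹ * x⁻¹) * (x * y) := by group
        _ = x * y := by rw [h, one_mul]
    exact this.symm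
  refine ⟨x, y, hc1, ?_⟩
  obtain ⟨c, hc⟩ : ∃ c, c = y * x * y⁻¹ * x⁻¹ := ⟨_, rfl⟩
  rw [← hc] at hc1 ⊢
  have hcz : c ∈ Subgroup.center Q := hc ▸ hcomm y x
  have hle : Subgroup.zpowers c ≤ Subgroup.center Q := by
    rw [Subgroup.zpowers_le]; exact hcz
  have hord : orderOf c = p := by
    have h1 : orderOf (⟨c, hcz⟩ : Subgroup.center Q) ∣ p := hk ▸ orderOf_dvd_natCard _
    have h2 : orderOf (⟨c, hcz⟩ : Subgroup.center Q) = orderOf c := by
      rw [← Subgroup.orderOf_coe]
    rw [h2] at h1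
    rcases (Nat.dvd_prime hp).1 h1 with h | h
    · exact absurd (orderOf_eq_one_iff.1 h) hc1
    · exact h
  have heq : Subgroup.zpowers c = Subgroup.center Q := by
    apply Subgroup.eq_of_le_of_card_ge hle
    rw [Nat.card_zpowers, hord, hk]
  refine ⟨?_, ?_, ?_⟩
  · intro q
    exact (Subgroup.mem_center_iff.1 hcz q)
  · intro q hq'
    rw [heq, Subgroup.mem_center_iff]
    intro r
    exact (hq' r).symm
  · intro q r
    rw [heq]
    exact hcomm q r

end Cfsg.Agent.Lib.Helper91
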