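import Mathlib
import Cfsg.Agent.Lib.Helper91.EqOrdA
import Cfsg.Agent.Lib.Helper91.BSQ8Fusion
import Cfsg.Agent.Lib.Helper91.ZStarLift
import Cfsg.Agent.S0215

set_option autoImplicit false

namespace Cfsg.Agent.Lib.Helper91

open scoped Pointwise

/-- Subgroup form of `heis_type`. -/
theorem heis_type_sub {G : Type*} [Group G] [Finite G] {p : ℕ} [Fact p.Prime] (P : Subgroup G)
    (hcard : Nat.card P = p ^ 3) (hnc : ¬ IsMulCommutative P) :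
    ∃ x ∈ P, ∃ y ∈ P, y * x * y⁻¹ * x⁻¹ ≠ 1 ∧
      (∀ q ∈ P, q * (y * x * y⁻¹ * x⁻¹) = (y * x * y⁻¹ * x⁻¹) * q) ∧
      (∀ q ∈ P, (∀ r ∈ P, q * r = r * q) → q ∈ Subgroup.zpowers (y * x * y⁻¹ * x⁻¹)) ∧
      (∀ q ∈ P, ∀ r ∈ P, q * r * q⁻¹ * r⁻¹ ∈ Subgroup.zpowers (y * x * y⁻¹ * x⁻¹)) := by
  have hnc' : ¬ ∀ a b : P, a * b = b * a := fun h => hnc ⟨⟨h⟩⟩
  obtain ⟨x, y, hc1, hcen, hz, hcm⟩ := heis_type hcard hnc'
  have hmem : ∀ q : P, q ∈ Subgroup.zpowers (y * x * y⁻¹ * x⁻¹) →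
      (q : G) ∈ Subgroup.zpowers ((y : G) * x * (y : G)⁻¹ * (x : G)⁻¹) := by
    intro q hq
    obtain ⟨k, hk⟩ := Subgroup.mem_zpowers_iff.1 hq
    refine Subgroup.mem_zpowers_iff.2 ⟨k, ?_⟩
    rw [← hk]
    simp
  refine ⟨x, x.2, y, y.2, ?_, ?_, ?_, ?_⟩
  · intro h
    apply hc1
    exact Subtype.ext (by simpa using h)
  · intro q hq
    have := congrArg Subtype.val (hcen ⟨q, hq⟩)
    simpa using this
  · intro q hq hr
    apply hmem ⟨q, hq⟩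
    apply hz
    intro r
    exact Subtype.ext (hr r r.2)
  · intro q hq r hr
    have := hmem _ (hcm ⟨q, hq⟩ ⟨r, hr⟩)
    simpa using this

/-- A `p`-element of a subgroup `C` containing a Sylow `p`-subgroup `Q` of `G` is conjugate into
`Q` by an element of `C`. -/
theorem sylow_conj_in {G : Type*} [Group G] [Finite G] {p : ℕ} [Fact p.Prime]
    (Q : Sylow p G) (C : Subgroup G) (hQC : (Q : Subgroup G) ≤ C) (c : G) (hc : c ∈ C)
    (hcp : c ^ p = 1) : ∃ d ∈ C, d * c * d⁻¹ ∈ (Q : Subgroup G) := by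
  have hpg : IsPGroup p (Subgroup.zpowers (⟨c, hc⟩ : C)) := by
    rintro ⟨g, hg⟩
    obtain ⟨k, rfl⟩ := Subgroup.mem_zpowers_iff.1 hg
    refine ⟨1, Subtype.ext (Subtype.ext ?_)⟩
    show (c ^ k) ^ p ^ 1 = 1
    rw [pow_one, ← zpow_natCast, ← zpow_mul, mul_comm, zpow_mul, zpow_natCast, hcp, one_zpow]
  obtain ⟨R, hR⟩ := hpg.exists_le_sylow
  obtain ⟨d, hd⟩ := MulAction.exists_smul_eq C R (Q.subtype hQC)
  refine ⟨d, d.2, ?_⟩
  have h1 : (⟨c, hc⟩ : C) ∈ (R : Subgroup C) := hR (Subgroup.mem_zpowers _)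
  have h2 : MulAut.conj d • (⟨c, hc⟩ : C) ∈ MulAut.conj d • (R : Subgroup C) :=
    Subgroup.smul_mem_pointwise_smul _ (MulAut.conj d) _ h1
  rw [← Sylow.coe_subgroup_smul, hd] at h2
  exact h2

/-- If `a` inverts `x` then so does every odd power of `a`. -/
theorem inv_conj_pow_odd {G : Type*} [Group G] {a x : G} (h : a * x * a⁻¹ = x⁻¹) {m : ℕ}
    (hm : Odd m) : a ^ m * x * (a ^ m)⁻¹ = x⁻¹ := by
  have h1 : a * x = x⁻¹ * a := by rw [← h]; group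
  have h1' : a * x⁻¹ = x * a := by
    have h0 : a * x⁻¹ * a⁻¹ = x := by
      have h' := congrArg (fun u => u⁻¹) h
      simp only [mul_inv_rev, inv_inv] at h'
      rw [mul_assoc]; exact h'
    calc a * x⁻¹ = (a * x⁻¹ * a⁻¹) * a := by group
      _ = x * a := by rw [h0]
  have h2 : Commute (a ^ 2) x := by
    show a ^ 2 * x = x * a ^ 2
    rw [pow_two, mul_assoc, h1, ← mul_assoc, h1', mul_assoc]
  obtain ⟨k, rfl⟩ := hm
  have h3 : Commute (a ^ (2 * k)) x⁻¹ := by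
    rw [pow_mul]; exact (h2.pow_left k).inv_right
  calc a ^ (2 * k + 1) * x * (a ^ (2 * k + 1))⁻¹
      = a ^ (2 * k) * (a * x * a⁻¹) * (a ^ (2 * k))⁻¹ := by
        rw [pow_succ]; simp only [mul_inv_rev, mul_assoc]
    _ = x⁻¹ := by rw [h, h3.eq, mul_inv_cancel_right]

/-- Two transvections with different centres on `⟨c, x⟩` combine to an element whose square
inverts `x`. -/
theorem transv_sq_inv {G : Type*} [Group G] {x c y v : G} (hcx : c * x = x * c)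
    (hyx : y * x * y⁻¹ = c * x) (hyc : y * c * y⁻¹ = c) (hvx : v * x * v⁻¹ = x)
    (hvc : v * c * v⁻¹ = (x ^ 2)⁻¹ * c) :
    (y * v) ^ 2 * x * ((y * v) ^ 2)⁻¹ = x⁻¹ := by
  have e1 : (y * v) * x * (y * v)⁻¹ = c * x := by
    calc (y * v) * x * (y * v)⁻¹ = y * (v * x * v⁻¹) * y⁻¹ := by group
      _ = c * x := by rw [hvx, hyx]
  have e2 : (y * v) * c * (y * v)⁻¹ = ((c * x) ^ 2)⁻¹ * c := by
    calc (y * v) * c * (y * v)⁻¹ = y * (v * c * v⁻¹) * y⁻¹ := by group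
      _ = y * ((x ^ 2)⁻¹ * c) * y⁻¹ := by rw [hvc]
      _ = ((y * x * y⁻¹) ^ 2)⁻¹ * (y * c * y⁻¹) := by
        simp only [pow_two, mul_inv_rev, inv_inv, mul_assoc, inv_mul_cancel_left]
      _ = ((c * x) ^ 2)⁻¹ * c := by rw [hyx, hyc]
  have e3 : (y * v) * (c * x) * (y * v)⁻¹ = x⁻¹ := by
    calc (y * v) * (c * x) * (y * v)⁻¹
        = ((y * v) * c * (y * v)⁻¹) * ((y * v) * x * (y * v)⁻¹) := by group
      _ = ((c * x) ^ 2)⁻¹ * c * (c * x) := by rw [e1, e2]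
      _ = x⁻¹ := by
        have hc : c * (c * x) = (c * x) * c := by rw [mul_assoc, hcx]
        rw [mul_assoc, hc, pow_two]; group
  calc (y * v) ^ 2 * x * ((y * v) ^ 2)⁻¹
      = (y * v) * ((y * v) * x * (y * v)⁻¹) * (y * v)⁻¹ := by
        simp only [pow_two, mul_inv_rev, mul_assoc]
    _ = x⁻¹ := by rw [e1, e3]

end Cfsg.Agent.Lib.Helper91
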