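import Mathlib
import Cfsg.Agent.Lib.Helper91.EqOrdB

set_option autoImplicit false

namespace Cfsg.Agent.Lib.Helper91

open scoped Pointwise

/-- In a finite group in which `p`-subgroups of equal order are conjugate (all `p`) and whose
Sylow 2-subgroups are cyclic, elementary abelian or `Q₈`, no Sylow `p`-subgroup (`p` odd) is
non-abelian of order `p ^ 3` and exponent `p`. -/
theorem no_heis_sylow {G : Type*} [Group G] [Finite G]
    (hD : ∀ p : ℕ, p.Prime → ∀ H K : Subgroup G, IsPGroup p H → IsPGroup p K →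
      Nat.card H = Nat.card K → ∃ g : G, K = H.map (MulAut.conj g).toMonoidHom)
    (hS2 : ∀ S : Sylow 2 G, IsCyclic (S : Subgroup G) ∨
      Cfsg.IsElementaryAbelian 2 (S : Subgroup G) ∨
      Nonempty ((S : Subgroup G) ≃* QuaternionGroup 2))
    {p : ℕ} [Fact p.Prime] (P : Sylow p G) (hp2 : p ≠ 2)
    (hnc : ¬ IsMulCommutative (P : Subgroup G)) (hcard : Nat.card (P : Subgroup G) = p ^ 3)
    (hexp : ∀ q ∈ (P : Subgroup G), q ^ p = 1) : False := by
  have hp : p.Prime := Fact.out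
  have hodd : Odd p := hp.odd_of_ne_two hp2
  obtain ⟨x, hxP, y, hyP, hc1, hcen, hzc, hcomm⟩ := heis_type_sub (P : Subgroup G) hcard hnc
  obtain ⟨c, hc⟩ : ∃ c, c = y * x * y⁻¹ * x⁻¹ := ⟨_, rfl⟩
  rw [← hc] at hc1 hcen hzc hcomm
  have hcP : c ∈ (P : Subgroup G) := by
    rw [hc]; exact mul_mem (mul_mem (mul_mem hyP hxP) (inv_mem hyP)) (inv_mem hxP)
  have hyx : y * x * y⁻¹ = c * x := by rw [hc]; group
  have hx1 : x ≠ 1 := by
    rintro rfl
    apply hc1; rw [hc]; group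
  have hxp : x ^ p = 1 := hexp x hxP
  have hcp : c ^ p = 1 := hexp c hcP
  have hyp : y ^ p = 1 := hexp y hyP
  have hox : orderOf x = p := orderOf_eq_prime hxp hx1
  -- nothing trivial inverts x
  have hclose : ∀ a : G, a = 1 → a * x * a⁻¹ = x⁻¹ → False := by
    rintro a rfl h
    rw [one_mul, inv_one, mul_one] at h
    have h2 : x ^ 2 = 1 := by
      rw [pow_two]; nth_rewrite 1 [h]; exact inv_mul_cancel x
    have h3 := orderOf_dvd_of_pow_eq_one h2
    rw [hox] at h3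
    exact hp2 ((Nat.prime_dvd_prime_iff_eq hp Nat.prime_two).1 h3)
  have hpz : ∀ q : G, q ^ p = 1 → IsPGroup p (Subgroup.zpowers q) := by
    intro q hq
    rintro ⟨g, hg⟩
    obtain ⟨k, rfl⟩ := Subgroup.mem_zpowers_iff.1 hg
    refine ⟨1, Subtype.ext ?_⟩
    show (q ^ k) ^ p ^ 1 = 1
    rw [pow_one, ← zpow_natCast, ← zpow_mul, mul_comm, zpow_mul, zpow_natCast, hq, one_zpow]
  have hcardz : ∀ q : G, q ^ p = 1 → q ≠ 1 → Nat.card (Subgroup.zpowers q) = p := by
    intro q hq hq1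
    rw [Nat.card_zpowers, orderOf_eq_prime hq hq1]
  -- conjugacy of ⟨x⟩ and ⟨c⟩
  obtain ⟨g, hg⟩ := hD p hp (Subgroup.zpowers x) (Subgroup.zpowers c) (hpz x hxp) (hpz c hcp)
    (by rw [hcardz c hcp hc1, hcardz x hxp hx1])
  have hgx : ∀ s ∈ Subgroup.zpowers x, g * s * g⁻¹ ∈ Subgroup.zpowers c := by
    intro s hs
    rw [hg]
    exact ⟨s, hs, rfl⟩
  have hgc : ∀ u ∈ Subgroup.zpowers c, ∃ s ∈ Subgroup.zpowers x, g * s * g⁻¹ = u := by
    intro u hu
    rw [hg] at hu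
    obtain ⟨s, hs, hsu⟩ := hu
    exact ⟨s, hs, hsu⟩
  have hzcen : ∀ u ∈ Subgroup.zpowers c, ∀ q ∈ (P : Subgroup G), q * u = u * q := by
    intro u hu q hq
    obtain ⟨k, rfl⟩ := Subgroup.mem_zpowers_iff.1 hu
    exact ((show Commute q c from hcen q hq).zpow_right k).eq
  have hcx : c * x = x * c := (hcen x hxP).symm
  have hxc : ∀ s ∈ Subgroup.zpowers x, s * c = c * s := by
    intro s hs
    obtain ⟨k, rfl⟩ := Subgroup.mem_zpowers_iff.1 hs
    exact ((show Commute x c from hcx.symm).zpow_left k).eq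
  -- Sylow conjugation inside the centralizer of ⟨c⟩
  obtain ⟨d, hdC, hdP⟩ := sylow_conj_in P (Subgroup.centralizer (Subgroup.zpowers c : Set G))
    (by
      intro q hq
      rw [Subgroup.mem_centralizer_iff]
      intro u hu
      exact (hzcen u hu q hq).symm)
    (g * c * g⁻¹)
    (by
      rw [Subgroup.mem_centralizer_iff]
      intro u hu
      obtain ⟨s, hs, rfl⟩ := hgc u hu
      calc g * s * g⁻¹ * (g * c * g⁻¹) = g * (s * c) * g⁻¹ := by group
        _ = g * (c * s) * g⁻¹ := by rw [hxc s hs]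
        _ = g * c * g⁻¹ * (g * s * g⁻¹) := by group)
    (by rw [conj_pow, hcp, mul_one, mul_inv_cancel])
  have hdcen : ∀ u ∈ Subgroup.zpowers c, d * u = u * d := by
    intro u hu
    exact ((Subgroup.mem_centralizer_iff.1 hdC) u hu).symm
  obtain ⟨c0, hc0⟩ : ∃ c0, c0 = d * (g * c * g⁻¹) * d⁻¹ := ⟨_, rfl⟩
  rw [← hc0] at hdP
  -- c0 is not central in P
  have hc0nc : ∃ y0 ∈ (P : Subgroup G), y0 * c0 * y0⁻¹ * c0⁻¹ ≠ 1 := by
    by_contra hcon
    push Not at hcon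
    have h1 : c0 ∈ Subgroup.zpowers c := by
      apply hzc c0 hdP
      intro r hr
      have h2 := hcon r hr
      calc c0 * r = (r * c0 * r⁻¹ * c0⁻¹)⁻¹ * (r * c0) := by group
        _ = r * c0 := by rw [h2, inv_one, one_mul]
    obtain ⟨s, hs, hs0⟩ := hgc c0 h1
    have h3 : c = s := by
      have h4 : d * (g * s * g⁻¹) = (g * s * g⁻¹) * d := hdcen _ (hgx s hs)
      have h5 : d * (g * c * g⁻¹) * d⁻¹ = d * (g * s * g⁻¹) * d⁻¹ := by
        rw [← hc0, h4, mul_inv_cancel_right, hs0]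
      have h6 : g * c * g⁻¹ = g * s * g⁻¹ := by
        have := congrArg (fun u => d⁻¹ * u * d) h5
        simpa [mul_assoc] using this
      have := congrArg (fun u => g⁻¹ * u * g) h6
      simpa [mul_assoc] using this
    have h7 : Subgroup.zpowers c ≤ Subgroup.zpowers x := by
      rw [Subgroup.zpowers_le, h3]; exact hs
    have h8 : Subgroup.zpowers c = Subgroup.zpowers x := by
      apply Subgroup.eq_of_le_of_card_ge h7
      rw [hcardz c hcp hc1, hcardz x hxp hx1]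
    have h9 : x ∈ Subgroup.zpowers c := h8 ▸ Subgroup.mem_zpowers x
    have h10 : y * x = x * y := hzcen x h9 y hyP
    apply hc1
    rw [hc, h10]; group
  obtain ⟨y0, hy0P, hk0⟩ := hc0nc
  obtain ⟨k0, hk0def⟩ : ∃ k0, k0 = y0 * c0 * y0⁻¹ * c0⁻¹ := ⟨_, rfl⟩
  rw [← hk0def] at hk0
  have hk0z : k0 ∈ Subgroup.zpowers c := hk0def ▸ hcomm y0 hy0P c0 hdP
  obtain ⟨ε, hεx, hεk⟩ := hgc k0 hk0z
  have hε1 : ε ≠ 1 := by
    rintro rfl
    apply hk0
    rw [← hεk]; group
  -- the second transvection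
  obtain ⟨w, hw⟩ : ∃ w, w = (d * g)⁻¹ * y0 * (d * g) := ⟨_, rfl⟩
  have hwp : w ^ p = 1 := by
    have : w = (d * g)⁻¹ * y0 * ((d * g)⁻¹)⁻¹ := by rw [hw, inv_inv]
    rw [this, conj_pow, hexp y0 hy0P, mul_one, mul_inv_cancel]
  have hdg : ∀ s ∈ Subgroup.zpowers x, (d * g) * s * (d * g)⁻¹ = g * s * g⁻¹ := by
    intro s hs
    have h4 : d * (g * s * g⁻¹) = (g * s * g⁻¹) * d := hdcen _ (hgx s hs)
    calc (d * g) * s * (d * g)⁻¹ = d * (g * s * g⁻¹) * d⁻¹ := by group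
      _ = g * s * g⁻¹ := by rw [h4, mul_inv_cancel_right]
  have hws : ∀ s ∈ Subgroup.zpowers x, w * s * w⁻¹ = s := by
    intro s hs
    have h1 : y0 * (g * s * g⁻¹) = (g * s * g⁻¹) * y0 := hzcen _ (hgx s hs) y0 hy0P
    calc w * s * w⁻¹ = (d * g)⁻¹ * (y0 * ((d * g) * s * (d * g)⁻¹) * y0⁻¹) * (d * g) := by
          rw [hw]; group
      _ = (d * g)⁻¹ * ((d * g) * s * (d * g)⁻¹) * (d * g) := by
          rw [hdg s hs, h1, mul_inv_cancel_right]
      _ = s := by group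
  have hwc : w * c * w⁻¹ = ε * c := by
    have h1 : (d * g) * c * (d * g)⁻¹ = c0 := by rw [hc0]; group
    have h2 : y0 * c0 * y0⁻¹ = k0 * c0 := by rw [hk0def]; group
    have h3 : (d * g)⁻¹ * k0 * (d * g) = ε := by
      have := hdg ε hεx
      rw [hεk] at this
      rw [← this]; group
    calc w * c * w⁻¹ = (d * g)⁻¹ * (y0 * ((d * g) * c * (d * g)⁻¹) * y0⁻¹) * (d * g) := by
          rw [hw]; group
      _ = (d * g)⁻¹ * (k0 * c0) * (d * g) := by rw [h1, h2]
      _ = ((d * g)⁻¹ * k0 * (d * g)) * ((d * g)⁻¹ * c0 * (d * g)) := by group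
      _ = ε * c := by
          rw [h3, ← h1]; group
  -- adjust the exponent
  have hεp : ε ^ p = 1 := by
    obtain ⟨k, rfl⟩ := Subgroup.mem_zpowers_iff.1 hεx
    rw [← zpow_natCast, ← zpow_mul, mul_comm, zpow_mul, zpow_natCast, hxp, one_zpow]
  have hεz : Subgroup.zpowers ε = Subgroup.zpowers x := by
    apply Subgroup.eq_of_le_of_card_ge
    · rw [Subgroup.zpowers_le]; exact hεx
    · rw [hcardz ε hεp hε1, hcardz x hxp hx1]
  obtain ⟨b, hb⟩ : ∃ b : ℕ, ε ^ b = (x ^ 2)⁻¹ := by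
    have h1 : (x ^ 2)⁻¹ ∈ Subgroup.zpowers ε := by
      rw [hεz]; exact inv_mem (pow_mem (Subgroup.mem_zpowers x) 2)
    have h2 : (x ^ 2)⁻¹ ∈ Submonoid.powers ε := mem_powers_iff_mem_zpowers.2 h1
    exact (Submonoid.mem_powers_iff _ _).1 h2
  have hwε : w * ε * w⁻¹ = ε := hws ε hεx
  have hwpow : ∀ n : ℕ, w ^ n * c * (w ^ n)⁻¹ = ε ^ n * c := by
    intro n
    induction n with
    | zero => simp
    | succ n ih =>
      have h1 : w * ε ^ n * w⁻¹ = ε ^ n := by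
        rw [← conj_pow, hwε]
      calc w ^ (n + 1) * c * (w ^ (n + 1))⁻¹ = w * (w ^ n * c * (w ^ n)⁻¹) * w⁻¹ := by
            rw [pow_succ']; simp only [mul_inv_rev, mul_assoc]
        _ = w * (ε ^ n * c) * w⁻¹ := by rw [ih]
        _ = (w * ε ^ n * w⁻¹) * (w * c * w⁻¹) := by group
        _ = ε ^ (n + 1) * c := by rw [h1, hwc, pow_succ, mul_assoc]
  obtain ⟨v, hv⟩ : ∃ v, v = w ^ b := ⟨_, rfl⟩
  have hvc : v * c * v⁻¹ = (x ^ 2)⁻¹ * c := by rw [hv, hwpow b, hb]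
  have hvx : v * x * v⁻¹ = x := by
    have h1 : Commute w x := by
      have := hws x (Subgroup.mem_zpowers x)
      show w * x = x * w
      calc w * x = (w * x * w⁻¹) * w := by group
        _ = x * w := by rw [this]
    have h2 : Commute v x := hv ▸ h1.pow_left b
    rw [h2.eq, mul_inv_cancel_right]
  have hyc : y * c * y⁻¹ = c := by rw [hcen y hyP, mul_inv_cancel_right]
  have hinv := transv_sq_inv hcx hyx hyc hvx hvc
  obtain ⟨h, hh⟩ : ∃ h, h = y * v := ⟨_, rfl⟩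
  rw [← hh] at hinv
  -- the 2-part
  obtain ⟨k, m, hm, hkm⟩ := Nat.exists_eq_two_pow_mul_odd (orderOf_pos h).ne'
  obtain ⟨g2, hg2⟩ : ∃ g2, g2 = h ^ m := ⟨_, rfl⟩
  have hg2pow : g2 ^ 2 ^ k = 1 := by
    rw [hg2, ← pow_mul, mul_comm, ← hkm, pow_orderOf_eq_one]
  obtain ⟨t, ht⟩ : ∃ t, t = g2 ^ 2 := ⟨_, rfl⟩
  have htx : t * x * t⁻¹ = x⁻¹ := by
    have : t = (h ^ 2) ^ m := by rw [ht, hg2, ← pow_mul, ← pow_mul, mul_comm]
    rw [this]
    exact inv_conj_pow_odd hinv hm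
  have ht1 : t ≠ 1 := fun h1 => hclose t h1 htx
  have h2g : IsPGroup 2 (Subgroup.zpowers g2) := by
    rintro ⟨q, hq⟩
    obtain ⟨j, rfl⟩ := Subgroup.mem_zpowers_iff.1 hq
    refine ⟨k, Subtype.ext ?_⟩
    show (g2 ^ j) ^ 2 ^ k = 1
    rw [← zpow_natCast, ← zpow_mul, mul_comm, zpow_mul, zpow_natCast, hg2pow, one_zpow]
  obtain ⟨S, hS⟩ := h2g.exists_le_sylow
  have hg2S : g2 ∈ (S : Subgroup G) := hS (Subgroup.mem_zpowers g2)
  -- a normal subgroup of odd order containing x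
  have hK : ∃ K : Subgroup G, K.Normal ∧ Odd (Nat.card K) ∧ x ∈ K := by
    rcases hS2 S with hcyc | hel | ⟨⟨e⟩⟩
    · obtain ⟨K, hKn, hKodd, -, hKall⟩ := exists_normal_two_complement S hcyc
      exact ⟨K, hKn, hKodd, hKall x (hox ▸ hodd)⟩
    · exact absurd (ht ▸ hel.2 g2 hg2S) ht1
    · have htS : t ∈ (S : Subgroup G) := ht ▸ pow_mem hg2S 2
      have htt : t * t = 1 := by
        have := q8s_pow4 e hg2S
        rw [ht, pow_two]; exact this
      have hot : orderOf t = 2 := orderOf_eq_prime (by rw [pow_two]; exact htt) ht1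
      have hiso : Cfsg.IsIsolatedInvolution t := by
        apply Cfsg.Agent.Lib.Helper1.isolated_of_sylow S t hot
        intro g' hg'
        refine q8s_invol_unique e hg' htS ?_ htt ?_ ht1
        · calc g' * t * g'⁻¹ * (g' * t * g'⁻¹) = g' * (t * t) * g'⁻¹ := by group
            _ = 1 := by rw [htt, mul_one, mul_inv_cancel]
        · intro h1
          apply ht1
          calc t = g'⁻¹ * (g' * t * g'⁻¹) * g' := by group
            _ = 1 := by rw [h1, mul_one, inv_mul_cancel]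
      obtain ⟨N, hNn, hNodd, hN⟩ := Cfsg.Agent.S0215.zstar_isolated t hiso
      refine ⟨N, hNn, hNodd, ?_⟩
      have h1 := hN x
      rw [htx] at h1
      have h2 : x ^ 2 ∈ N := by
        have := inv_mem h1
        rw [mul_inv_rev, inv_inv] at this
        rw [pow_two]; exact this
      obtain ⟨j, hj⟩ := hodd
      have h3 : x = (x ^ 2) ^ (j + 1) := by
        rw [← pow_mul, show 2 * (j + 1) = p + 1 by omega, pow_succ, hxp, one_mul]
      rw [h3]
      exact pow_mem h2 _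
  obtain ⟨K, hKn, hKodd, hxK⟩ := hK
  have hKp : ∀ q : G, q ^ p = 1 → q ∈ K := by
    intro q hq
    by_cases hq1 : q = 1
    · rw [hq1]; exact one_mem K
    · obtain ⟨g1, hg1⟩ := hD p hp (Subgroup.zpowers x) (Subgroup.zpowers q) (hpz x hxp)
        (hpz q hq) (by rw [hcardz q hq hq1, hcardz x hxp hx1])
      have : q ∈ (Subgroup.zpowers x).map (MulAut.conj g1).toMonoidHom :=
        hg1 ▸ Subgroup.mem_zpowers q
      obtain ⟨s, hs, rfl⟩ := this
      have hsK : s ∈ K := (Subgroup.zpowers_le.2 hxK) hs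
      exact hKn.conj_mem s hsK g1
  have hhK : h ∈ K := by
    rw [hh, hv]
    exact mul_mem (hKp y hyp) (pow_mem (hKp w hwp) b)
  have hoh : Odd (orderOf h) := Odd.of_dvd_nat hKodd (Subgroup.orderOf_dvd_natCard K hhK)
  have hfin := inv_conj_pow_odd hinv hoh
  refine hclose _ ?_ hfin
  rw [← pow_mul, mul_comm, pow_mul, pow_orderOf_eq_one, one_pow]

end Cfsg.Agent.Lib.Helper91
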