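import Mathlib
import Cfsg.Agent.Lib.Helper91.SimpleGen
import Cfsg.Agent.Lib.Helper91.SL2Invol

set_option autoImplicit false

/-! S5320 foundation: `Sp₄(F)` (Mathlib's `Matrix.symplecticGroup (Fin 2) F`), the block embedding
`iot : SL₂ × SL₂ → Sp₄` (first factor on the plane `⟨e_{inl 0}, e_{inr 0}⟩`, second factor on
`⟨e_{inl 1}, e_{inr 1}⟩`), the swap `sig`, and the subgroup `SQ Q = (Q × Q)⟨sig⟩`.  helper91. -/

namespace Cfsg.Agent.Lib.Helper91.Ps4

open Matrix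

variable {F : Type*} [Field F]

/-- the matrix of `A ⊕ B` -/
def iotM (A B : Matrix (Fin 2) (Fin 2) F) : Matrix (Fin 2 ⊕ Fin 2) (Fin 2 ⊕ Fin 2) F :=
  fromBlocks (diagonal ![A 0 0, B 0 0]) (diagonal ![A 0 1, B 0 1])
    (diagonal ![A 1 0, B 1 0]) (diagonal ![A 1 1, B 1 1])

theorem iotM_mul (A B A' B' : Matrix (Fin 2) (Fin 2) F) :
    iotM A B * iotM A' B' = iotM (A * A') (B * B') := by
  unfold iotM
  rw [fromBlocks_multiply]
  simp only [diagonal_mul_diagonal, diagonal_add]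
  congr 1 <;> (congr 1; ext i; fin_cases i <;> simp [Matrix.mul_apply, Fin.sum_univ_two])

theorem iotM_one : iotM (1 : Matrix (Fin 2) (Fin 2) F) 1 = 1 := by
  unfold iotM
  rw [← fromBlocks_one]
  congr 1 <;> (ext i j; fin_cases i <;> fin_cases j <;> simp [Matrix.one_apply])

theorem iotM_mem (A B : SpecialLinearGroup (Fin 2) F) :
    iotM A.1 B.1 ∈ Matrix.symplecticGroup (Fin 2) F := by
  have hA := A.2
  have hB := B.2
  rw [Matrix.det_fin_two] at hA hB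
  unfold iotM
  rw [SymplecticGroup.fromBlocks_mem_iff]
  simp only [diagonal_transpose, diagonal_mul_diagonal]
  refine ⟨?_, ?_, ?_⟩
  · congr 1; ext i; fin_cases i <;> simp [mul_comm]
  · congr 1; ext i; fin_cases i <;> simp [mul_comm]
  · ext i j
    fin_cases i <;> fin_cases j <;> simp [Matrix.one_apply]
    · linear_combination hA
    · linear_combination hB

/-- the block embedding `SL₂ × SL₂ → Sp₄` -/
def iot (A B : SpecialLinearGroup (Fin 2) F) : Matrix.symplecticGroup (Fin 2) F :=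
  ⟨iotM A.1 B.1, iotM_mem A B⟩

theorem iot_coe (A B : SpecialLinearGroup (Fin 2) F) : (iot A B).1 = iotM A.1 B.1 := rfl

theorem iot_mul (A B A' B' : SpecialLinearGroup (Fin 2) F) :
    iot A B * iot A' B' = iot (A * A') (B * B') := by
  apply Subtype.ext
  show iotM A.1 B.1 * iotM A'.1 B'.1 = iotM (A * A').1 (B * B').1
  rw [iotM_mul]
  rfl

theorem iot_one : iot (1 : SpecialLinearGroup (Fin 2) F) 1 = 1 := by
  apply Subtype.ext
  show iotM (1 : Matrix (Fin 2) (Fin 2) F) 1 = 1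
  exact iotM_one

theorem iot_inv (A B : SpecialLinearGroup (Fin 2) F) : (iot A B)⁻¹ = iot A⁻¹ B⁻¹ := by
  rw [inv_eq_iff_mul_eq_one, iot_mul, mul_inv_cancel, mul_inv_cancel, iot_one]

/-- the matrix of the swap of the two planes -/
def sigM : Matrix (Fin 2 ⊕ Fin 2) (Fin 2 ⊕ Fin 2) F :=
  fromBlocks !![0, 1; 1, 0] 0 0 !![0, 1; 1, 0]

theorem sigM_mem : (sigM : Matrix (Fin 2 ⊕ Fin 2) (Fin 2 ⊕ Fin 2) F) ∈
    Matrix.symplecticGroup (Fin 2) F := by
  unfold sigM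
  rw [SymplecticGroup.fromBlocks_mem_iff]
  refine ⟨by simp, by simp, ?_⟩
  ext i j
  fin_cases i <;> fin_cases j <;> simp [Matrix.mul_apply, Fin.sum_univ_two, Matrix.one_apply]

/-- the swap of the two planes -/
def sig : Matrix.symplecticGroup (Fin 2) F := ⟨sigM, sigM_mem⟩

theorem sig_coe : (sig : Matrix.symplecticGroup (Fin 2) F).1 = sigM := rfl

theorem sigM_mul_sigM : (sigM : Matrix (Fin 2 ⊕ Fin 2) (Fin 2 ⊕ Fin 2) F) * sigM = 1 := by
  unfold sigM
  rw [fromBlocks_multiply, ← fromBlocks_one]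
  congr 1 <;> (ext i j; fin_cases i <;> fin_cases j <;>
    simp [Matrix.mul_apply, Fin.sum_univ_two, Matrix.one_apply])

theorem sig_mul_sig : (sig : Matrix.symplecticGroup (Fin 2) F) * sig = 1 :=
  Subtype.ext sigM_mul_sigM

theorem sig_inv : (sig : Matrix.symplecticGroup (Fin 2) F)⁻¹ = sig := by
  rw [inv_eq_iff_mul_eq_one, sig_mul_sig]

theorem sigM_iotM (A B : Matrix (Fin 2) (Fin 2) F) : sigM * iotM A B = iotM B A * sigM := by
  unfold sigM iotM
  rw [fromBlocks_multiply, fromBlocks_multiply]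
  congr 1 <;> (ext i j; fin_cases i <;> fin_cases j <;>
    simp [Matrix.mul_apply, Fin.sum_univ_two, Matrix.diagonal_apply, Matrix.of_apply,
      Matrix.vecMul, dotProduct])

theorem sig_iot (A B : SpecialLinearGroup (Fin 2) F) : sig * iot A B = iot B A * sig :=
  Subtype.ext (sigM_iotM A.1 B.1)

theorem iot_sig (A B : SpecialLinearGroup (Fin 2) F) : iot A B * sig = sig * iot B A :=
  (sig_iot B A).symm

/-- the subgroup `(Q × Q)⟨sig⟩` of `Sp₄` -/
def SQ (Q : Subgroup (SpecialLinearGroup (Fin 2) F)) :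
    Subgroup (Matrix.symplecticGroup (Fin 2) F) where
  carrier := {g | ∃ x ∈ Q, ∃ y ∈ Q, g = iot x y ∨ g = iot x y * sig}
  one_mem' := ⟨1, Q.one_mem, 1, Q.one_mem, Or.inl iot_one.symm⟩
  mul_mem' := by
    rintro g h ⟨x, hx, y, hy, rfl | rfl⟩ ⟨x', hx', y', hy', rfl | rfl⟩
    · exact ⟨x * x', Q.mul_mem hx hx', y * y', Q.mul_mem hy hy', Or.inl (iot_mul _ _ _ _)⟩
    · refine ⟨x * x', Q.mul_mem hx hx', y * y', Q.mul_mem hy hy', Or.inr ?_⟩
      rw [← mul_assoc, iot_mul]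
    · refine ⟨x * y', Q.mul_mem hx hy', y * x', Q.mul_mem hy hx', Or.inr ?_⟩
      rw [mul_assoc, sig_iot, ← mul_assoc, iot_mul]
    · refine ⟨x * y', Q.mul_mem hx hy', y * x', Q.mul_mem hy hx', Or.inl ?_⟩
      rw [mul_assoc, ← mul_assoc sig, sig_iot, mul_assoc (iot y' x'), sig_mul_sig, mul_one, iot_mul]
  inv_mem' := by
    rintro g ⟨x, hx, y, hy, rfl | rfl⟩
    · exact ⟨x⁻¹, Q.inv_mem hx, y⁻¹, Q.inv_mem hy, Or.inl (iot_inv _ _)⟩
    · refine ⟨y⁻¹, Q.inv_mem hy, x⁻¹, Q.inv_mem hx, Or.inr ?_⟩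
      rw [_root_.mul_inv_rev, sig_inv, iot_inv, sig_iot]

theorem mem_SQ {Q : Subgroup (SpecialLinearGroup (Fin 2) F)}
    {g : Matrix.symplecticGroup (Fin 2) F} :
    g ∈ SQ Q ↔ ∃ x ∈ Q, ∃ y ∈ Q, g = iot x y ∨ g = iot x y * sig := Iff.rfl

theorem iot_mem_SQ {Q : Subgroup (SpecialLinearGroup (Fin 2) F)}
    {x y : SpecialLinearGroup (Fin 2) F} (hx : x ∈ Q) (hy : y ∈ Q) : iot x y ∈ SQ Q :=
  ⟨x, hx, y, hy, Or.inl rfl⟩

theorem sig_mem_SQ (Q : Subgroup (SpecialLinearGroup (Fin 2) F)) : sig ∈ SQ Q :=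
  ⟨1, Q.one_mem, 1, Q.one_mem, Or.inr (by rw [iot_one, one_mul])⟩

end Cfsg.Agent.Lib.Helper91.Ps4
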