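import Mathlib
import Cfsg.Agent.Lib.Helper91.Ps4

set_option autoImplicit false

/-! S5320 foundation II: explicit quaternion elements of `SL₂(F)` (`a² + b² = -1`), the
subgroup `PT Q` (for `Q = Q8` the extraspecial group `2^{1+4}_-`), and the matrices of the two
`2`-elements `u₁, u₂` normalising it.  helper91. -/

namespace Cfsg.Agent.Lib.Helper91.Ps4

open Matrix

variable {F : Type*} [Field F]

/-- `i = [[a, b], [b, -a]]`, where `a² + b² = -1` -/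
def qI (a b : F) (hab : a ^ 2 + b ^ 2 = -1) : SpecialLinearGroup (Fin 2) F :=
  ⟨!![a, b; b, -a], by rw [det_fin_two_of]; linear_combination -hab⟩

theorem qI_coe (a b : F) (hab : a ^ 2 + b ^ 2 = -1) :
    (qI a b hab : Matrix (Fin 2) (Fin 2) F) = !![a, b; b, -a] := rfl

theorem sl2J_coe : (sl2J F : Matrix (Fin 2) (Fin 2) F) = !![0, -1; 1, 0] := rfl

/-- `k = i * j`, with `j = sl2J F = [[0, -1], [1, 0]]`; its matrix is `[[b, -a], [-a, -b]]` -/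
def qK (a b : F) (hab : a ^ 2 + b ^ 2 = -1) : SpecialLinearGroup (Fin 2) F :=
  qI a b hab * sl2J F

theorem qK_coe (a b : F) (hab : a ^ 2 + b ^ 2 = -1) :
    (qK a b hab : Matrix (Fin 2) (Fin 2) F) = !![b, -a; -a, -b] := by
  show (!![a, b; b, -a] : Matrix (Fin 2) (Fin 2) F) * !![0, -1; 1, 0] = _
  ext i j
  fin_cases i <;> fin_cases j <;> simp [Matrix.mul_apply, Fin.sum_univ_two]

/-- the quaternion group `{±1, ±i, ±j, ±k}` -/
def Q8 (a b : F) (hab : a ^ 2 + b ^ 2 = -1) : Subgroup (SpecialLinearGroup (Fin 2) F) :=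
  Subgroup.closure {qI a b hab, sl2J F}

/-- `(1 + i - j - k) / 2`, an element of order `6` normalising `Q8` -/
def qA (a b : F) (hab : a ^ 2 + b ^ 2 = -1) (h2 : (2 : F) ≠ 0) : SpecialLinearGroup (Fin 2) F :=
  ⟨!![(1 + a - b) / 2, (b + 1 + a) / 2; (b - 1 + a) / 2, (1 - a + b) / 2], by
    rw [det_fin_two_of]
    field_simp
    linear_combination -2 * hab⟩

theorem qA_coe (a b : F) (hab : a ^ 2 + b ^ 2 = -1) (h2 : (2 : F) ≠ 0) :
    (qA a b hab h2 : Matrix (Fin 2) (Fin 2) F) =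
      !![(1 + a - b) / 2, (b + 1 + a) / 2; (b - 1 + a) / 2, (1 - a + b) / 2] := rfl

/-- the `4 × 4` matrix with `2 × 2` blocks `M₀₀ M₀₁ M₁₀ M₁₁` with respect to the decomposition
into the two planes `⟨e_{inl 0}, e_{inr 0}⟩` and `⟨e_{inl 1}, e_{inr 1}⟩`
(so `iotM A B = blkM A 0 0 B` and `sigM = blkM 0 1 1 0`) -/
def blkM (M00 M01 M10 M11 : Matrix (Fin 2) (Fin 2) F) :
    Matrix (Fin 2 ⊕ Fin 2) (Fin 2 ⊕ Fin 2) F :=
  fromBlocks !![M00 0 0, M01 0 0; M10 0 0, M11 0 0] !![M00 0 1, M01 0 1; M10 0 1, M11 0 1]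
    !![M00 1 0, M01 1 0; M10 1 0, M11 1 0] !![M00 1 1, M01 1 1; M10 1 1, M11 1 1]

/-- the matrix of `u₁ = ((1 + i) ⊗ (1 + r)) / 2` -/
def u1M (a b : F) : Matrix (Fin 2 ⊕ Fin 2) (Fin 2 ⊕ Fin 2) F :=
  blkM !![(1 + a) / 2, b / 2; b / 2, (1 - a) / 2] (-!![(1 + a) / 2, b / 2; b / 2, (1 - a) / 2])
    !![(1 + a) / 2, b / 2; b / 2, (1 - a) / 2] !![(1 + a) / 2, b / 2; b / 2, (1 - a) / 2]

/-- the matrix of `u₂ = ((1 + j) ⊗ (1 + r)) / 2` -/
def u2M : Matrix (Fin 2 ⊕ Fin 2) (Fin 2 ⊕ Fin 2) F :=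
  blkM !![1 / 2, -(1 / 2); 1 / 2, 1 / 2] (-!![1 / 2, -(1 / 2); 1 / 2, 1 / 2])
    !![1 / 2, -(1 / 2); 1 / 2, 1 / 2] !![1 / 2, -(1 / 2); 1 / 2, 1 / 2]

/-- the subgroup generated by the diagonal `{iot x x : x ∈ Q}`, `iot 1 (-1)` and `sig`
(for `Q = Q8` this is the extraspecial group `2^{1+4}_-`) -/
def PT (Q : Subgroup (SpecialLinearGroup (Fin 2) F)) :
    Subgroup (Matrix.symplecticGroup (Fin 2) F) :=
  Subgroup.closure ({g | ∃ x ∈ Q, g = iot x x} ∪ {iot 1 (-1), sig})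

/-- the normaliser condition of the simplicity criterion, modulo a central subgroup `Z`:
`N_G(S)` is generated by `S` and elements `h ∈ N_G(S)` lying in the subgroup generated by the
`2`-elements of `N_G(P)`, for subgroups `Z ≤ P ≤ S` normalised by `S` and self-centralising in `S`
modulo `Z`. -/
def GoodNorm {G : Type*} [Group G] (Z S : Subgroup G) : Prop :=
  Subgroup.normalizer (S : Set G) ≤ Subgroup.closure ((S : Set G) ∪
    {h : G | h ∈ Subgroup.normalizer (S : Set G) ∧ ∃ P : Subgroup G, Z ≤ P ∧ P ≤ S ∧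
      (∀ s ∈ S, ∀ x ∈ P, s * x * s⁻¹ ∈ P) ∧
      (∀ c ∈ S, (∀ x ∈ P, c * x * c⁻¹ * x⁻¹ ∈ Z) → c ∈ P) ∧
      h ∈ Subgroup.closure
        {x : G | x ∈ Subgroup.normalizer (P : Set G) ∧ ∃ k : ℕ, x ^ 2 ^ k = 1}})

end Cfsg.Agent.Lib.Helper91.Ps4
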