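import Mathlib
import Cfsg.Agent.Lib.Helper91.Ps4D

set_option autoImplicit false

/-! S5320 piece BBLK: an element of `Sp₄` commuting with `iot (-1) 1` is a block matrix. -/

namespace Cfsg.Agent.Lib.Helper91.Ps4

open Matrix

variable {F : Type*} [Field F]

theorem bblk_diag : iotM ((-1 : SpecialLinearGroup (Fin 2) F)).1 (1 : SpecialLinearGroup (Fin 2) F).1 =
    diagonal (Sum.elim ![-1, 1] ![-1, 1]) := by
  ext (i|i) (j|j) <;> fin_cases i <;> fin_cases j <;>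
    simp [iotM]

theorem bblk_zero (h2 : (2 : F) ≠ 0) {x : F} (h : x * 1 = -1 * x) : x = 0 := by
  have h' : 2 * x = 0 := by linear_combination h
  rcases mul_eq_zero.mp h' with h | h
  · exact absurd h h2
  · exact h

theorem bblk_zero' (h2 : (2 : F) ≠ 0) {x : F} (h : x * -1 = 1 * x) : x = 0 := by
  have h' : 2 * x = 0 := by linear_combination -h
  rcases mul_eq_zero.mp h' with h | h
  · exact absurd h h2
  · exact h

theorem comm_z1_block (h2 : (2 : F) ≠ 0) (g : Matrix.symplecticGroup (Fin 2) F)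
    (hg : g * iot (-1) 1 = iot (-1) 1 * g) :
    ∃ A B : SpecialLinearGroup (Fin 2) F, g = iot A B := by
  have hM : g.1 * iotM ((-1 : SpecialLinearGroup (Fin 2) F)).1 (1 : SpecialLinearGroup (Fin 2) F).1 =
      iotM ((-1 : SpecialLinearGroup (Fin 2) F)).1 (1 : SpecialLinearGroup (Fin 2) F).1 * g.1 :=
    congrArg Subtype.val hg
  rw [bblk_diag] at hM
  have key : ∀ s t, g.1 s t * (Sum.elim ![(-1 : F), 1] ![-1, 1]) t =
      (Sum.elim ![(-1 : F), 1] ![-1, 1]) s * g.1 s t := by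
    intro s t
    have := congrFun (congrFun hM s) t
    rw [Matrix.mul_diagonal, Matrix.diagonal_mul] at this
    exact this
  have z1 : g.1 (Sum.inl 0) (Sum.inl 1) = 0 := bblk_zero h2 (by simpa using key (Sum.inl 0) (Sum.inl 1))
  have z2 : g.1 (Sum.inl 0) (Sum.inr 1) = 0 := bblk_zero h2 (by simpa using key (Sum.inl 0) (Sum.inr 1))
  have z3 : g.1 (Sum.inr 0) (Sum.inl 1) = 0 := bblk_zero h2 (by simpa using key (Sum.inr 0) (Sum.inl 1))
  have z4 : g.1 (Sum.inr 0) (Sum.inr 1) = 0 := bblk_zero h2 (by simpa using key (Sum.inr 0) (Sum.inr 1))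
  have z5 : g.1 (Sum.inl 1) (Sum.inl 0) = 0 := bblk_zero' h2 (by simpa using key (Sum.inl 1) (Sum.inl 0))
  have z6 : g.1 (Sum.inl 1) (Sum.inr 0) = 0 := bblk_zero' h2 (by simpa using key (Sum.inl 1) (Sum.inr 0))
  have z7 : g.1 (Sum.inr 1) (Sum.inl 0) = 0 := bblk_zero' h2 (by simpa using key (Sum.inr 1) (Sum.inl 0))
  have z8 : g.1 (Sum.inr 1) (Sum.inr 0) = 0 := bblk_zero' h2 (by simpa using key (Sum.inr 1) (Sum.inr 0))
  have hs := (SymplecticGroup.mem_iff.mp g.2)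
  have d1 := congrFun (congrFun hs (Sum.inl 0)) (Sum.inr 0)
  have d2 := congrFun (congrFun hs (Sum.inl 1)) (Sum.inr 1)
  simp [Matrix.mul_apply, Matrix.J, Fintype.sum_sum_type, Fin.sum_univ_two, z1, z2, z3, z4, z5, z6, z7, z8] at d1 d2
  refine ⟨⟨!![g.1 (Sum.inl 0) (Sum.inl 0), g.1 (Sum.inl 0) (Sum.inr 0);
      g.1 (Sum.inr 0) (Sum.inl 0), g.1 (Sum.inr 0) (Sum.inr 0)], ?_⟩,
    ⟨!![g.1 (Sum.inl 1) (Sum.inl 1), g.1 (Sum.inl 1) (Sum.inr 1);
      g.1 (Sum.inr 1) (Sum.inl 1), g.1 (Sum.inr 1) (Sum.inr 1)], ?_⟩, ?_⟩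
  · rw [Matrix.det_fin_two_of]; linear_combination -d1
  · rw [Matrix.det_fin_two_of]; linear_combination -d2
  · apply Subtype.ext
    show g.1 = iotM _ _
    ext (i|i) (j|j) <;> fin_cases i <;> fin_cases j <;>
      simp [iotM, z1, z2, z3, z4, z5, z6, z7, z8]

end Cfsg.Agent.Lib.Helper91.Ps4
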