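import Mathlib
import Cfsg.Agent.Lib.Helper91.Ps4D

set_option autoImplicit false

/-! S5320 piece BCONJ: `iot (-1) 1` is conjugate to `sig` in `Sp₄`. -/

namespace Cfsg.Agent.Lib.Helper91.Ps4

open Matrix

variable {F : Type*} [Field F]

/-- the conjugating matrix `[[φ, φ], [-φ, φ]]`, `φ = diag (1, 1/2)` -/
def bconj_gM : Matrix (Fin 2 ⊕ Fin 2) (Fin 2 ⊕ Fin 2) F :=
  blkM !![1, 0; 0, 1 / 2] !![1, 0; 0, 1 / 2] (-!![1, 0; 0, 1 / 2]) !![1, 0; 0, 1 / 2]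

theorem bconj_gM_mem (h2 : (2 : F) ≠ 0) :
    (bconj_gM : Matrix (Fin 2 ⊕ Fin 2) (Fin 2 ⊕ Fin 2) F) ∈ Matrix.symplecticGroup (Fin 2) F := by
  unfold bconj_gM blkM
  rw [SymplecticGroup.fromBlocks_mem_iff]
  refine ⟨?_, ?_, ?_⟩
  · ext i j
    fin_cases i <;> fin_cases j <;>
      simp [Matrix.mul_apply, Fin.sum_univ_two]
  · ext i j
    fin_cases i <;> fin_cases j <;>
      simp [Matrix.mul_apply, Fin.sum_univ_two]
  · ext i j
    fin_cases i <;> fin_cases j <;>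
      simp [Matrix.mul_apply, Fin.sum_univ_two, Matrix.one_apply] <;> field_simp <;> ring

theorem bconj_rel :
    (bconj_gM : Matrix (Fin 2 ⊕ Fin 2) (Fin 2 ⊕ Fin 2) F) *
      iotM ((-1 : SpecialLinearGroup (Fin 2) F) : Matrix (Fin 2) (Fin 2) F)
        ((1 : SpecialLinearGroup (Fin 2) F) : Matrix (Fin 2) (Fin 2) F) = sigM * bconj_gM := by
  unfold bconj_gM blkM iotM sigM
  rw [fromBlocks_multiply, fromBlocks_multiply]
  congr 1 <;> (ext i j; fin_cases i <;> fin_cases j <;>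
    simp [Matrix.mul_apply, Fin.sum_univ_two, Matrix.diagonal_apply, Matrix.of_apply,
      Matrix.vecMul, dotProduct, SpecialLinearGroup.coe_neg])

theorem conj_z1_sig (h2 : (2 : F) ≠ 0) :
    ∃ g : Matrix.symplecticGroup (Fin 2) F, g * iot (-1) 1 * g⁻¹ = sig := by
  refine ⟨⟨bconj_gM, bconj_gM_mem h2⟩, ?_⟩
  have h : (⟨bconj_gM, bconj_gM_mem h2⟩ : Matrix.symplecticGroup (Fin 2) F) * iot (-1) 1 =
      sig * ⟨bconj_gM, bconj_gM_mem h2⟩ := Subtype.ext bconj_rel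
  rw [h, mul_assoc, mul_inv_cancel, mul_one]

end Cfsg.Agent.Lib.Helper91.Ps4
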