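import Mathlib
import Cfsg.Agent.Lib.Helper91.Ps4D

set_option autoImplicit false

/-! S5320 piece BINJ. -/

namespace Cfsg.Agent.Lib.Helper91.Ps4

open Matrix

variable {F : Type*} [Field F]

theorem binj_entries (A B : Matrix (Fin 2) (Fin 2) F) :
    iotM A B (Sum.inl 0) (Sum.inl 0) = A 0 0 ∧ iotM A B (Sum.inl 0) (Sum.inr 0) = A 0 1 ∧
    iotM A B (Sum.inr 0) (Sum.inl 0) = A 1 0 ∧ iotM A B (Sum.inr 0) (Sum.inr 0) = A 1 1 ∧
    iotM A B (Sum.inl 1) (Sum.inl 1) = B 0 0 ∧ iotM A B (Sum.inl 1) (Sum.inr 1) = B 0 1 ∧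
    iotM A B (Sum.inr 1) (Sum.inl 1) = B 1 0 ∧ iotM A B (Sum.inr 1) (Sum.inr 1) = B 1 1 := by
  simp [iotM]

theorem iot_inj {A B A' B' : SpecialLinearGroup (Fin 2) F} (h : iot A B = iot A' B') :
    A = A' ∧ B = B' := by
  have h' : iotM A.1 B.1 = iotM A'.1 B'.1 := congrArg Subtype.val h
  obtain ⟨a1, a2, a3, a4, a5, a6, a7, a8⟩ := binj_entries A.1 B.1
  obtain ⟨b1, b2, b3, b4, b5, b6, b7, b8⟩ := binj_entries A'.1 B'.1
  constructor
  · apply Subtype.ext
    ext i j
    fin_cases i <;> fin_cases j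
    · exact a1.symm.trans ((congrFun (congrFun h' _) _).trans b1)
    · exact a2.symm.trans ((congrFun (congrFun h' _) _).trans b2)
    · exact a3.symm.trans ((congrFun (congrFun h' _) _).trans b3)
    · exact a4.symm.trans ((congrFun (congrFun h' _) _).trans b4)
  · apply Subtype.ext
    ext i j
    fin_cases i <;> fin_cases j
    · exact a5.symm.trans ((congrFun (congrFun h' _) _).trans b5)
    · exact a6.symm.trans ((congrFun (congrFun h' _) _).trans b6)
    · exact a7.symm.trans ((congrFun (congrFun h' _) _).trans b7)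
    · exact a8.symm.trans ((congrFun (congrFun h' _) _).trans b8)

theorem sig_ne_iot (A B : SpecialLinearGroup (Fin 2) F) :
    (sig : Matrix.symplecticGroup (Fin 2) F) ≠ iot A B := by
  intro h
  have h' : (sigM : Matrix (Fin 2 ⊕ Fin 2) (Fin 2 ⊕ Fin 2) F) = iotM A.1 B.1 :=
    congrArg Subtype.val h
  have h1 := congrFun (congrFun h' (Sum.inl 0)) (Sum.inl 1)
  simp [sigM, iotM] at h1

theorem iot_sig_ne_iot (A B A' B' : SpecialLinearGroup (Fin 2) F) :
    iot A B * sig ≠ iot A' B' := by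
  intro h
  apply sig_ne_iot (A⁻¹ * A') (B⁻¹ * B')
  rw [← iot_mul, ← iot_inv, ← h, inv_mul_cancel_left]

end Cfsg.Agent.Lib.Helper91.Ps4
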