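import Mathlib
import Cfsg.Agent.Lib.Helper91.Ps4D

set_option autoImplicit false

/-! S5320 piece BSQS (proved by helper79). -/

namespace Cfsg.Agent.Lib.Helper91.Ps4

open Matrix

variable {F : Type*} [Field F]

theorem exists_sq_add_sq [Fintype F] (hodd : Fintype.card F % 2 = 1) :
    ∃ a b : F, a ^ 2 + b ^ 2 = -1 := by
  obtain ⟨a, b, hab⟩ := FiniteField.exists_root_sum_quadratic
    (f := (Polynomial.X ^ 2 : Polynomial F)) (g := (Polynomial.X ^ 2 + Polynomial.C 1 : Polynomial F))
    (Polynomial.degree_X_pow 2) (Polynomial.degree_X_pow_add_C (by norm_num) 1) hodd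
  refine ⟨a, b, ?_⟩
  simp only [Polynomial.eval_pow, Polynomial.eval_X, Polynomial.eval_add, Polynomial.eval_C] at hab
  linear_combination hab

end Cfsg.Agent.Lib.Helper91.Ps4
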