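import Mathlib
import Cfsg.Agent.Lib.Helper91.Ps4D

set_option autoImplicit false

/-! S5320 piece MQUOT (proved by helper92). -/

namespace Cfsg.Agent.Lib.Helper91.Ps4

open Matrix

variable {F : Type*} [Field F]

private theorem mquot_ker {G : Type*} [Group G] (Z : Subgroup G) [Z.Normal] (y : G) :
    QuotientGroup.mk' Z y = 1 ↔ y ∈ Z := by
  rw [← MonoidHom.mem_ker, QuotientGroup.ker_mk']

private theorem mquot_mem_map {G : Type*} [Group G] (Z H : Subgroup G) [Z.Normal] (hZH : Z ≤ H)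
    (y : G) : QuotientGroup.mk' Z y ∈ H.map (QuotientGroup.mk' Z) ↔ y ∈ H := by
  constructor
  · rintro ⟨s, hs, hsy⟩
    have h1 : s⁻¹ * y ∈ Z := by
      rw [← mquot_ker, map_mul, map_inv, hsy, inv_mul_cancel]
    have h2 : y = s * (s⁻¹ * y) := by group
    rw [h2]
    exact H.mul_mem hs (hZH h1)
  · intro hy
    exact Subgroup.mem_map_of_mem _ hy

private theorem mquot_norm_map {G : Type*} [Group G] (Z H : Subgroup G) [Z.Normal] (hZH : Z ≤ H)
    (x : G) : QuotientGroup.mk' Z x ∈ Subgroup.normalizer ((H.map (QuotientGroup.mk' Z) :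
      Subgroup (G ⧸ Z)) : Set (G ⧸ Z)) ↔ x ∈ Subgroup.normalizer (H : Set G) := by
  rw [Subgroup.mem_normalizer_iff, Subgroup.mem_normalizer_iff]
  constructor
  · intro h y
    have h1 := h (QuotientGroup.mk' Z y)
    rw [← map_inv, ← map_mul, ← map_mul, mquot_mem_map Z H hZH, mquot_mem_map Z H hZH] at h1
    exact h1
  · intro h y'
    obtain ⟨y, rfl⟩ := QuotientGroup.mk'_surjective Z y'
    rw [← map_inv, ← map_mul, ← map_mul, mquot_mem_map Z H hZH, mquot_mem_map Z H hZH]
    exact h y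

theorem goodSyl_quot_central {G : Type*} [Group G] (Z S : Subgroup G) [Z.Normal] (hZS : Z ≤ S)
    (h1 : ∃ x ∈ S, x ∉ Z)
    (h2 : ∀ T : Subgroup G, Z ≤ T → T ≤ S →
      (∀ x ∈ T, ∀ g : G, g * x * g⁻¹ ∈ S → g * x * g⁻¹ ∈ T) → T = Z ∨ T = S)
    (h3 : GoodNorm Z S) :
    Cfsg.Agent.Lib.Helper91.SimpleGen.GoodSyl 2 (S.map (QuotientGroup.mk' Z)) := by
  refine ⟨?_, ?_, ?_⟩
  · -- nontrivial
    obtain ⟨x, hxS, hxZ⟩ := h1
    intro hbot
    have h : QuotientGroup.mk' Z x ∈ S.map (QuotientGroup.mk' Z) := Subgroup.mem_map_of_mem _ hxS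
    rw [hbot, Subgroup.mem_bot, mquot_ker] at h
    exact hxZ h
  · -- strongly closed subgroups
    intro T' hT'S hcl
    have hT := h2 (T'.comap (QuotientGroup.mk' Z)) (by
        intro z hz
        rw [Subgroup.mem_comap, (mquot_ker Z z).2 hz]
        exact T'.one_mem) (by
        intro x hx
        exact (mquot_mem_map Z S hZS x).1 (hT'S hx)) (by
        intro x hx g hg
        rw [Subgroup.mem_comap] at hx ⊢
        have h := hcl _ hx (QuotientGroup.mk' Z g) (by
          rw [← map_inv, ← map_mul, ← map_mul]; exact Subgroup.mem_map_of_mem _ hg)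
        rw [← map_inv, ← map_mul, ← map_mul] at h
        exact h)
    rcases hT with hT | hT
    · left
      rw [eq_bot_iff]
      intro x' hx'
      obtain ⟨x, rfl⟩ := QuotientGroup.mk'_surjective Z x'
      have hx : x ∈ T'.comap (QuotientGroup.mk' Z) := hx'
      rw [hT] at hx
      rw [Subgroup.mem_bot, mquot_ker]
      exact hx
    · right
      apply le_antisymm hT'S
      rintro _ ⟨s, hs, rfl⟩
      have hs' : s ∈ T'.comap (QuotientGroup.mk' Z) := by rw [hT]; exact hs
      exact hs'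
  · -- the normalizer
    intro h' hh'
    obtain ⟨h, rfl⟩ := QuotientGroup.mk'_surjective Z h'
    have hh : h ∈ Subgroup.normalizer (S : Set G) := (mquot_norm_map Z S hZS h).1 hh'
    have h3' := h3
    unfold GoodNorm at h3'
    have hcl := h3' hh
    have key : Subgroup.closure ((S : Set G) ∪
        {h : G | h ∈ Subgroup.normalizer (S : Set G) ∧ ∃ P : Subgroup G, Z ≤ P ∧ P ≤ S ∧
          (∀ s ∈ S, ∀ x ∈ P, s * x * s⁻¹ ∈ P) ∧
          (∀ c ∈ S, (∀ x ∈ P, c * x * c⁻¹ * x⁻¹ ∈ Z) → c ∈ P) ∧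
          h ∈ Subgroup.closure
            {x : G | x ∈ Subgroup.normalizer (P : Set G) ∧ ∃ k : ℕ, x ^ 2 ^ k = 1}}) ≤
        (Subgroup.closure (((S.map (QuotientGroup.mk' Z) : Subgroup (G ⧸ Z)) : Set (G ⧸ Z)) ∪
          (Subgroup.centralizer ((S.map (QuotientGroup.mk' Z) : Subgroup (G ⧸ Z)) : Set (G ⧸ Z)) :
            Set (G ⧸ Z)) ∪
          {h : G ⧸ Z | h ∈ Subgroup.normalizer
              ((S.map (QuotientGroup.mk' Z) : Subgroup (G ⧸ Z)) : Set (G ⧸ Z)) ∧
            ∃ P : Subgroup (G ⧸ Z), P ≤ S.map (QuotientGroup.mk' Z) ∧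
              (∀ s ∈ S.map (QuotientGroup.mk' Z), ∀ x ∈ P, s * x * s⁻¹ ∈ P) ∧
              (∀ c ∈ S.map (QuotientGroup.mk' Z), (∀ x ∈ P, c * x = x * c) → c ∈ P) ∧
              h ∈ Subgroup.closure
                {x : G ⧸ Z | x ∈ Subgroup.normalizer (P : Set (G ⧸ Z)) ∧
                  ∃ k : ℕ, x ^ 2 ^ k = 1}})).comap (QuotientGroup.mk' Z) := by
      rw [Subgroup.closure_le]
      rintro g (hg | hg)
      · apply Subgroup.subset_closure
        left; left
        exact Subgroup.mem_map_of_mem _ hg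
      · obtain ⟨hgN, P, hZP, hPS, hSP, hcP, hgcl⟩ := hg
        apply Subgroup.subset_closure
        right
        refine ⟨(mquot_norm_map Z S hZS g).2 hgN, P.map (QuotientGroup.mk' Z),
          Subgroup.map_mono hPS, ?_, ?_, ?_⟩
        · rintro _ ⟨s, hs, rfl⟩ _ ⟨x, hx, rfl⟩
          rw [← map_inv, ← map_mul, ← map_mul]
          exact Subgroup.mem_map_of_mem _ (hSP s hs x hx)
        · rintro _ ⟨c, hc, rfl⟩ hcomm
          apply Subgroup.mem_map_of_mem
          apply hcP c hc
          intro x hx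
          have h4 := hcomm _ (Subgroup.mem_map_of_mem (QuotientGroup.mk' Z) hx)
          rw [← mquot_ker, map_mul, map_mul, map_mul, map_inv, map_inv, h4]
          group
        · have key2 : Subgroup.closure
              {x : G | x ∈ Subgroup.normalizer (P : Set G) ∧ ∃ k : ℕ, x ^ 2 ^ k = 1} ≤
              (Subgroup.closure {x : G ⧸ Z | x ∈ Subgroup.normalizer
                ((P.map (QuotientGroup.mk' Z) : Subgroup (G ⧸ Z)) : Set (G ⧸ Z)) ∧
                  ∃ k : ℕ, x ^ 2 ^ k = 1}).comap (QuotientGroup.mk' Z) := by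
            rw [Subgroup.closure_le]
            rintro x ⟨hxN, k, hk⟩
            apply Subgroup.subset_closure
            refine ⟨(mquot_norm_map Z P hZP x).2 hxN, k, ?_⟩
            rw [← map_pow, hk, map_one]
          exact key2 hgcl
    exact key hcl

end Cfsg.Agent.Lib.Helper91.Ps4
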