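import Mathlib
import Cfsg.Agent.Lib.Helper91.Ps4D

set_option autoImplicit false

/-! S5320 piece QAUT: an automorphism of odd order of a generalized quaternion group of order
at least 16 is trivial. -/

namespace Cfsg.Agent.Lib.Helper91.Ps4

open Matrix

variable {F : Type*} [Field F]

theorem qaut_a_pow {n : ℕ} (u : ZMod (2 * n)) (j : ℕ) :
    (QuaternionGroup.a u : QuaternionGroup n) ^ j = QuaternionGroup.a ((j : ZMod (2 * n)) * u) := by
  induction j with
  | zero => simp
  | succ j ih =>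
    rw [pow_succ, ih, QuaternionGroup.a_mul_a]
    congr 1
    push_cast
    ring

theorem quat_aut_odd (k : ℕ) (hk : 2 ≤ k)
    (φ : QuaternionGroup (2 ^ k) ≃* QuaternionGroup (2 ^ k)) (m : ℕ) (hm : Odd m)
    (hφ : φ ^ m = 1) : φ = 1 := by
  have hm0 : m ≠ 0 := by rintro rfl; simp at hm
  have : NeZero (2 * 2 ^ k) := ⟨by positivity⟩
  have h8 : 8 ≤ 2 * 2 ^ k := by
    have : 2 ^ 2 ≤ 2 ^ k := Nat.pow_le_pow_right (by norm_num) hk
    omega
  -- the image of `a 1`
  obtain ⟨u, hu⟩ : ∃ u, φ (QuaternionGroup.a 1) = QuaternionGroup.a u := by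
    have hord : orderOf (φ (QuaternionGroup.a 1)) = 2 * 2 ^ k := by
      rw [MulEquiv.orderOf_eq, QuaternionGroup.orderOf_a_one]
    cases hx : φ (QuaternionGroup.a 1) with
    | a u => exact ⟨u, rfl⟩
    | xa v =>
      have h4 := QuaternionGroup.orderOf_xa (n := 2 ^ k) v
      rw [hx, h4] at hord
      omega
  have hφa : ∀ i : ZMod (2 * 2 ^ k), φ (QuaternionGroup.a i) = QuaternionGroup.a (u * i) := by
    intro i
    have h1 : (QuaternionGroup.a i : QuaternionGroup (2 ^ k)) = QuaternionGroup.a 1 ^ i.val := by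
      rw [QuaternionGroup.a_one_pow, ZMod.natCast_zmod_val]
    rw [h1, map_pow, hu, qaut_a_pow, ZMod.natCast_zmod_val, mul_comm]
  have hpow : ∀ (j : ℕ) (i : ZMod (2 * 2 ^ k)),
      (φ ^ j) (QuaternionGroup.a i) = QuaternionGroup.a (u ^ j * i) := by
    intro j
    induction j with
    | zero => intro i; simp
    | succ j ih =>
      intro i
      rw [pow_succ, MulAut.mul_apply, hφa, ih]
      congr 1
      ring
  have hum : u ^ m = 1 := by
    have h := hpow m 1
    rw [hφ, MulAut.one_apply, mul_one] at h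
    exact (QuaternionGroup.a.inj h).symm
  -- `u = 1`
  have hu1 : u = 1 := by
    have hU : (Units.ofPowEqOne u m hum hm0) ^ m = 1 := Units.pow_ofPowEqOne hum hm0
    have hU2 : (Units.ofPowEqOne u m hum hm0) ^ (2 * 2 ^ k).totient = 1 := ZMod.pow_totient _
    have htot : (2 * 2 ^ k).totient = 2 ^ k := by
      rw [← pow_succ', Nat.totient_prime_pow_succ Nat.prime_two]
      simp
    rw [htot] at hU2
    have hd1 := orderOf_dvd_of_pow_eq_one hU
    have hd2 := orderOf_dvd_of_pow_eq_one hU2
    have hcop : Nat.Coprime m (2 ^ k) := Nat.Coprime.pow_right k (Nat.coprime_two_right.mpr hm)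
    have h1 : orderOf (Units.ofPowEqOne u m hum hm0) = 1 :=
      Nat.dvd_one.mp (hcop ▸ Nat.dvd_gcd hd1 hd2)
    have h2 : Units.ofPowEqOne u m hum hm0 = 1 := orderOf_eq_one_iff.mp h1
    have h3 := congrArg Units.val h2
    simpa using h3
  have hφa' : ∀ i : ZMod (2 * 2 ^ k), φ (QuaternionGroup.a i) = QuaternionGroup.a i := by
    intro i
    rw [hφa, hu1, one_mul]
  -- the image of `xa 0`
  obtain ⟨v, hv⟩ : ∃ v, φ (QuaternionGroup.xa 0) = QuaternionGroup.xa v := by
    cases hx : φ (QuaternionGroup.xa 0) with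
    | a w =>
      exfalso
      rw [← hφa' w] at hx
      have := φ.injective hx
      cases this
    | xa v => exact ⟨v, rfl⟩
  have hφx : ∀ i : ZMod (2 * 2 ^ k), φ (QuaternionGroup.xa i) = QuaternionGroup.xa (v + i) := by
    intro i
    have h1 : (QuaternionGroup.xa i : QuaternionGroup (2 ^ k)) =
        QuaternionGroup.xa 0 * QuaternionGroup.a i := by
      rw [QuaternionGroup.xa_mul_a, zero_add]
    rw [h1, map_mul, hv, hφa', QuaternionGroup.xa_mul_a]
  have hpowx : ∀ (j : ℕ) (i : ZMod (2 * 2 ^ k)),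
      (φ ^ j) (QuaternionGroup.xa i) = QuaternionGroup.xa ((j : ZMod (2 * 2 ^ k)) * v + i) := by
    intro j
    induction j with
    | zero => intro i; simp
    | succ j ih =>
      intro i
      rw [pow_succ, MulAut.mul_apply, hφx, ih]
      congr 1
      push_cast
      ring
  have hv0 : v = 0 := by
    have h := hpowx m 0
    rw [hφ, MulAut.one_apply, add_zero] at h
    have h' : (m : ZMod (2 * 2 ^ k)) * v = 0 := (QuaternionGroup.xa.inj h).symm
    have hcop : Nat.Coprime m (2 * 2 ^ k) := by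
      rw [← pow_succ']
      exact Nat.Coprime.pow_right (k + 1) (Nat.coprime_two_right.mpr hm)
    have h'' : ((ZMod.unitOfCoprime m hcop : (ZMod (2 * 2 ^ k))ˣ) : ZMod (2 * 2 ^ k)) * v = 0 := by
      rw [ZMod.coe_unitOfCoprime]
      exact h'
    exact (Units.mul_right_eq_zero _).mp h''
  apply MulEquiv.ext
  intro x
  rw [MulAut.one_apply]
  cases x with
  | a i => exact hφa' i
  | xa i => rw [hφx, hv0, zero_add]

end Cfsg.Agent.Lib.Helper91.Ps4
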