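import Mathlib
import Cfsg.Agent.Lib.Helper91.Ps4D

set_option autoImplicit false

/-! S5320 piece QCENT. -/

namespace Cfsg.Agent.Lib.Helper91.Ps4

open Matrix

variable {F : Type*} [Field F]

theorem cent_Q8 (h2 : (2 : F) ≠ 0) (a b : F) (hab : a ^ 2 + b ^ 2 = -1)
    (B : SpecialLinearGroup (Fin 2) F) (hi : B * qI a b hab = qI a b hab * B)
    (hj : B * sl2J F = sl2J F * B) : B = 1 ∨ B = -1 := by
  have hi' : B.1 * !![a, b; b, -a] = !![a, b; b, -a] * B.1 := congrArg Subtype.val hi
  have hj' : B.1 * !![0, -1; 1, 0] = !![0, -1; 1, 0] * B.1 := congrArg Subtype.val hj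
  have hdet := B.2
  rw [Matrix.det_fin_two] at hdet
  have j00 := congrFun (congrFun hj' 0) 0
  have j01 := congrFun (congrFun hj' 0) 1
  have i00 := congrFun (congrFun hi' 0) 0
  have i01 := congrFun (congrFun hi' 0) 1
  simp [Matrix.mul_apply, Fin.sum_univ_two] at j00 j01 i00 i01
  -- j00 : B 0 1 = -B 1 0 ; j01 : -B 0 0 = -B 1 1
  have hw : B.1 1 1 = B.1 0 0 := by linear_combination -j01
  have hz : B.1 1 0 = -B.1 0 1 := by linear_combination j00
  have hby : b * B.1 0 1 = 0 := by
    have : 2 * (b * B.1 0 1) = 0 := by rw [hz] at i00; linear_combination i00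
    rcases mul_eq_zero.mp this with h | h
    · exact absurd h h2
    · exact h
  have hay : a * B.1 0 1 = 0 := by
    have : 2 * (a * B.1 0 1) = 0 := by rw [hw] at i01; linear_combination -i01
    rcases mul_eq_zero.mp this with h | h
    · exact absurd h h2
    · exact h
  have hy : B.1 0 1 = 0 := by
    have : (a ^ 2 + b ^ 2) * B.1 0 1 = 0 := by linear_combination a * hay + b * hby
    rw [hab] at this
    simpa using this
  have hx : B.1 0 0 * B.1 0 0 = 1 := by
    rw [hw, hz, hy] at hdet
    linear_combination hdet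
  rcases mul_self_eq_one_iff.mp hx with h | h
  · left
    apply Subtype.ext
    ext i j
    fin_cases i <;> fin_cases j <;> simp [h, hy, hz, hw]
  · right
    apply Subtype.ext
    rw [SpecialLinearGroup.coe_neg]
    ext i j
    fin_cases i <;> fin_cases j <;> simp [h, hy, hz, hw]

end Cfsg.Agent.Lib.Helper91.Ps4
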