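import Mathlib
import Cfsg.Agent.Lib.Helper91.Ps4D
import Cfsg.Agent.Lib.Helper91.Ps4XQAUT
import Cfsg.Agent.Lib.Helper91.Ps4XQCENT

set_option autoImplicit false

/-! S5320 piece NLARGE: a Sylow `2`-subgroup of `SL₂(F)` which is generalised quaternion of
order at least `16` is self-normalising. -/

namespace Cfsg.Agent.Lib.Helper91.Ps4

open Matrix

variable {F : Type*} [Field F]

theorem normalizer_large [Fintype F] (hodd : Fintype.card F % 2 = 1)
    (Q : Sylow 2 (SpecialLinearGroup (Fin 2) F)) (a b : F) (hab : a ^ 2 + b ^ 2 = -1)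
    (hi : qI a b hab ∈ Q) (hj : sl2J F ∈ Q) (k : ℕ) (hk : 2 ≤ k)
    (e : (Q : Subgroup (SpecialLinearGroup (Fin 2) F)) ≃* QuaternionGroup (2 ^ k)) :
    ∀ B ∈ Subgroup.normalizer ((Q : Subgroup (SpecialLinearGroup (Fin 2) F)) :
      Set (SpecialLinearGroup (Fin 2) F)), B ∈ Q := by
  classical
  intro B hB
  have hfact : Fact (Nat.Prime 2) := ⟨Nat.prime_two⟩
  have h2 : (2 : F) ≠ 0 := by
    intro h
    have hd : ringChar F ∣ 2 := ringChar.dvd (by exact_mod_cast h)
    have h1 : ringChar F ≠ 1 := CharP.ringChar_ne_one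
    have hc : ringChar F = 2 := by
      rcases (Nat.dvd_prime Nat.prime_two).mp hd with h' | h'
      · exact absurd h' h1
      · exact h'
    have := FiniteField.even_card_of_char_two hc
    omega
  obtain ⟨QS, hQS⟩ : ∃ QS : Subgroup (SpecialLinearGroup (Fin 2) F),
      QS = (Q : Subgroup (SpecialLinearGroup (Fin 2) F)) := ⟨_, rfl⟩
  have hn0 : orderOf B ≠ 0 := (orderOf_pos B).ne'
  obtain ⟨t, m0, hm0, hn⟩ := Nat.exists_eq_two_pow_mul_odd hn0
  obtain ⟨C, hC⟩ : ∃ C : SpecialLinearGroup (Fin 2) F, C = B ^ 2 ^ t := ⟨_, rfl⟩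
  have hCN : C ∈ Subgroup.normalizer ((Q : Subgroup (SpecialLinearGroup (Fin 2) F)) :
      Set (SpecialLinearGroup (Fin 2) F)) := by
    rw [hC]
    exact Subgroup.pow_mem _ hB _
  have hCm : C ^ m0 = 1 := by rw [hC, ← pow_mul, ← hn, pow_orderOf_eq_one]
  have hΘ : ((MulAut.congr e)
      ((Q : Subgroup (SpecialLinearGroup (Fin 2) F)).normalizerMonoidHom ⟨C, hCN⟩)) ^ m0 = 1 := by
    rw [← map_pow, ← map_pow]
    have h1 : (⟨C, hCN⟩ : Subgroup.normalizer ((Q : Subgroup (SpecialLinearGroup (Fin 2) F)) :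
        Set (SpecialLinearGroup (Fin 2) F))) ^ m0 = 1 := by
      apply Subtype.ext
      simpa using hCm
    rw [h1, map_one, map_one]
  have hΘ1 := quat_aut_odd k hk _ m0 hm0 hΘ
  have hN1 : (Q : Subgroup (SpecialLinearGroup (Fin 2) F)).normalizerMonoidHom ⟨C, hCN⟩ = 1 := by
    exact (MulAut.congr e).injective (hΘ1.trans (map_one _).symm)
  have hconj : ∀ x : SpecialLinearGroup (Fin 2) F, x ∈ Q → C * x * C⁻¹ = x := by
    intro x hx
    have h3 : ((((Q : Subgroup (SpecialLinearGroup (Fin 2) F)).normalizerMonoidHom ⟨C, hCN⟩)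
        ⟨x, hx⟩ : (Q : Subgroup (SpecialLinearGroup (Fin 2) F))) :
        SpecialLinearGroup (Fin 2) F) = x := by
      rw [hN1]
      rfl
    exact h3
  have hcomm : ∀ x : SpecialLinearGroup (Fin 2) F, x ∈ Q → C * x = x * C := by
    intro x hx
    have h := hconj x hx
    calc C * x = C * x * C⁻¹ * C := by group
      _ = x * C := by rw [h]
  have hC2 : C * C = 1 := by
    rcases cent_Q8 h2 a b hab C (hcomm _ hi) (hcomm _ hj) with h | h
    · rw [h, one_mul]
    · rw [h, neg_mul_neg, one_mul]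
  have hB2 : B ^ 2 ^ (t + 1) = 1 := by
    rw [pow_succ, pow_mul, ← hC, sq, hC2]
  have hord : orderOf B ∣ 2 ^ (t + 1) := orderOf_dvd_of_pow_eq_one hB2
  obtain ⟨s, -, hs⟩ := (Nat.dvd_prime_pow Nat.prime_two).mp hord
  have hP : IsPGroup 2 (Subgroup.zpowers B) :=
    IsPGroup.of_card (n := s) (by rw [Nat.card_zpowers, hs])
  have hmem : B ∈ Subgroup.zpowers B ⊓
      Subgroup.normalizer ((Q : Subgroup (SpecialLinearGroup (Fin 2) F)) :
        Set (SpecialLinearGroup (Fin 2) F)) := ⟨Subgroup.mem_zpowers B, hB⟩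
  exact ((hP.inf_normalizer_sylow Q).le hmem).2

end Cfsg.Agent.Lib.Helper91.Ps4
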