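import Mathlib
import Cfsg.Agent.Lib.Helper91.Ps4D

set_option autoImplicit false

/-! S5320 piece QACONJ (helper46). -/

namespace Cfsg.Agent.Lib.Helper91.Ps4

open Matrix

variable {F : Type*} [Field F]

theorem qA_conj (a b : F) (hab : a ^ 2 + b ^ 2 = -1) (h2 : (2 : F) ≠ 0) :
    qA a b hab h2 * qI a b hab = -sl2J F * qA a b hab h2 ∧
      qA a b hab h2 * sl2J F = qK a b hab * qA a b hab h2 := by
  constructor
  · apply Subtype.ext
    show (!![(1 + a - b) / 2, (b + 1 + a) / 2; (b - 1 + a) / 2, (1 - a + b) / 2] :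
        Matrix (Fin 2) (Fin 2) F) * !![a, b; b, -a] =
      (-!![0, -1; 1, 0] : Matrix (Fin 2) (Fin 2) F) *
        !![(1 + a - b) / 2, (b + 1 + a) / 2; (b - 1 + a) / 2, (1 - a + b) / 2]
    ext i j
    fin_cases i <;> fin_cases j <;> simp [Matrix.mul_apply, Fin.sum_univ_two] <;>
      first
        | linear_combination (1 / 2 : F) * hab
        | linear_combination (-1 / 2 : F) * hab
        | ring
  · apply Subtype.ext
    have hK : (qK a b hab).1 = !![b, -a; -a, -b] := qK_coe a b hab
    show (qA a b hab h2).1 * (sl2J F).1 = (qK a b hab).1 * (qA a b hab h2).1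
    rw [hK]
    show (!![(1 + a - b) / 2, (b + 1 + a) / 2; (b - 1 + a) / 2, (1 - a + b) / 2] :
        Matrix (Fin 2) (Fin 2) F) * !![0, -1; 1, 0] =
      (!![b, -a; -a, -b] : Matrix (Fin 2) (Fin 2) F) *
        !![(1 + a - b) / 2, (b + 1 + a) / 2; (b - 1 + a) / 2, (1 - a + b) / 2]
    ext i j
    fin_cases i <;> fin_cases j <;> simp [Matrix.mul_apply, Fin.sum_univ_two] <;>
      first
        | linear_combination (1 / 2 : F) * hab
        | linear_combination (-1 / 2 : F) * hab
        | ring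

end Cfsg.Agent.Lib.Helper91.Ps4
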