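import Mathlib
import Cfsg.Agent.Lib.Helper91.Ps4D

set_option autoImplicit false

/-! S5320 piece QREL. -/

namespace Cfsg.Agent.Lib.Helper91.Ps4

open Matrix

variable {F : Type*} [Field F]

theorem qI_mul_self (a b : F) (hab : a ^ 2 + b ^ 2 = -1) : qI a b hab * qI a b hab = -1 := by
  apply Subtype.ext
  rw [SpecialLinearGroup.coe_neg]
  show (!![a, b; b, -a] : Matrix (Fin 2) (Fin 2) F) * !![a, b; b, -a] = -1
  ext i j
  fin_cases i <;> fin_cases j <;> simp [Matrix.mul_apply, Fin.sum_univ_two] <;>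
    first | linear_combination hab | ring

theorem sl2J_mul_self : sl2J F * sl2J F = -1 := by
  apply Subtype.ext
  rw [SpecialLinearGroup.coe_neg]
  show (!![0, -1; 1, 0] : Matrix (Fin 2) (Fin 2) F) * !![0, -1; 1, 0] = -1
  ext i j
  fin_cases i <;> fin_cases j <;> simp [Matrix.mul_apply, Fin.sum_univ_two]

theorem sl2J_mul_qI (a b : F) (hab : a ^ 2 + b ^ 2 = -1) :
    sl2J F * qI a b hab = -qK a b hab := by
  apply Subtype.ext
  rw [SpecialLinearGroup.coe_neg, qK_coe]
  show (!![0, -1; 1, 0] : Matrix (Fin 2) (Fin 2) F) * !![a, b; b, -a] = -!![b, -a; -a, -b]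
  ext i j
  fin_cases i <;> fin_cases j <;> simp [Matrix.mul_apply, Fin.sum_univ_two]

end Cfsg.Agent.Lib.Helper91.Ps4
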