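import Mathlib
import Cfsg.Agent.Lib.Helper91.Ps4D
import Cfsg.Agent.Lib.Helper91.Ps4XQREL

set_option autoImplicit false

/-! S5320 piece QMEM (helper46). -/

namespace Cfsg.Agent.Lib.Helper91.Ps4

open Matrix

variable {F : Type*} [Field F]

theorem qmem_ii (a b : F) (hab : a ^ 2 + b ^ 2 = -1) (x : SpecialLinearGroup (Fin 2) F) :
    qI a b hab * (qI a b hab * x) = -x := by
  rw [← mul_assoc, qI_mul_self, neg_mul, one_mul]

theorem qmem_jj (x : SpecialLinearGroup (Fin 2) F) : sl2J F * (sl2J F * x) = -x := by
  rw [← mul_assoc, sl2J_mul_self, neg_mul, one_mul]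

theorem qmem_ji (a b : F) (hab : a ^ 2 + b ^ 2 = -1) :
    sl2J F * qI a b hab = -(qI a b hab * sl2J F) := sl2J_mul_qI a b hab

theorem qmem_ji' (a b : F) (hab : a ^ 2 + b ^ 2 = -1) (x : SpecialLinearGroup (Fin 2) F) :
    sl2J F * (qI a b hab * x) = -(qI a b hab * (sl2J F * x)) := by
  rw [← mul_assoc, qmem_ji, neg_mul, mul_assoc]

theorem qmem_invI (a b : F) (hab : a ^ 2 + b ^ 2 = -1) : (qI a b hab)⁻¹ = -qI a b hab := by
  apply inv_eq_of_mul_eq_one_right
  rw [mul_neg, qI_mul_self, neg_neg]

theorem qmem_invJ : (sl2J F)⁻¹ = -sl2J F := by
  apply inv_eq_of_mul_eq_one_right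
  rw [mul_neg, sl2J_mul_self, neg_neg]

theorem mem_Q8_iff (a b : F) (hab : a ^ 2 + b ^ 2 = -1) (g : SpecialLinearGroup (Fin 2) F) :
    g ∈ Q8 a b hab ↔ g = 1 ∨ g = -1 ∨ g = qI a b hab ∨ g = -qI a b hab ∨ g = sl2J F ∨
      g = -sl2J F ∨ g = qK a b hab ∨ g = -qK a b hab := by
  have hI : qI a b hab ∈ Q8 a b hab := Subgroup.subset_closure (by simp)
  have hJ : sl2J F ∈ Q8 a b hab := Subgroup.subset_closure (by simp)
  have hm1 : (-1 : SpecialLinearGroup (Fin 2) F) ∈ Q8 a b hab := by
    rw [← qI_mul_self a b hab]
    exact Subgroup.mul_mem _ hI hI
  have hneg : ∀ x ∈ Q8 a b hab, -x ∈ Q8 a b hab := by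
    intro x hx
    have : -x = -1 * x := by rw [neg_mul, one_mul]
    rw [this]
    exact Subgroup.mul_mem _ hm1 hx
  have hK : qK a b hab ∈ Q8 a b hab := Subgroup.mul_mem _ hI hJ
  constructor
  · intro hg
    unfold Q8 at hg
    induction hg using Subgroup.closure_induction_left with
    | one => exact Or.inl rfl
    | mul_left x hx y _ ih =>
      rcases hx with rfl | rfl
      · rcases ih with rfl | rfl | rfl | rfl | rfl | rfl | rfl | rfl
        · right; right; left; simp
        · right; right; right; left; simp
        · right; left; exact qI_mul_self a b hab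
        · left; rw [mul_neg, qI_mul_self, neg_neg]
        · right; right; right; right; right; right; left; rfl
        · right; right; right; right; right; right; right; rw [mul_neg]; rfl
        · right; right; right; right; right; left
          show qI a b hab * (qI a b hab * sl2J F) = -sl2J F
          exact qmem_ii a b hab _
        · right; right; right; right; left
          show qI a b hab * -(qI a b hab * sl2J F) = sl2J F
          rw [mul_neg, qmem_ii, neg_neg]
      · rcases ih with rfl | rfl | rfl | rfl | rfl | rfl | rfl | rfl
        · right; right; right; right; left; simp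
        · right; right; right; right; right; left; simp
        · right; right; right; right; right; right; right
          exact qmem_ji a b hab
        · right; right; right; right; right; right; left
          show sl2J F * -qI a b hab = qI a b hab * sl2J F
          rw [mul_neg, qmem_ji, neg_neg]
        · right; left; exact sl2J_mul_self
        · left; rw [mul_neg, sl2J_mul_self, neg_neg]
        · right; right; left
          show sl2J F * (qI a b hab * sl2J F) = qI a b hab
          rw [qmem_ji', sl2J_mul_self, mul_neg, mul_one, neg_neg]
        · right; right; right; left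
          show sl2J F * -(qI a b hab * sl2J F) = -qI a b hab
          rw [mul_neg, qmem_ji', sl2J_mul_self, mul_neg, mul_one, neg_neg]
    | inv_mul_cancel x hx y _ ih =>
      rcases hx with rfl | rfl
      · rw [qmem_invI]
        rcases ih with rfl | rfl | rfl | rfl | rfl | rfl | rfl | rfl
        · right; right; right; left; simp
        · right; right; left; simp
        · left; rw [neg_mul, qI_mul_self, neg_neg]
        · right; left; rw [neg_mul, mul_neg, neg_neg, qI_mul_self]
        · right; right; right; right; right; right; right; rw [neg_mul]; rfl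
        · right; right; right; right; right; right; left; rw [neg_mul, mul_neg, neg_neg]; rfl
        · right; right; right; right; left
          show -qI a b hab * (qI a b hab * sl2J F) = sl2J F
          rw [neg_mul, qmem_ii, neg_neg]
        · right; right; right; right; right; left
          show -qI a b hab * -(qI a b hab * sl2J F) = -sl2J F
          rw [neg_mul, mul_neg, neg_neg, qmem_ii]
      · rw [qmem_invJ]
        rcases ih with rfl | rfl | rfl | rfl | rfl | rfl | rfl | rfl
        · right; right; right; right; right; left; simp
        · right; right; right; right; left; simp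
        · right; right; right; right; right; right; left
          show -sl2J F * qI a b hab = qI a b hab * sl2J F
          rw [neg_mul, qmem_ji, neg_neg]
        · right; right; right; right; right; right; right
          show -sl2J F * -qI a b hab = -(qI a b hab * sl2J F)
          rw [neg_mul, mul_neg, neg_neg, qmem_ji]
        · left; rw [neg_mul, sl2J_mul_self, neg_neg]
        · right; left; rw [neg_mul, mul_neg, neg_neg, sl2J_mul_self]
        · right; right; right; left
          show -sl2J F * (qI a b hab * sl2J F) = -qI a b hab
          rw [neg_mul, qmem_ji', sl2J_mul_self, mul_neg, mul_one, neg_neg]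
        · right; right; left
          show -sl2J F * -(qI a b hab * sl2J F) = qI a b hab
          rw [neg_mul, mul_neg, neg_neg, qmem_ji', sl2J_mul_self, mul_neg, mul_one, neg_neg]
  · rintro (rfl | rfl | rfl | rfl | rfl | rfl | rfl | rfl)
    · exact Subgroup.one_mem _
    · exact hm1
    · exact hI
    · exact hneg _ hI
    · exact hJ
    · exact hneg _ hJ
    · exact hK
    · exact hneg _ hK

theorem neg_one_mem_Q8 (a b : F) (hab : a ^ 2 + b ^ 2 = -1) :
    (-1 : SpecialLinearGroup (Fin 2) F) ∈ Q8 a b hab := by
  have hI : qI a b hab ∈ Q8 a b hab := Subgroup.subset_closure (by simp)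
  rw [← qI_mul_self a b hab]
  exact Subgroup.mul_mem _ hI hI

end Cfsg.Agent.Lib.Helper91.Ps4
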