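import Mathlib
import Cfsg.Agent.Lib.Helper91.Ps4D
import Cfsg.Agent.Lib.Helper91.Ps4XQMEM
import Cfsg.Agent.Lib.Helper91.Ps4XQREL

set_option autoImplicit false

/-! S5320 piece QCARD (helper46). -/

namespace Cfsg.Agent.Lib.Helper91.Ps4

open Matrix

variable {F : Type*} [Field F]

/-- the list of the eight elements -/
def qcardG (a b : F) (hab : a ^ 2 + b ^ 2 = -1) : Fin 8 → SpecialLinearGroup (Fin 2) F :=
  ![1, -1, qI a b hab, -qI a b hab, sl2J F, -sl2J F, qK a b hab, -qK a b hab]

/-- a separating invariant -/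
def qcardChi (a b : F) (M : Matrix (Fin 2) (Fin 2) F) : F × F × F × F :=
  (M 0 0 + M 1 1, M 1 0 - M 0 1, a * (M 0 0 - M 1 1) + b * (M 0 1 + M 1 0),
    b * (M 0 0 - M 1 1) - a * (M 0 1 + M 1 0))

/-- the values of the invariant -/
def qcardV : Fin 8 → F × F × F × F :=
  ![(2, 0, 0, 0), (-2, 0, 0, 0), (0, 0, -2, 0), (0, 0, 2, 0), (0, 2, 0, 0), (0, -2, 0, 0),
    (0, 0, 0, -2), (0, 0, 0, 2)]

theorem qcard_chi (a b : F) (hab : a ^ 2 + b ^ 2 = -1) (i : Fin 8) :
    qcardChi a b (qcardG a b hab i).1 = qcardV i := by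
  have hK : (qK a b hab).1 = !![b, -a; -a, -b] := qK_coe a b hab
  have hI : (qI a b hab).1 = !![a, b; b, -a] := rfl
  have hJ : (sl2J F).1 = !![0, -1; 1, 0] := rfl
  fin_cases i
  · show qcardChi a b (1 : SpecialLinearGroup (Fin 2) F).1 = (2, 0, 0, 0)
    simp [qcardChi]
    norm_num
  · show qcardChi a b (-1 : SpecialLinearGroup (Fin 2) F).1 = (-2, 0, 0, 0)
    simp [qcardChi]
    norm_num
  · show qcardChi a b (qI a b hab).1 = (0, 0, -2, 0)
    rw [hI]
    simp [qcardChi]
    constructor
    · linear_combination (2 : F) * hab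
    · ring
  · show qcardChi a b (-qI a b hab).1 = (0, 0, 2, 0)
    rw [SpecialLinearGroup.coe_neg, hI]
    simp [qcardChi]
    constructor
    · linear_combination (-2 : F) * hab
    · ring
  · show qcardChi a b (sl2J F).1 = (0, 2, 0, 0)
    rw [hJ]
    simp [qcardChi]
    norm_num
  · show qcardChi a b (-sl2J F).1 = (0, -2, 0, 0)
    rw [SpecialLinearGroup.coe_neg, hJ]
    simp [qcardChi]
    norm_num
  · show qcardChi a b (qK a b hab).1 = (0, 0, 0, -2)
    rw [hK]
    simp [qcardChi]
    constructor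
    · ring
    · linear_combination (2 : F) * hab
  · show qcardChi a b (-qK a b hab).1 = (0, 0, 0, 2)
    rw [SpecialLinearGroup.coe_neg, hK]
    simp [qcardChi]
    constructor
    · ring
    · linear_combination (-2 : F) * hab

theorem qcard_V_inj (h2 : (2 : F) ≠ 0) : Function.Injective (qcardV : Fin 8 → F × F × F × F) := by
  have h22 : (2 : F) ≠ -2 := fun h => h2 (mul_self_eq_zero.mp (by linear_combination h))
  have h22' : (-2 : F) ≠ 2 := fun h => h22 h.symm
  have h02 : (0 : F) ≠ 2 := fun h => h2 h.symm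
  intro i j h
  fin_cases i <;> fin_cases j <;> first | rfl | (exfalso; simp [qcardV, h2, h22, h22', h02] at h)

theorem qcard_G_inj (h2 : (2 : F) ≠ 0) (a b : F) (hab : a ^ 2 + b ^ 2 = -1) :
    Function.Injective (qcardG a b hab) := by
  intro i j h
  apply qcard_V_inj h2
  rw [← qcard_chi a b hab, ← qcard_chi a b hab, h]

theorem card_Q8 (h2 : (2 : F) ≠ 0) (a b : F) (hab : a ^ 2 + b ^ 2 = -1) :
    Nat.card (Q8 a b hab) = 8 := by
  have hset : ((Q8 a b hab : Subgroup (SpecialLinearGroup (Fin 2) F)) :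
      Set (SpecialLinearGroup (Fin 2) F)) = Set.range (qcardG a b hab) := by
    ext g
    rw [SetLike.mem_coe, mem_Q8_iff, Set.mem_range]
    constructor
    · rintro (rfl | rfl | rfl | rfl | rfl | rfl | rfl | rfl)
      · exact ⟨0, rfl⟩
      · exact ⟨1, rfl⟩
      · exact ⟨2, rfl⟩
      · exact ⟨3, rfl⟩
      · exact ⟨4, rfl⟩
      · exact ⟨5, rfl⟩
      · exact ⟨6, rfl⟩
      · exact ⟨7, rfl⟩
    · rintro ⟨i, rfl⟩
      fin_cases i
      · left; rfl
      · right; left; rfl
      · right; right; left; rfl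
      · right; right; right; left; rfl
      · right; right; right; right; left; rfl
      · right; right; right; right; right; left; rfl
      · right; right; right; right; right; right; left; rfl
      · right; right; right; right; right; right; right; rfl
  have h1 : Nat.card (Q8 a b hab) = Nat.card (Set.range (qcardG a b hab)) := by
    show Nat.card ((Q8 a b hab : Subgroup (SpecialLinearGroup (Fin 2) F)) :
      Set (SpecialLinearGroup (Fin 2) F)) = _
    rw [hset]
  rw [h1, Nat.card_range_of_injective (qcard_G_inj h2 a b hab), Nat.card_eq_fintype_card,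
    Fintype.card_fin]

end Cfsg.Agent.Lib.Helper91.Ps4
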