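import Mathlib
import Cfsg.Agent.Lib.Helper91.Ps4D
import Cfsg.Agent.Lib.Helper91.Ps4XQMEM
import Cfsg.Agent.Lib.Helper91.Ps4XQREL

set_option autoImplicit false

/-! S5320 piece QPROP (helper46). -/

namespace Cfsg.Agent.Lib.Helper91.Ps4

open Matrix

variable {F : Type*} [Field F]

theorem qprop_K (a b : F) (hab : a ^ 2 + b ^ 2 = -1) : qK a b hab = qI a b hab * sl2J F := rfl

theorem qprop_comm (a b : F) (hab : a ^ 2 + b ^ 2 = -1) :
    ∀ x ∈ Q8 a b hab, ∀ y ∈ Q8 a b hab, y * x = x * y ∨ y * x = -(x * y) := by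
  intro x hx y hy
  rw [mem_Q8_iff] at hx hy
  rcases hx with rfl | rfl | rfl | rfl | rfl | rfl | rfl | rfl <;>
    rcases hy with rfl | rfl | rfl | rfl | rfl | rfl | rfl | rfl <;>
    simp [qprop_K, mul_assoc, qI_mul_self, sl2J_mul_self, qmem_ii, qmem_jj, qmem_ji, qmem_ji']

theorem Q8_inv (a b : F) (hab : a ^ 2 + b ^ 2 = -1) :
    ∀ y ∈ Q8 a b hab, y⁻¹ = y ∨ y⁻¹ = -y := by
  intro y hy
  rw [mem_Q8_iff] at hy
  have hKK : qK a b hab * qK a b hab = -1 := by
    simp [qprop_K, mul_assoc, qI_mul_self, sl2J_mul_self, qmem_ii, qmem_jj, qmem_ji, qmem_ji']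
  rcases hy with rfl | rfl | rfl | rfl | rfl | rfl | rfl | rfl
  · left; simp
  · left
    apply inv_eq_of_mul_eq_one_right
    simp
  · right; exact qmem_invI a b hab
  · right
    apply inv_eq_of_mul_eq_one_right
    rw [neg_neg, neg_mul, qI_mul_self, neg_neg]
  · right; exact qmem_invJ
  · right
    apply inv_eq_of_mul_eq_one_right
    rw [neg_neg, neg_mul, sl2J_mul_self, neg_neg]
  · right
    apply inv_eq_of_mul_eq_one_right
    rw [mul_neg, hKK, neg_neg]
  · right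
    apply inv_eq_of_mul_eq_one_right
    rw [neg_neg, neg_mul, hKK, neg_neg]

theorem Q8_conj (a b : F) (hab : a ^ 2 + b ^ 2 = -1) :
    ∀ x ∈ Q8 a b hab, ∀ y ∈ Q8 a b hab, y * x * y⁻¹ = x ∨ y * x * y⁻¹ = -x := by
  intro x hx y hy
  rcases qprop_comm a b hab x hx y hy with h | h
  · left; rw [h, mul_assoc, mul_inv_cancel, mul_one]
  · right; rw [h, neg_mul, mul_assoc, mul_inv_cancel, mul_one]

end Cfsg.Agent.Lib.Helper91.Ps4
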