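import Mathlib
import Cfsg.Agent.Lib.Helper91.Ps4D
import Cfsg.Agent.Lib.Helper91.Ps4XQMEM
import Cfsg.Agent.Lib.Helper91.Ps4XQREL
import Cfsg.Agent.Lib.Helper91.Ps4XQCENT
import Cfsg.Agent.Lib.Helper91.Ps4XQACONJ
import Cfsg.Agent.Lib.Helper91.Ps4XQCARD
import Cfsg.Agent.Lib.Helper91.Ps4XQPROP

set_option autoImplicit false
set_option linter.unusedSimpArgs false

/-! S5320 piece NSMALL (proved by helper87; statement kept exactly). -/

namespace Cfsg.Agent.Lib.Helper91.Ps4

open Matrix

variable {F : Type*} [Field F]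

/-- a `p`-element normalising a Sylow `p`-subgroup lies in it -/
theorem nsmall_sylow {G : Type*} [Group G] (p : ℕ) [Fact p.Prime] (Q : Sylow p G) (x : G)
    (hx : x ∈ Subgroup.normalizer ((Q : Subgroup G) : Set G)) (n : ℕ) (hxn : x ^ p ^ n = 1) :
    x ∈ (Q : Subgroup G) := by
  have hK : IsPGroup p (Subgroup.zpowers x) := by
    rintro ⟨y, hy⟩
    obtain ⟨k, rfl⟩ := Subgroup.mem_zpowers_iff.mp hy
    refine ⟨n, ?_⟩
    apply Subtype.ext
    show (x ^ k) ^ p ^ n = 1
    rw [← zpow_natCast, ← _root_.zpow_mul, mul_comm, _root_.zpow_mul, zpow_natCast, hxn, _root_.one_zpow]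
  have hle : Subgroup.zpowers x ≤ Subgroup.normalizer ((Q : Subgroup G) : Set G) := by
    rw [Subgroup.zpowers_le]; exact hx
  have h := IsPGroup.to_sup_of_normal_left' Q.isPGroup' hK hle
  have h2 := Q.is_maximal' h le_sup_left
  have h3 : x ∈ (Q : Subgroup G) ⊔ Subgroup.zpowers x :=
    (le_sup_right : Subgroup.zpowers x ≤ _) (Subgroup.mem_zpowers x)
  rw [h2] at h3
  exact h3

/-- the abstract quaternion-group argument -/
theorem nsmall_abs {G : Type*} [Group G] [HasDistribNeg G] [Finite G] (Q : Subgroup G)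
    (i j A : G) (h1 : (1 : G) ≠ -1) (hii : i * i = -1) (hjj : j * j = -1)
    (hji : j * i = -(i * j))
    (hQ : ∀ g, g ∈ Q ↔ g = 1 ∨ g = -1 ∨ g = i ∨ g = -i ∨ g = j ∨ g = -j ∨ g = i * j ∨
      g = -(i * j))
    (hcent : ∀ B : G, B * i = i * B → B * j = j * B → B = 1 ∨ B = -1)
    (hAi : A * i = -j * A) (hAj : A * j = i * j * A)
    (hSyl : ∀ x ∈ Subgroup.normalizer (Q : Set G), x ^ 8 = 1 → x ∈ Q) :
    ∀ B ∈ Subgroup.normalizer (Q : Set G), ∃ q ∈ Q, ∃ m : ℕ, B = q * A ^ m := by
  have hii' : ∀ x, i * (i * x) = -x := fun x => by rw [← mul_assoc, hii, neg_mul, one_mul]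
  have hjj' : ∀ x, j * (j * x) = -x := fun x => by rw [← mul_assoc, hjj, neg_mul, one_mul]
  have hji' : ∀ x, j * (i * x) = -(i * (j * x)) := fun x => by
    rw [← mul_assoc, hji, neg_mul, mul_assoc]
  have prime : ∀ (C x y : G), C * x = y * C → ∀ z, C * (x * z) = y * (C * z) :=
    fun C x y h z => by rw [← mul_assoc, h, mul_assoc]
  have hneg : ∀ g : G, g ≠ -g := by
    intro g h
    apply h1
    have h' : g * g⁻¹ = -g * g⁻¹ := congrArg (· * g⁻¹) h
    rw [neg_mul, mul_inv_cancel] at h'
    exact h'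
  have hnn : (-1 : G) * -1 = 1 := by rw [neg_mul_neg, one_mul]
  -- membership facts
  have m1 : (1 : G) ∈ Q := Q.one_mem
  have mn1 : (-1 : G) ∈ Q := (hQ _).2 (Or.inr (Or.inl rfl))
  have mi : i ∈ Q := (hQ _).2 (Or.inr (Or.inr (Or.inl rfl)))
  have mni : -i ∈ Q := (hQ _).2 (Or.inr (Or.inr (Or.inr (Or.inl rfl))))
  have mj : j ∈ Q := (hQ _).2 (Or.inr (Or.inr (Or.inr (Or.inr (Or.inl rfl)))))
  have mnj : -j ∈ Q := (hQ _).2 (Or.inr (Or.inr (Or.inr (Or.inr (Or.inr (Or.inl rfl))))))
  have mk : i * j ∈ Q :=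
    (hQ _).2 (Or.inr (Or.inr (Or.inr (Or.inr (Or.inr (Or.inr (Or.inl rfl)))))))
  have mnk : -(i * j) ∈ Q :=
    (hQ _).2 (Or.inr (Or.inr (Or.inr (Or.inr (Or.inr (Or.inr (Or.inr rfl)))))))
  -- distinctness facts
  have hij_ne : i ≠ j := by
    intro h
    rw [← h] at hji
    exact hneg _ hji
  have hij_ne' : j ≠ -i := by
    intro h
    rw [h, neg_mul, mul_neg, neg_neg] at hji
    exact hneg _ hji.symm
  have hi1 : i ≠ 1 := by
    intro h
    rw [h, mul_one] at hii
    exact h1 hii
  have hin1 : i ≠ -1 := by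
    intro h
    rw [h, hnn] at hii
    exact h1 hii
  have hk_ne : i * j ≠ j := by
    intro h
    apply hi1
    have h' : i * j * j⁻¹ = j * j⁻¹ := congrArg (· * j⁻¹) h
    rw [mul_assoc, mul_inv_cancel, mul_one] at h'
    exact h'
  have hk_ne' : i * j ≠ -j := by
    intro h
    apply hin1
    have h' : i * j * j⁻¹ = -j * j⁻¹ := congrArg (· * j⁻¹) h
    rw [mul_assoc, neg_mul, mul_inv_cancel, mul_one] at h'
    exact h'
  -- the relations of `A`
  have hAi' := prime A i (-j) hAi
  have hAj' := prime A j (i * j) hAj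
  have hcj : ∀ C x y : G, C * x = y * C → y ∈ Q → C * x * C⁻¹ ∈ Q := by
    intro C x y h hy
    rw [h, mul_assoc, mul_inv_cancel, mul_one]
    exact hy
  have hAN : A ∈ Subgroup.normalizer (Q : Set G) := by
    apply Subgroup.mem_normalizer_fintype
    intro n hn
    have hn' : n ∈ Q := hn
    show A * n * A⁻¹ ∈ Q
    rcases (hQ n).1 hn' with h | h | h | h | h | h | h | h <;> rw [h]
    · exact hcj A 1 1 (by rw [mul_one, one_mul]) m1
    · exact hcj A (-1) (-1) (by rw [mul_neg, neg_mul, mul_one, one_mul]) mn1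
    · exact hcj A i (-j) hAi mnj
    · exact hcj A (-i) j (by rw [mul_neg, hAi, neg_mul, neg_neg]) mj
    · exact hcj A j (i * j) hAj mk
    · exact hcj A (-j) (-(i * j)) (by rw [mul_neg, hAj, neg_mul]) mnk
    · exact hcj A (i * j) (-i) (by
        simp only [mul_assoc, neg_mul, mul_neg, neg_neg, hii, hii', hjj, hjj', hji, hji',
          hAi, hAi', hAj, hAj']) mni
    · exact hcj A (-(i * j)) i (by
        simp only [mul_assoc, neg_mul, mul_neg, neg_neg, hii, hii', hjj, hjj', hji, hji',
          hAi, hAi', hAj, hAj']) mi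
  -- conjugates of elements of square `-1`
  have L4 : ∀ C ∈ Subgroup.normalizer (Q : Set G), ∀ x ∈ Q, x * x = -1 →
      (C * x = i * C ∨ C * x = -i * C ∨ C * x = j * C ∨ C * x = -j * C ∨ C * x = i * j * C ∨
        C * x = -(i * j) * C) := by
    intro C hC x hx hxx
    have hy : C * x * C⁻¹ ∈ Q := (Subgroup.mem_normalizer_iff.mp hC x).mp hx
    have hyy : (C * x * C⁻¹) * (C * x * C⁻¹) = -1 := by
      have h : (C * x * C⁻¹) * (C * x * C⁻¹) = C * (x * x) * C⁻¹ := by group
      rw [h, hxx, mul_neg, neg_mul, mul_one, mul_inv_cancel]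
    have hC' : C * x = (C * x * C⁻¹) * C := by group
    generalize C * x * C⁻¹ = y at hy hyy hC'
    rcases (hQ y).1 hy with h | h | h | h | h | h | h | h <;> rw [h] at hyy hC'
    · exfalso
      rw [mul_one] at hyy
      exact h1 hyy
    · exfalso
      exact h1 (hnn.symm.trans hyy)
    · exact Or.inl hC'
    · exact Or.inr (Or.inl hC')
    · exact Or.inr (Or.inr (Or.inl hC'))
    · exact Or.inr (Or.inr (Or.inr (Or.inl hC')))
    · exact Or.inr (Or.inr (Or.inr (Or.inr (Or.inl hC'))))
    · exact Or.inr (Or.inr (Or.inr (Or.inr (Or.inr hC'))))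
  have LB : ∀ C q0 : G, q0 ∈ Q → (q0 * C) * i = i * (q0 * C) → (q0 * C) * j = j * (q0 * C) →
      C ∈ Q := by
    intro C q0 hq0 hi hj
    have hC : C = q0⁻¹ * (q0 * C) := by group
    rcases hcent _ hi hj with h | h
    · rw [hC, h]; exact Q.mul_mem (Q.inv_mem hq0) m1
    · rw [hC, h]; exact Q.mul_mem (Q.inv_mem hq0) mn1
  have LQj : ∀ C ∈ Q, C * j = j * C ∨ C * j = -j * C := by
    intro C hC
    rcases (hQ C).1 hC with h | h | h | h | h | h | h | h <;> rw [h]
    · left; rw [mul_one, one_mul]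
    · left; rw [mul_neg, neg_mul, mul_one, one_mul]
    · right
      simp only [mul_assoc, neg_mul, mul_neg, neg_neg, hii, hii', hjj, hjj', hji, hji']
    · right
      simp only [mul_assoc, neg_mul, mul_neg, neg_neg, hii, hii', hjj, hjj', hji, hji']
    · left; rfl
    · left; rw [neg_mul, mul_neg]
    · right
      simp only [mul_assoc, neg_mul, mul_neg, neg_neg, hii, hii', hjj, hjj', hji, hji']
    · right
      simp only [mul_assoc, neg_mul, mul_neg, neg_neg, hii, hii', hjj, hjj', hji, hji']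
  have L5 : ∀ C ∈ Subgroup.normalizer (Q : Set G), (C * i = i * C ∨ C * i = -i * C) →
      C ∈ Q := by
    intro C hC hCi
    have key := L4 C hC j mj hjj
    -- the transposition case is impossible
    have LC : ∀ D : G, D = C * C → (D = 1 ∨ D = -1 ∨ D = i ∨ D = -i) →
        (C * j = i * j * C ∨ C * j = -(i * j) * C) → False := by
      intro D hD hD4 hCj
      have h8 : C ^ 8 = (D * D) * (D * D) := by
        rw [hD]; simp only [pow_succ, pow_zero, one_mul, mul_assoc]
      have hDD : (D * D) * (D * D) = 1 := by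
        rcases hD4 with h | h | h | h <;> rw [h] <;>
          simp only [mul_one, neg_mul_neg, hii, one_mul]
      have hCQ : C ∈ Q := hSyl C hC (by rw [h8, hDD])
      rcases LQj C hCQ with h | h <;> rcases hCj with h' | h'
      · exact hk_ne (mul_right_cancel (h'.symm.trans h))
      · exact hk_ne' (neg_eq_iff_eq_neg.mp (mul_right_cancel (h'.symm.trans h)))
      · exact hk_ne' (mul_right_cancel (h'.symm.trans h))
      · exact hk_ne (neg_inj.mp (mul_right_cancel (h'.symm.trans h)))
    rcases hCi with hCi | hCi <;> rcases key with h | h | h | h | h | h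
    · -- C i = i C, C j = i C
      exact absurd (mul_left_cancel (hCi.trans h.symm)) hij_ne
    · -- C i = i C, C j = -i C
      have h' : C * j = C * -i := by rw [h, mul_neg, hCi, neg_mul]
      exact absurd (mul_left_cancel h') hij_ne'
    · -- C i = i C, C j = j C
      exact LB C 1 m1 (by rw [one_mul]; exact hCi) (by rw [one_mul]; exact h)
    · -- C i = i C, C j = -j C
      have hCi' := prime C i i hCi
      have hCj' := prime C j (-j) h
      refine LB C i mi ?_ ?_
      · simp only [mul_assoc, neg_mul, mul_neg, neg_neg, hii, hii', hjj, hjj', hji, hji',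
          hCi, hCi', h, hCj']
      · simp only [mul_assoc, neg_mul, mul_neg, neg_neg, hii, hii', hjj, hjj', hji, hji',
          hCi, hCi', h, hCj']
    · -- C i = i C, C j = k C
      have hCi' := prime C i i hCi
      have hCj' := prime C j (i * j) h
      have hE := hcent (i * (C * C))
        (by simp only [mul_assoc, neg_mul, mul_neg, neg_neg, hii, hii', hjj, hjj', hji, hji',
          hCi, hCi', h, hCj'])
        (by simp only [mul_assoc, neg_mul, mul_neg, neg_neg, hii, hii', hjj, hjj', hji, hji',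
          hCi, hCi', h, hCj'])
      have hD : C * C = -(i * (i * (C * C))) := by rw [hii', neg_neg]
      exfalso
      refine LC (C * C) rfl ?_ (Or.inl h)
      rcases hE with hE | hE
      · right; right; right; rw [hD, hE, mul_one]
      · right; right; left; rw [hD, hE, mul_neg, mul_one, neg_neg]
    · -- C i = i C, C j = -k C
      have hCi' := prime C i i hCi
      have hCj' := prime C j (-(i * j)) h
      have hE := hcent (i * (C * C))
        (by simp only [mul_assoc, neg_mul, mul_neg, neg_neg, hii, hii', hjj, hjj', hji, hji',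
          hCi, hCi', h, hCj'])
        (by simp only [mul_assoc, neg_mul, mul_neg, neg_neg, hii, hii', hjj, hjj', hji, hji',
          hCi, hCi', h, hCj'])
      have hD : C * C = -(i * (i * (C * C))) := by rw [hii', neg_neg]
      exfalso
      refine LC (C * C) rfl ?_ (Or.inr h)
      rcases hE with hE | hE
      · right; right; right; rw [hD, hE, mul_one]
      · right; right; left; rw [hD, hE, mul_neg, mul_one, neg_neg]
    · -- C i = -i C, C j = i C
      have h' : C * i = C * -j := by rw [hCi, mul_neg, h, neg_mul]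
      have h'' : j = -i := by rw [mul_left_cancel h', neg_neg]
      exact absurd h'' hij_ne'
    · -- C i = -i C, C j = -i C
      exact absurd (mul_left_cancel (hCi.trans h.symm)) hij_ne
    · -- C i = -i C, C j = j C
      have hCi' := prime C i (-i) hCi
      have hCj' := prime C j j h
      refine LB C j mj ?_ ?_
      · simp only [mul_assoc, neg_mul, mul_neg, neg_neg, hii, hii', hjj, hjj', hji, hji',
          hCi, hCi', h, hCj']
      · simp only [mul_assoc, neg_mul, mul_neg, neg_neg, hii, hii', hjj, hjj', hji, hji',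
          hCi, hCi', h, hCj']
    · -- C i = -i C, C j = -j C
      have hCi' := prime C i (-i) hCi
      have hCj' := prime C j (-j) h
      refine LB C (i * j) mk ?_ ?_
      · simp only [mul_assoc, neg_mul, mul_neg, neg_neg, hii, hii', hjj, hjj', hji, hji',
          hCi, hCi', h, hCj']
      · simp only [mul_assoc, neg_mul, mul_neg, neg_neg, hii, hii', hjj, hjj', hji, hji',
          hCi, hCi', h, hCj']
    · -- C i = -i C, C j = k C
      have hCi' := prime C i (-i) hCi
      have hCj' := prime C j (i * j) h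
      have hE := hcent (C * C)
        (by simp only [mul_assoc, neg_mul, mul_neg, neg_neg, hii, hii', hjj, hjj', hji, hji',
          hCi, hCi', h, hCj'])
        (by simp only [mul_assoc, neg_mul, mul_neg, neg_neg, hii, hii', hjj, hjj', hji, hji',
          hCi, hCi', h, hCj'])
      exfalso
      refine LC (C * C) rfl ?_ (Or.inl h)
      rcases hE with hE | hE
      · left; exact hE
      · right; left; exact hE
    · -- C i = -i C, C j = -k C
      have hCi' := prime C i (-i) hCi
      have hCj' := prime C j (-(i * j)) h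
      have hE := hcent (C * C)
        (by simp only [mul_assoc, neg_mul, mul_neg, neg_neg, hii, hii', hjj, hjj', hji, hji',
          hCi, hCi', h, hCj'])
        (by simp only [mul_assoc, neg_mul, mul_neg, neg_neg, hii, hii', hjj, hjj', hji, hji',
          hCi, hCi', h, hCj'])
      exfalso
      refine LC (C * C) rfl ?_ (Or.inr h)
      rcases hE with hE | hE
      · left; exact hE
      · right; left; exact hE
  have L6 : ∀ C ∈ Subgroup.normalizer (Q : Set G), ∃ s : ℕ, A ^ s * C ∈ Q := by
    intro C hC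
    rcases L4 C hC i mi hii with h | h | h | h | h | h
    · exact ⟨0, by rw [pow_zero, one_mul]; exact L5 C hC (Or.inl h)⟩
    · exact ⟨0, by rw [pow_zero, one_mul]; exact L5 C hC (Or.inr h)⟩
    · refine ⟨2, L5 _ (Subgroup.mul_mem _ (Subgroup.pow_mem _ hAN 2) hC) (Or.inr ?_)⟩
      simp only [pow_two, mul_assoc, neg_mul, mul_neg, neg_neg, hii, hii', hjj, hjj', hji, hji',
        hAi, hAi', hAj, hAj', h]
    · refine ⟨2, L5 _ (Subgroup.mul_mem _ (Subgroup.pow_mem _ hAN 2) hC) (Or.inl ?_)⟩
      simp only [pow_two, mul_assoc, neg_mul, mul_neg, neg_neg, hii, hii', hjj, hjj', hji, hji',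
        hAi, hAi', hAj, hAj', h]
    · refine ⟨1, L5 _ (Subgroup.mul_mem _ (Subgroup.pow_mem _ hAN 1) hC) (Or.inr ?_)⟩
      simp only [pow_one, mul_assoc, neg_mul, mul_neg, neg_neg, hii, hii', hjj, hjj', hji, hji',
        hAi, hAi', hAj, hAj', h]
    · refine ⟨1, L5 _ (Subgroup.mul_mem _ (Subgroup.pow_mem _ hAN 1) hC) (Or.inl ?_)⟩
      simp only [pow_one, mul_assoc, neg_mul, mul_neg, neg_neg, hii, hii', hjj, hjj', hji, hji',
        hAi, hAi', hAj, hAj', h]
  intro B hB
  obtain ⟨s, hs⟩ := L6 B⁻¹ (Subgroup.inv_mem _ hB)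
  refine ⟨(A ^ s * B⁻¹)⁻¹, Q.inv_mem hs, s, ?_⟩
  rw [_root_.mul_inv_rev, inv_inv, mul_assoc, inv_mul_cancel, mul_one]

theorem normalizer_small [Fintype F] (hodd : Fintype.card F % 2 = 1) (h2 : (2 : F) ≠ 0)
    (Q : Sylow 2 (SpecialLinearGroup (Fin 2) F)) (a b : F) (hab : a ^ 2 + b ^ 2 = -1)
    (hQ : (Q : Subgroup (SpecialLinearGroup (Fin 2) F)) = Q8 a b hab) :
    ∀ B ∈ Subgroup.normalizer ((Q : Subgroup (SpecialLinearGroup (Fin 2) F)) :
      Set (SpecialLinearGroup (Fin 2) F)), ∃ q ∈ Q, ∃ m : ℕ, B = q * qA a b hab h2 ^ m := by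
  classical
  have : Finite (SpecialLinearGroup (Fin 2) F) :=
    Finite.of_injective (fun g : SpecialLinearGroup (Fin 2) F => g.1) Subtype.val_injective
  have h1 : (1 : SpecialLinearGroup (Fin 2) F) ≠ -1 := by
    intro h
    have h' := congrArg (fun g : SpecialLinearGroup (Fin 2) F => g.1 0 0) h
    simp at h'
    apply h2
    linear_combination h'
  have hQ' : ∀ g, g ∈ (Q : Subgroup (SpecialLinearGroup (Fin 2) F)) ↔ g = 1 ∨ g = -1 ∨
      g = qI a b hab ∨ g = -qI a b hab ∨ g = sl2J F ∨ g = -sl2J F ∨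
      g = qI a b hab * sl2J F ∨ g = -(qI a b hab * sl2J F) := by
    intro g
    rw [hQ]
    exact mem_Q8_iff a b hab g
  have key := nsmall_abs (Q : Subgroup (SpecialLinearGroup (Fin 2) F)) (qI a b hab) (sl2J F)
    (qA a b hab h2) h1 (qI_mul_self a b hab) sl2J_mul_self (sl2J_mul_qI a b hab) hQ'
    (cent_Q8 h2 a b hab) (qA_conj a b hab h2).1 (qA_conj a b hab h2).2
    (fun x hx h8 => nsmall_sylow 2 Q x hx 3 h8)
  intro B hB
  obtain ⟨q, hq, m, hm⟩ := key B hB
  exact ⟨q, hq, m, hm⟩

end Cfsg.Agent.Lib.Helper91.Ps4
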