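import Mathlib
import Cfsg.Agent.Lib.Helper91.Ps4D

set_option autoImplicit false

/-! S5320 piece PNORM (placeholder: replace the `sorry`; keep the statement(s) exactly). -/

namespace Cfsg.Agent.Lib.Helper91.Ps4

open Matrix

variable {F : Type*} [Field F]

theorem pnorm_neg_mem (Q : Subgroup (SpecialLinearGroup (Fin 2) F))
    (hneg : (-1 : SpecialLinearGroup (Fin 2) F) ∈ Q) :
    iot (-1 : SpecialLinearGroup (Fin 2) F) 1 ∈ PT Q := by
  have h1 : iot (1 : SpecialLinearGroup (Fin 2) F) (-1) ∈ PT Q :=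
    Subgroup.subset_closure (Or.inr (Or.inl rfl))
  have h2 : iot (-1 : SpecialLinearGroup (Fin 2) F) (-1) ∈ PT Q :=
    Subgroup.subset_closure (Or.inl ⟨-1, hneg, rfl⟩)
  have h3 := (PT Q).mul_mem h1 h2
  rw [iot_mul] at h3
  have e1 : (1 : SpecialLinearGroup (Fin 2) F) * -1 = -1 := one_mul _
  have e2 : (-1 : SpecialLinearGroup (Fin 2) F) * -1 = 1 := by
    rw [neg_mul_neg, one_mul]
  rw [e1, e2] at h3
  exact h3

theorem pnorm_left (Q : Subgroup (SpecialLinearGroup (Fin 2) F))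
    (hneg : (-1 : SpecialLinearGroup (Fin 2) F) ∈ Q)
    (hconj : ∀ x ∈ Q, ∀ y ∈ Q, y * x * y⁻¹ = x ∨ y * x * y⁻¹ = -x)
    (hinv : ∀ y ∈ Q, y⁻¹ = y ∨ y⁻¹ = -y) (y : SpecialLinearGroup (Fin 2) F) (hy : y ∈ Q) :
    ∀ x ∈ PT Q, iot y 1 * x * (iot y 1)⁻¹ ∈ PT Q := by
  have hsig : (sig : Matrix.symplecticGroup (Fin 2) F) ∈ PT Q :=
    Subgroup.subset_closure (Or.inr (Or.inr rfl))
  have h1m : iot (1 : SpecialLinearGroup (Fin 2) F) (-1) ∈ PT Q :=
    Subgroup.subset_closure (Or.inr (Or.inl rfl))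
  have hD : ∀ a ∈ Q, iot a a ∈ PT Q := fun a ha => Subgroup.subset_closure (Or.inl ⟨a, ha, rfl⟩)
  intro x hx
  have hmap : (PT Q).map (MulAut.conj (iot y 1)).toMonoidHom ≤ PT Q := by
    unfold PT
    rw [MonoidHom.map_closure, Subgroup.closure_le]
    rintro _ ⟨g, hg, rfl⟩
    show iot y 1 * g * (iot y 1)⁻¹ ∈ PT Q
    rcases hg with ⟨a, ha, rfl⟩ | hg
    · rw [iot_inv, iot_mul, iot_mul, one_mul, inv_one, mul_one]
      rcases hconj a ha y hy with h | h
      · rw [h]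
        exact hD a ha
      · rw [h]
        have e : iot (-a) a = iot (-1 : SpecialLinearGroup (Fin 2) F) 1 * iot a a := by
          rw [iot_mul, neg_one_mul, one_mul]
        rw [e]
        exact (PT Q).mul_mem (pnorm_neg_mem Q hneg) (hD a ha)
    · rcases hg with rfl | hg
      · rw [iot_inv, iot_mul, iot_mul, one_mul, inv_one, mul_one, mul_one, mul_inv_cancel]
        exact h1m
      · have hg' : g = sig := hg
        subst hg'
        rw [iot_inv, mul_assoc, sig_iot, ← mul_assoc, iot_mul, one_mul, inv_one, mul_one]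
        rcases hinv y hy with h | h
        · rw [h]
          exact (PT Q).mul_mem (hD y hy) hsig
        · rw [h]
          have e : iot y (-y) = iot y y * iot (1 : SpecialLinearGroup (Fin 2) F) (-1) := by
            rw [iot_mul, mul_one, mul_neg_one]
          rw [e]
          exact (PT Q).mul_mem ((PT Q).mul_mem (hD y hy) h1m) hsig
  exact hmap ⟨x, hx, rfl⟩

theorem PT_normal (Q : Subgroup (SpecialLinearGroup (Fin 2) F))
    (hneg : (-1 : SpecialLinearGroup (Fin 2) F) ∈ Q)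
    (hconj : ∀ x ∈ Q, ∀ y ∈ Q, y * x * y⁻¹ = x ∨ y * x * y⁻¹ = -x)
    (hinv : ∀ y ∈ Q, y⁻¹ = y ∨ y⁻¹ = -y) :
    ∀ s ∈ SQ Q, ∀ x ∈ PT Q, s * x * s⁻¹ ∈ PT Q := by
  have hsig : (sig : Matrix.symplecticGroup (Fin 2) F) ∈ PT Q :=
    Subgroup.subset_closure (Or.inr (Or.inr rfl))
  have hL := pnorm_left Q hneg hconj hinv
  have hS : ∀ x ∈ PT Q, sig * x * (sig : Matrix.symplecticGroup (Fin 2) F)⁻¹ ∈ PT Q :=
    fun x hx => (PT Q).mul_mem ((PT Q).mul_mem hsig hx) ((PT Q).inv_mem hsig)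
  have hR : ∀ y ∈ Q, ∀ x ∈ PT Q,
      iot (1 : SpecialLinearGroup (Fin 2) F) y * x * (iot 1 y)⁻¹ ∈ PT Q := by
    intro y hy x hx
    have e : iot (1 : SpecialLinearGroup (Fin 2) F) y = sig * iot y 1 * sig := by
      rw [sig_iot, mul_assoc, sig_mul_sig, mul_one]
    have h1 := hS _ (hL y hy _ (hS x hx))
    have e2 : iot (1 : SpecialLinearGroup (Fin 2) F) y * x * (iot 1 y)⁻¹ =
        sig * (iot y 1 * (sig * x * (sig : Matrix.symplecticGroup (Fin 2) F)⁻¹) *
          (iot y 1)⁻¹) * (sig : Matrix.symplecticGroup (Fin 2) F)⁻¹ := by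
      rw [e]
      simp only [_root_.mul_inv_rev, mul_assoc]
    rw [e2]
    exact h1
  have hI : ∀ a ∈ Q, ∀ b ∈ Q, ∀ x ∈ PT Q, iot a b * x * (iot a b)⁻¹ ∈ PT Q := by
    intro a ha b hb x hx
    have e : iot a b = iot a 1 * iot 1 b := by rw [iot_mul, mul_one, one_mul]
    have h1 := hL a ha _ (hR b hb x hx)
    have e2 : iot a b * x * (iot a b)⁻¹ =
        iot a 1 * (iot 1 b * x * (iot 1 b)⁻¹) * (iot a 1)⁻¹ := by
      rw [e]
      simp only [_root_.mul_inv_rev, mul_assoc]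
    rw [e2]
    exact h1
  rintro s ⟨a, ha, b, hb, rfl | rfl⟩ x hx
  · exact hI a ha b hb x hx
  · have h1 := hI a ha b hb _ (hS x hx)
    have e2 : iot a b * sig * x * (iot a b * sig)⁻¹ =
        iot a b * (sig * x * (sig : Matrix.symplecticGroup (Fin 2) F)⁻¹) * (iot a b)⁻¹ := by
      simp only [_root_.mul_inv_rev, mul_assoc]
    rw [e2]
    exact h1

end Cfsg.Agent.Lib.Helper91.Ps4
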