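import Mathlib
import Cfsg.Agent.Lib.Helper91.Ps4D

set_option autoImplicit false

/-! S5320 piece PU1: the matrix `u1M a b` is symplectic, with its relations (helper35). -/

namespace Cfsg.Agent.Lib.Helper91.Ps4

open Matrix

variable {F : Type*} [Field F]

theorem pu1_aux_mem (h2 : (2 : F) ≠ 0) (a b : F) (hab : a ^ 2 + b ^ 2 = -1) :
    u1M a b ∈ Matrix.symplecticGroup (Fin 2) F := by
  rw [SymplecticGroup.mem_iff]
  ext (i|i) (j|j) <;> fin_cases i <;> fin_cases j <;>
    simp [u1M, blkM, Matrix.J, Matrix.mul_apply, Fintype.sum_sum_type, Fin.sum_univ_two,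
      Matrix.transpose_apply, Matrix.one_apply] <;>
    field_simp <;>
    first
      | linear_combination (0 : F) * hab
      | linear_combination (2 : F) * hab
      | linear_combination (-2 : F) * hab

theorem pu1_aux_rel1 (h2 : (2 : F) ≠ 0) (a b : F) (hab : a ^ 2 + b ^ 2 = -1) :
    u1M a b * iotM (qI a b hab).1 (qI a b hab).1 =
      iotM (qI a b hab).1 (qI a b hab).1 * u1M a b := by
  rw [qI_coe]
  ext (i|i) (j|j) <;> fin_cases i <;> fin_cases j <;>
    simp [u1M, blkM, iotM, Matrix.mul_apply, Fintype.sum_sum_type, Fin.sum_univ_two,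
      Matrix.diagonal_apply] <;>
    ring

theorem pu1_aux_rel2 (h2 : (2 : F) ≠ 0) (a b : F) (hab : a ^ 2 + b ^ 2 = -1) :
    u1M a b * iotM (sl2J F).1 (sl2J F).1 =
      iotM (qK a b hab).1 (qK a b hab).1 * u1M a b := by
  rw [qK_coe, sl2J_coe]
  ext (i|i) (j|j) <;> fin_cases i <;> fin_cases j <;>
    simp [u1M, blkM, iotM, Matrix.mul_apply, Fintype.sum_sum_type, Fin.sum_univ_two,
      Matrix.diagonal_apply] <;>
    field_simp <;>
    first
      | linear_combination (0 : F) * hab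
      | linear_combination (1 : F) * hab
      | linear_combination (-1 : F) * hab
      | linear_combination (2 : F) * hab
      | linear_combination (-2 : F) * hab

theorem pu1_aux_rel3 (a b : F) :
    u1M a b * sigM =
      iotM (-1 : Matrix (Fin 2) (Fin 2) F) (1 : Matrix (Fin 2) (Fin 2) F) * u1M a b := by
  ext (i|i) (j|j) <;> fin_cases i <;> fin_cases j <;>
    simp [u1M, blkM, iotM, sigM, Matrix.mul_apply, Fintype.sum_sum_type, Fin.sum_univ_two,
      Matrix.diagonal_apply, Matrix.one_apply]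

theorem pu1_aux_rel4 (a b : F) :
    u1M a b * iotM (1 : Matrix (Fin 2) (Fin 2) F) (-1 : Matrix (Fin 2) (Fin 2) F) =
      sigM * u1M a b := by
  ext (i|i) (j|j) <;> fin_cases i <;> fin_cases j <;>
    simp [u1M, blkM, iotM, sigM, Matrix.mul_apply, Fintype.sum_sum_type, Fin.sum_univ_two,
      Matrix.diagonal_apply, Matrix.one_apply]

theorem pu1_aux_sq (h2 : (2 : F) ≠ 0) (a b : F) (hab : a ^ 2 + b ^ 2 = -1) :
    u1M a b * u1M a b = blkM 0 (-!![a, b; b, -a]) !![a, b; b, -a] 0 := by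
  ext (i|i) (j|j) <;> fin_cases i <;> fin_cases j <;>
    simp [u1M, blkM, Matrix.mul_apply, Fintype.sum_sum_type, Fin.sum_univ_two] <;>
    field_simp <;>
    first
      | linear_combination (0 : F) * hab
      | linear_combination (1 : F) * hab
      | linear_combination (-1 : F) * hab
      | linear_combination (2 : F) * hab
      | linear_combination (-2 : F) * hab

theorem pu1_aux_four (a b : F) (hab : a ^ 2 + b ^ 2 = -1) :
    (blkM 0 (-!![a, b; b, -a]) !![a, b; b, -a] 0 :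
      Matrix (Fin 2 ⊕ Fin 2) (Fin 2 ⊕ Fin 2) F) *
      blkM 0 (-!![a, b; b, -a]) !![a, b; b, -a] 0 = 1 := by
  ext (i|i) (j|j) <;> fin_cases i <;> fin_cases j <;>
    simp [blkM, Matrix.mul_apply, Fintype.sum_sum_type, Fin.sum_univ_two, Matrix.one_apply] <;>
    first
      | linear_combination (0 : F) * hab
      | linear_combination (1 : F) * hab
      | linear_combination (-1 : F) * hab

theorem u1_exists (h2 : (2 : F) ≠ 0) (a b : F) (hab : a ^ 2 + b ^ 2 = -1) :
    ∃ u : Matrix.symplecticGroup (Fin 2) F, u.1 = u1M a b ∧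
      u * iot (qI a b hab) (qI a b hab) = iot (qI a b hab) (qI a b hab) * u ∧
      u * iot (sl2J F) (sl2J F) = iot (qK a b hab) (qK a b hab) * u ∧
      u * sig = iot (-1) 1 * u ∧ u * iot 1 (-1) = sig * u ∧ u ^ 4 = 1 := by
  refine ⟨⟨u1M a b, pu1_aux_mem h2 a b hab⟩, rfl, ?_, ?_, ?_, ?_, ?_⟩
  · exact Subtype.ext (pu1_aux_rel1 h2 a b hab)
  · exact Subtype.ext (pu1_aux_rel2 h2 a b hab)
  · exact Subtype.ext (pu1_aux_rel3 a b)
  · exact Subtype.ext (pu1_aux_rel4 a b)
  · apply Subtype.ext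
    show ((⟨u1M a b, pu1_aux_mem h2 a b hab⟩ : Matrix.symplecticGroup (Fin 2) F) ^ 4).1 = 1
    have h4 : ((⟨u1M a b, pu1_aux_mem h2 a b hab⟩ : Matrix.symplecticGroup (Fin 2) F) ^ 4) =
        (⟨u1M a b, pu1_aux_mem h2 a b hab⟩ * ⟨u1M a b, pu1_aux_mem h2 a b hab⟩) *
        (⟨u1M a b, pu1_aux_mem h2 a b hab⟩ * ⟨u1M a b, pu1_aux_mem h2 a b hab⟩) := by
      rw [show (4 : ℕ) = 2 + 2 from rfl, pow_add, pow_two]
    rw [h4]
    show (u1M a b * u1M a b) * (u1M a b * u1M a b) = 1
    rw [pu1_aux_sq h2 a b hab, pu1_aux_four a b hab]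

end Cfsg.Agent.Lib.Helper91.Ps4
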