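import Mathlib
import Cfsg.Agent.Lib.Helper91.Ps4D

set_option autoImplicit false

/-! S5320 piece PU2: the element `u₂` of `Sp₄(F)` with matrix `u2M`. -/

namespace Cfsg.Agent.Lib.Helper91.Ps4

open Matrix

variable {F : Type*} [Field F]

theorem pu2_mem (h2 : (2 : F) ≠ 0) :
    (u2M : Matrix (Fin 2 ⊕ Fin 2) (Fin 2 ⊕ Fin 2) F) ∈ Matrix.symplecticGroup (Fin 2) F := by
  unfold u2M blkM
  rw [SymplecticGroup.fromBlocks_mem_iff]
  refine ⟨?_, ?_, ?_⟩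
  · ext i j
    fin_cases i <;> fin_cases j <;>
      simp [Matrix.mul_apply, Fin.sum_univ_two, Matrix.transpose_apply]
  · ext i j
    fin_cases i <;> fin_cases j <;>
      simp [Matrix.mul_apply, Fin.sum_univ_two, Matrix.transpose_apply]
  · ext i j
    fin_cases i <;> fin_cases j <;>
      simp [Matrix.mul_apply, Fin.sum_univ_two, Matrix.transpose_apply] <;>
      field_simp <;> ring

theorem pu2_relI (a b : F) (hab : a ^ 2 + b ^ 2 = -1) :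
    (u2M : Matrix (Fin 2 ⊕ Fin 2) (Fin 2 ⊕ Fin 2) F) * iotM (qI a b hab).1 (qI a b hab).1 =
      iotM (-qK a b hab).1 (-qK a b hab).1 * u2M := by
  rw [SpecialLinearGroup.coe_neg, qK_coe, qI_coe]
  ext (i | i) (j | j) <;> fin_cases i <;> fin_cases j <;>
    simp [iotM, blkM, u2M, Matrix.mul_apply, Fintype.sum_sum_type, Fin.sum_univ_two] <;> ring

theorem pu2_relJ :
    (u2M : Matrix (Fin 2 ⊕ Fin 2) (Fin 2 ⊕ Fin 2) F) * iotM (sl2J F).1 (sl2J F).1 =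
      iotM (sl2J F).1 (sl2J F).1 * u2M := by
  rw [sl2J_coe]
  ext (i | i) (j | j) <;> fin_cases i <;> fin_cases j <;>
    simp [iotM, blkM, u2M, Matrix.mul_apply, Fintype.sum_sum_type, Fin.sum_univ_two]

theorem pu2_relS :
    (u2M : Matrix (Fin 2 ⊕ Fin 2) (Fin 2 ⊕ Fin 2) F) * sigM =
      iotM (-1 : Matrix (Fin 2) (Fin 2) F) 1 * u2M := by
  ext (i | i) (j | j) <;> fin_cases i <;> fin_cases j <;>
    simp [iotM, sigM, blkM, u2M, Matrix.mul_apply, Fintype.sum_sum_type, Fin.sum_univ_two]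

theorem pu2_relT :
    (u2M : Matrix (Fin 2 ⊕ Fin 2) (Fin 2 ⊕ Fin 2) F) *
      iotM (1 : Matrix (Fin 2) (Fin 2) F) (-1) =
      sigM * u2M := by
  ext (i | i) (j | j) <;> fin_cases i <;> fin_cases j <;>
    simp [iotM, sigM, blkM, u2M, Matrix.mul_apply, Fintype.sum_sum_type, Fin.sum_univ_two]

theorem pu2_sq (h2 : (2 : F) ≠ 0) :
    (u2M : Matrix (Fin 2 ⊕ Fin 2) (Fin 2 ⊕ Fin 2) F) * u2M =
      blkM 0 (-!![0, -1; 1, 0]) !![0, -1; 1, 0] 0 := by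
  ext (i | i) (j | j) <;> fin_cases i <;> fin_cases j <;>
    simp [blkM, u2M, Matrix.mul_apply, Fintype.sum_sum_type, Fin.sum_univ_two] <;>
    field_simp <;> ring

theorem pu2_sq_sq :
    (blkM 0 (-!![0, -1; 1, 0]) !![0, -1; 1, 0] 0 : Matrix (Fin 2 ⊕ Fin 2) (Fin 2 ⊕ Fin 2) F) *
      blkM 0 (-!![0, -1; 1, 0]) !![0, -1; 1, 0] 0 = 1 := by
  ext (i | i) (j | j) <;> fin_cases i <;> fin_cases j <;>
    simp [blkM, Matrix.mul_apply, Fintype.sum_sum_type, Fin.sum_univ_two]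

theorem u2_exists (h2 : (2 : F) ≠ 0) (a b : F) (hab : a ^ 2 + b ^ 2 = -1) :
    ∃ u : Matrix.symplecticGroup (Fin 2) F, u.1 = u2M ∧
      u * iot (qI a b hab) (qI a b hab) = iot (-qK a b hab) (-qK a b hab) * u ∧
      u * iot (sl2J F) (sl2J F) = iot (sl2J F) (sl2J F) * u ∧
      u * sig = iot (-1) 1 * u ∧ u * iot 1 (-1) = sig * u ∧ u ^ 4 = 1 := by
  refine ⟨⟨u2M, pu2_mem h2⟩, rfl, ?_, ?_, ?_, ?_, ?_⟩
  · exact Subtype.ext (pu2_relI a b hab)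
  · exact Subtype.ext pu2_relJ
  · apply Subtype.ext
    show u2M * sigM = iotM (-1 : Matrix (Fin 2) (Fin 2) F) 1 * u2M
    exact pu2_relS
  · apply Subtype.ext
    show u2M * iotM (1 : Matrix (Fin 2) (Fin 2) F) (-1) = sigM * u2M
    exact pu2_relT
  · rw [show (4 : ℕ) = 2 + 2 from rfl, pow_add, pow_two]
    apply Subtype.ext
    show (u2M : Matrix (Fin 2 ⊕ Fin 2) (Fin 2 ⊕ Fin 2) F) * u2M * (u2M * u2M) = 1
    rw [pu2_sq h2, pu2_sq_sq]

end Cfsg.Agent.Lib.Helper91.Ps4
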