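import Mathlib
import Cfsg.Agent.Lib.Helper91.Ps4D

set_option autoImplicit false

/-! S5320 piece PUEQ (proved by helper87; statement kept exactly). -/

namespace Cfsg.Agent.Lib.Helper91.Ps4

open Matrix

variable {F : Type*} [Field F]

theorem u1_eq (h2 : (2 : F) ≠ 0) (a b : F) (hab : a ^ 2 + b ^ 2 = -1)
    (u1 u2 : Matrix.symplecticGroup (Fin 2) F) (h1 : u1.1 = u1M a b) (h2' : u2.1 = u2M) :
    u1 = iot (qA a b hab h2) (qA a b hab h2) * u2 := by
  apply Subtype.ext
  show u1.1 = (iot (qA a b hab h2) (qA a b hab h2)).1 * u2.1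
  rw [h1, h2', iot_coe, qA_coe]
  ext (i|i) (j|j) <;> fin_cases i <;> fin_cases j <;>
    simp [iotM, blkM, u1M, u2M, Matrix.mul_apply, Fintype.sum_sum_type, Fin.sum_univ_two] <;>
    field_simp <;> ring

end Cfsg.Agent.Lib.Helper91.Ps4
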