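import Mathlib
import Cfsg.Agent.Lib.Helper91.Ps4D
import Cfsg.Agent.Lib.Helper91.Ps4XQMEM
import Cfsg.Agent.Lib.Helper91.Ps4XQREL
import Cfsg.Agent.Lib.Helper91.Ps4XBINJ
import Cfsg.Agent.Lib.Helper90.Basic

set_option autoImplicit false

/-! S5320 piece PUN (helper85 for helper91): `u` normalises `PT (Q8 a b hab)`. -/

namespace Cfsg.Agent.Lib.Helper91.Ps4

open Matrix

variable {F : Type*} [Field F]

theorem pun_conj_diag (a b : F) (hab : a ^ 2 + b ^ 2 = -1)
    (u : Matrix.symplecticGroup (Fin 2) F) (q1 q2 : SpecialLinearGroup (Fin 2) F)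
    (hq1 : q1 ∈ Q8 a b hab) (hq2 : q2 ∈ Q8 a b hab)
    (h1 : u * iot (qI a b hab) (qI a b hab) = iot q1 q1 * u)
    (h2 : u * iot (sl2J F) (sl2J F) = iot q2 q2 * u) (q : SpecialLinearGroup (Fin 2) F)
    (hq : q ∈ Q8 a b hab) :
    ∃ q' ∈ Q8 a b hab, u * iot q q = iot q' q' * u := by
  unfold Q8 at hq
  induction hq using Subgroup.closure_induction with
  | mem x hx =>
    rcases hx with rfl | rfl
    · exact ⟨q1, hq1, h1⟩
    · exact ⟨q2, hq2, h2⟩
  | one => exact ⟨1, Subgroup.one_mem _, by rw [iot_one, mul_one, one_mul]⟩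
  | mul x y hx hy ihx ihy =>
    obtain ⟨x', hx', ex⟩ := ihx
    obtain ⟨y', hy', ey⟩ := ihy
    refine ⟨x' * y', Subgroup.mul_mem _ hx' hy', ?_⟩
    rw [← iot_mul, ← iot_mul, ← mul_assoc, ex, mul_assoc, ey, mul_assoc]
  | inv x hx ihx =>
    obtain ⟨x', hx', ex⟩ := ihx
    refine ⟨x'⁻¹, Subgroup.inv_mem _ hx', ?_⟩
    rw [← iot_inv, ← iot_inv, eq_inv_mul_iff_mul_eq, ← mul_assoc, ← ex, mul_assoc,
      mul_inv_cancel, mul_one]

theorem u_mem_normalizer [Fintype F] (a b : F) (hab : a ^ 2 + b ^ 2 = -1)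
    (u : Matrix.symplecticGroup (Fin 2) F) (q1 q2 : SpecialLinearGroup (Fin 2) F)
    (hq1 : q1 ∈ Q8 a b hab) (hq2 : q2 ∈ Q8 a b hab)
    (h1 : u * iot (qI a b hab) (qI a b hab) = iot q1 q1 * u)
    (h2 : u * iot (sl2J F) (sl2J F) = iot q2 q2 * u)
    (h3 : u * sig = iot (-1) 1 * u) (h4 : u * iot 1 (-1) = sig * u) :
    u ∈ Subgroup.normalizer ((PT (Q8 a b hab) : Subgroup (Matrix.symplecticGroup (Fin 2) F)) :
      Set (Matrix.symplecticGroup (Fin 2) F)) := by
  apply Cfsg.Agent.Lib.Helper90.mem_normalizer_of_finite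
  intro x hx
  unfold PT at hx ⊢
  induction hx using Subgroup.closure_induction with
  | mem x hx =>
    rcases hx with ⟨q, hq, rfl⟩ | hx
    · obtain ⟨q', hq', e⟩ := pun_conj_diag a b hab u q1 q2 hq1 hq2 h1 h2 q hq
      rw [e, mul_assoc, mul_inv_cancel, mul_one]
      exact Subgroup.subset_closure (Or.inl ⟨q', hq', rfl⟩)
    · rcases hx with rfl | rfl
      · rw [h4, mul_assoc, mul_inv_cancel, mul_one]
        exact Subgroup.subset_closure (Or.inr (Or.inr rfl))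
      · rw [h3, mul_assoc, mul_inv_cancel, mul_one]
        have e : iot (-1 : SpecialLinearGroup (Fin 2) F) 1 = iot 1 (-1) * iot (-1) (-1) := by
          rw [iot_mul, one_mul, neg_mul_neg, one_mul]
        rw [e]
        exact Subgroup.mul_mem _ (Subgroup.subset_closure (Or.inr (Or.inl rfl)))
          (Subgroup.subset_closure (Or.inl ⟨-1, neg_one_mem_Q8 a b hab, rfl⟩))
  | one =>
    rw [mul_one, mul_inv_cancel]
    exact Subgroup.one_mem _
  | mul x y hx hy ihx ihy =>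
    have e : u * (x * y) * u⁻¹ = (u * x * u⁻¹) * (u * y * u⁻¹) := by group
    rw [e]
    exact Subgroup.mul_mem _ ihx ihy
  | inv x hx ihx =>
    have e : u * x⁻¹ * u⁻¹ = (u * x * u⁻¹)⁻¹ := by group
    rw [e]
    exact Subgroup.inv_mem _ ihx

end Cfsg.Agent.Lib.Helper91.Ps4
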