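import Mathlib
import Cfsg.Agent.Lib.Helper91.Ps4D
import Cfsg.Agent.Lib.Helper91.Ps4XQMEM
import Cfsg.Agent.Lib.Helper91.Ps4XQREL
import Cfsg.Agent.Lib.Helper91.Ps4XQACONJ

set_option autoImplicit false

/-! S5320 piece QANORM (helper46). -/

namespace Cfsg.Agent.Lib.Helper91.Ps4

open Matrix

variable {F : Type*} [Field F]

theorem qanorm_cI (a b : F) (hab : a ^ 2 + b ^ 2 = -1) (h2 : (2 : F) ≠ 0) :
    qA a b hab h2 * qI a b hab * (qA a b hab h2)⁻¹ = -sl2J F := by
  rw [(qA_conj a b hab h2).1, mul_assoc, mul_inv_cancel, mul_one]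

theorem qanorm_cJ (a b : F) (hab : a ^ 2 + b ^ 2 = -1) (h2 : (2 : F) ≠ 0) :
    qA a b hab h2 * sl2J F * (qA a b hab h2)⁻¹ = qK a b hab := by
  rw [(qA_conj a b hab h2).2, mul_assoc, mul_inv_cancel, mul_one]

theorem qanorm_cK (a b : F) (hab : a ^ 2 + b ^ 2 = -1) (h2 : (2 : F) ≠ 0) :
    qA a b hab h2 * qK a b hab * (qA a b hab h2)⁻¹ = -qI a b hab := by
  have h : qA a b hab h2 * qK a b hab * (qA a b hab h2)⁻¹ =
      (qA a b hab h2 * qI a b hab * (qA a b hab h2)⁻¹) *
        (qA a b hab h2 * sl2J F * (qA a b hab h2)⁻¹) := by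
    show qA a b hab h2 * (qI a b hab * sl2J F) * (qA a b hab h2)⁻¹ = _
    group
  rw [h, qanorm_cI, qanorm_cJ]
  show -sl2J F * (qI a b hab * sl2J F) = -qI a b hab
  rw [neg_mul, qmem_ji', sl2J_mul_self, mul_neg, mul_one, neg_neg]

theorem qanorm_neg (x h : SpecialLinearGroup (Fin 2) F) : x * (-h) * x⁻¹ = -(x * h * x⁻¹) := by
  rw [mul_neg, neg_mul]

theorem qanorm_inj (x h h' : SpecialLinearGroup (Fin 2) F) (e : x * h * x⁻¹ = x * h' * x⁻¹) :
    h = h' :=
  mul_left_cancel (mul_right_cancel e)

theorem qA_mem_normalizer (a b : F) (hab : a ^ 2 + b ^ 2 = -1) (h2 : (2 : F) ≠ 0) :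
    qA a b hab h2 ∈ Subgroup.normalizer
      ((Q8 a b hab : Subgroup (SpecialLinearGroup (Fin 2) F)) :
        Set (SpecialLinearGroup (Fin 2) F)) := by
  rw [Subgroup.mem_normalizer_iff]
  intro h
  have c1 : qA a b hab h2 * 1 * (qA a b hab h2)⁻¹ = 1 := by group
  have cI := qanorm_cI a b hab h2
  have cJ := qanorm_cJ a b hab h2
  have cK := qanorm_cK a b hab h2
  constructor
  · intro hh
    have hh' : h ∈ Q8 a b hab := hh
    show qA a b hab h2 * h * (qA a b hab h2)⁻¹ ∈ Q8 a b hab
    rw [mem_Q8_iff] at hh'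
    rw [mem_Q8_iff]
    rcases hh' with rfl | rfl | rfl | rfl | rfl | rfl | rfl | rfl
    · left; exact c1
    · right; left; rw [qanorm_neg, c1]
    · right; right; right; right; right; left; exact cI
    · right; right; right; right; left; rw [qanorm_neg, cI, neg_neg]
    · right; right; right; right; right; right; left; exact cJ
    · right; right; right; right; right; right; right; rw [qanorm_neg, cJ]
    · right; right; right; left; exact cK
    · right; right; left; rw [qanorm_neg, cK, neg_neg]
  · intro hh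
    have hh' : qA a b hab h2 * h * (qA a b hab h2)⁻¹ ∈ Q8 a b hab := hh
    show h ∈ Q8 a b hab
    rw [mem_Q8_iff] at hh'
    rw [mem_Q8_iff]
    rcases hh' with e | e | e | e | e | e | e | e
    · left
      exact qanorm_inj _ _ _ (e.trans c1.symm)
    · right; left
      apply qanorm_inj (qA a b hab h2)
      rw [e, qanorm_neg, c1]
    · right; right; right; right; right; right; right
      apply qanorm_inj (qA a b hab h2)
      rw [e, qanorm_neg, cK, neg_neg]
    · right; right; right; right; right; right; left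
      apply qanorm_inj (qA a b hab h2)
      rw [e, cK]
    · right; right; right; left
      apply qanorm_inj (qA a b hab h2)
      rw [e, qanorm_neg, cI, neg_neg]
    · right; right; left
      apply qanorm_inj (qA a b hab h2)
      rw [e, cI]
    · right; right; right; right; left
      apply qanorm_inj (qA a b hab h2)
      rw [e, cJ]
    · right; right; right; right; right; left
      apply qanorm_inj (qA a b hab h2)
      rw [e, qanorm_neg, cJ]

end Cfsg.Agent.Lib.Helper91.Ps4
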