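import Mathlib
import Cfsg.Agent.Lib.Helper91.Ps4D

set_option autoImplicit false

/-! S5320 piece QRAT: the generalised quaternion group `QuaternionGroup (2 ^ k)`, `k ≥ 1`, is
generated by the ratios `x * y⁻¹` of elements whose square is the central involution. -/

namespace Cfsg.Agent.Lib.Helper91.Ps4

open Matrix

variable {F : Type*} [Field F]

theorem quat_ratio_gen (k : ℕ) (hk : 1 ≤ k) :
    Subgroup.closure {r : QuaternionGroup (2 ^ k) | ∃ x y : QuaternionGroup (2 ^ k),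
      x ^ 2 = QuaternionGroup.a ((2 ^ k : ℕ) : ZMod (2 * 2 ^ k)) ∧
      y ^ 2 = QuaternionGroup.a ((2 ^ k : ℕ) : ZMod (2 * 2 ^ k)) ∧ r = x * y⁻¹} = ⊤ := by
  obtain ⟨j, rfl⟩ : ∃ j, k = j + 1 := ⟨k - 1, by omega⟩
  have h2n : ((2 ^ (j + 1) : ℕ) : ZMod (2 * 2 ^ (j + 1))) +
      ((2 ^ (j + 1) : ℕ) : ZMod (2 * 2 ^ (j + 1))) = 0 := by
    rw [← Nat.cast_add, ← two_mul]
    exact ZMod.natCast_self _
  have hhalf : ((2 ^ j : ℕ) : ZMod (2 * 2 ^ (j + 1))) + ((2 ^ j : ℕ) : ZMod (2 * 2 ^ (j + 1))) =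
      ((2 ^ (j + 1) : ℕ) : ZMod (2 * 2 ^ (j + 1))) := by
    rw [← Nat.cast_add]
    congr 1
    ring
  have hxa : ∀ i : ZMod (2 * 2 ^ (j + 1)),
      (QuaternionGroup.xa i : QuaternionGroup (2 ^ (j + 1))) ^ 2 =
        QuaternionGroup.a ((2 ^ (j + 1) : ℕ) : ZMod (2 * 2 ^ (j + 1))) := by
    intro i
    rw [pow_two, QuaternionGroup.xa_mul_xa]
    congr 1
    ring
  have hah : (QuaternionGroup.a ((2 ^ j : ℕ) : ZMod (2 * 2 ^ (j + 1))) :
      QuaternionGroup (2 ^ (j + 1))) ^ 2 =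
        QuaternionGroup.a ((2 ^ (j + 1) : ℕ) : ZMod (2 * 2 ^ (j + 1))) := by
    rw [pow_two, QuaternionGroup.a_mul_a, hhalf]
  have hinvxa : ∀ i : ZMod (2 * 2 ^ (j + 1)),
      (QuaternionGroup.xa i : QuaternionGroup (2 ^ (j + 1)))⁻¹ =
        QuaternionGroup.xa (((2 ^ (j + 1) : ℕ) : ZMod (2 * 2 ^ (j + 1))) + i) := fun i => rfl
  have hinva : ∀ i : ZMod (2 * 2 ^ (j + 1)),
      (QuaternionGroup.a i : QuaternionGroup (2 ^ (j + 1)))⁻¹ = QuaternionGroup.a (-i) :=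
    fun i => rfl
  rw [eq_top_iff]
  have ha : ∀ i : ZMod (2 * 2 ^ (j + 1)), (QuaternionGroup.a i : QuaternionGroup (2 ^ (j + 1))) ∈
      Subgroup.closure {r : QuaternionGroup (2 ^ (j + 1)) | ∃ x y : QuaternionGroup (2 ^ (j + 1)),
        x ^ 2 = QuaternionGroup.a ((2 ^ (j + 1) : ℕ) : ZMod (2 * 2 ^ (j + 1))) ∧
        y ^ 2 = QuaternionGroup.a ((2 ^ (j + 1) : ℕ) : ZMod (2 * 2 ^ (j + 1))) ∧
        r = x * y⁻¹} := by
    intro i
    apply Subgroup.subset_closure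
    refine ⟨QuaternionGroup.xa (-i), QuaternionGroup.xa 0, hxa _, hxa _, ?_⟩
    rw [hinvxa, QuaternionGroup.xa_mul_xa]
    congr 1
    linear_combination (-1 : ZMod (2 * 2 ^ (j + 1))) * h2n
  have hx0 : (QuaternionGroup.xa 0 : QuaternionGroup (2 ^ (j + 1))) *
      (QuaternionGroup.a ((2 ^ j : ℕ) : ZMod (2 * 2 ^ (j + 1))))⁻¹ ∈
      Subgroup.closure {r : QuaternionGroup (2 ^ (j + 1)) | ∃ x y : QuaternionGroup (2 ^ (j + 1)),
        x ^ 2 = QuaternionGroup.a ((2 ^ (j + 1) : ℕ) : ZMod (2 * 2 ^ (j + 1))) ∧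
        y ^ 2 = QuaternionGroup.a ((2 ^ (j + 1) : ℕ) : ZMod (2 * 2 ^ (j + 1))) ∧
        r = x * y⁻¹} :=
    Subgroup.subset_closure ⟨QuaternionGroup.xa 0, QuaternionGroup.a _, hxa 0, hah, rfl⟩
  intro x _
  cases x with
  | a i => exact ha i
  | xa i =>
    have e : (QuaternionGroup.xa i : QuaternionGroup (2 ^ (j + 1))) =
        (QuaternionGroup.xa 0 * (QuaternionGroup.a ((2 ^ j : ℕ) : ZMod (2 * 2 ^ (j + 1))))⁻¹) *
          QuaternionGroup.a (((2 ^ j : ℕ) : ZMod (2 * 2 ^ (j + 1))) + i) := by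
      rw [hinva, QuaternionGroup.xa_mul_a, QuaternionGroup.xa_mul_a]
      congr 1
      ring
    rw [e]
    exact Subgroup.mul_mem _ hx0 (ha _)

end Cfsg.Agent.Lib.Helper91.Ps4
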