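import Mathlib
import Cfsg.Agent.Lib.Helper91.Ps4D
import Cfsg.Agent.Lib.Helper91.Ps4XQRAT
import Cfsg.Agent.S0261
import Cfsg.Agent.S0218
import Cfsg.Agent.S0268

set_option autoImplicit false

/-! S5320 piece QSYL: a Sylow `2`-subgroup of `SL₂(F)` is generated by ratios of its elements of
square `-1`. -/

namespace Cfsg.Agent.Lib.Helper91.Ps4

open Matrix

variable {F : Type*} [Field F]

theorem sylow_ratio_gen [Fintype F] (hodd : Fintype.card F % 2 = 1)
    (Q : Sylow 2 (SpecialLinearGroup (Fin 2) F)) :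
    Subgroup.closure {r : SpecialLinearGroup (Fin 2) F | ∃ x ∈ Q, ∃ y ∈ Q,
      x * x = -1 ∧ y * y = -1 ∧ r = x * y⁻¹} =
      (Q : Subgroup (SpecialLinearGroup (Fin 2) F)) := by
  classical
  have hF : Odd (Fintype.card F) := Nat.odd_iff.mpr hodd
  obtain ⟨k, hk, ⟨e⟩⟩ := Cfsg.Agent.S0261.result hF Q
  -- the central involution of the quaternion group
  obtain ⟨A, hA⟩ : ∃ A : QuaternionGroup (2 ^ k),
      A = QuaternionGroup.a ((2 ^ k : ℕ) : ZMod (2 * 2 ^ k)) := ⟨_, rfl⟩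
  have hAA : A * A = 1 := by
    rw [hA, QuaternionGroup.a_mul_a, QuaternionGroup.one_def]
    congr 1
    have h := ZMod.natCast_self (2 * 2 ^ k)
    have h2 : ((2 ^ k : ℕ) : ZMod (2 * 2 ^ k)) + ((2 ^ k : ℕ) : ZMod (2 * 2 ^ k)) =
        ((2 * 2 ^ k : ℕ) : ZMod (2 * 2 ^ k)) := by
      push_cast
      ring
    rw [h2, h]
  have hA1 : A ≠ 1 := by
    rw [hA, QuaternionGroup.one_def]
    intro h
    have h0 : ((2 ^ k : ℕ) : ZMod (2 * 2 ^ k)) = 0 := by
      injection h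
    rw [ZMod.natCast_eq_zero_iff] at h0
    have hpos : 0 < 2 ^ k := by positivity
    have := Nat.le_of_dvd hpos h0
    omega
  -- its preimage is `-1`
  obtain ⟨g, hg⟩ : ∃ g : (Q : Subgroup (SpecialLinearGroup (Fin 2) F)), g = e.symm A := ⟨_, rfl⟩
  have hg1 : (g : SpecialLinearGroup (Fin 2) F) ≠ 1 := by
    intro h
    have hg' : g = 1 := Subtype.ext h
    rw [hg] at hg'
    have : A = e 1 := by rw [← hg', MulEquiv.apply_symm_apply]
    rw [map_one] at this
    exact hA1 this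
  have hgg : (g : SpecialLinearGroup (Fin 2) F) * g = 1 := by
    have : g * g = 1 := by rw [hg, ← map_mul, hAA, map_one]
    exact congrArg Subtype.val this
  have hgm := Cfsg.Agent.S0268.result hF (g : SpecialLinearGroup (Fin 2) F) hg1 hgg
  have hgneg : (g : SpecialLinearGroup (Fin 2) F) = -1 := by
    apply Subtype.ext
    rw [hgm, SpecialLinearGroup.coe_neg]
    simp
  -- the transport homomorphism
  obtain ⟨f, hf⟩ : ∃ f : QuaternionGroup (2 ^ k) →* SpecialLinearGroup (Fin 2) F,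
      f = (Q : Subgroup (SpecialLinearGroup (Fin 2) F)).subtype.comp e.symm.toMonoidHom :=
    ⟨_, rfl⟩
  have hfmem : ∀ w, f w ∈ Q := by
    intro w
    rw [hf]
    exact (e.symm w).2
  have hfA : f A = -1 := by
    rw [hf]
    show ((e.symm A : (Q : Subgroup (SpecialLinearGroup (Fin 2) F))) :
      SpecialLinearGroup (Fin 2) F) = -1
    rw [← hg, hgneg]
  have hfe : ∀ (x : SpecialLinearGroup (Fin 2) F) (hx : x ∈ Q), f (e ⟨x, hx⟩) = x := by
    intro x hx
    rw [hf]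
    show ((e.symm (e ⟨x, hx⟩) : (Q : Subgroup (SpecialLinearGroup (Fin 2) F))) :
      SpecialLinearGroup (Fin 2) F) = x
    rw [MulEquiv.symm_apply_apply]
  apply le_antisymm
  · rw [Subgroup.closure_le]
    rintro r ⟨x, hx, y, hy, -, -, rfl⟩
    exact Subgroup.mul_mem _ hx (Subgroup.inv_mem _ hy)
  · intro x hx
    have htop := quat_ratio_gen k hk
    rw [← hA] at htop
    have hmem : e ⟨x, hx⟩ ∈ Subgroup.closure {r : QuaternionGroup (2 ^ k) |
        ∃ x y : QuaternionGroup (2 ^ k), x ^ 2 = A ∧ y ^ 2 = A ∧ r = x * y⁻¹} := by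
      rw [htop]
      exact Subgroup.mem_top _
    have h1 : f (e ⟨x, hx⟩) ∈ Subgroup.map f (Subgroup.closure {r : QuaternionGroup (2 ^ k) |
        ∃ x y : QuaternionGroup (2 ^ k), x ^ 2 = A ∧ y ^ 2 = A ∧ r = x * y⁻¹}) :=
      Subgroup.mem_map_of_mem f hmem
    rw [hfe x hx, MonoidHom.map_closure] at h1
    refine Subgroup.closure_mono ?_ h1
    rintro _ ⟨r, ⟨u, v, hu, hv, rfl⟩, rfl⟩
    refine ⟨f u, hfmem u, f v, hfmem v, ?_, ?_, ?_⟩
    · rw [← map_mul, ← sq, hu, hfA]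
    · rw [← map_mul, ← sq, hv, hfA]
    · rw [map_mul, map_inv]

end Cfsg.Agent.Lib.Helper91.Ps4
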