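import Mathlib
import Cfsg.Agent.Lib.Helper91.Ps4D
import Cfsg.Agent.Lib.Helper91.Ps4XBINJ

set_option autoImplicit false

/-! S5320 piece SCARD: the order of `SQ Q = (Q × Q)⟨sig⟩` is `2 |Q|²`. -/

namespace Cfsg.Agent.Lib.Helper91.Ps4

open Matrix

variable {F : Type*} [Field F]

/-- the parametrisation `((x, y), ε) ↦ iot x y` or `iot x y * sig` of `SQ Q` -/
noncomputable def scard_par (Q : Subgroup (SpecialLinearGroup (Fin 2) F)) :
    (↥Q × ↥Q) × Bool → ↥(SQ Q) := fun p =>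
  if p.2 = true then
    ⟨iot (p.1.1 : SpecialLinearGroup (Fin 2) F) (p.1.2 : SpecialLinearGroup (Fin 2) F) * sig,
      (SQ Q).mul_mem (iot_mem_SQ p.1.1.2 p.1.2.2) (sig_mem_SQ Q)⟩
  else
    ⟨iot (p.1.1 : SpecialLinearGroup (Fin 2) F) (p.1.2 : SpecialLinearGroup (Fin 2) F),
      iot_mem_SQ p.1.1.2 p.1.2.2⟩

theorem scard_par_true (Q : Subgroup (SpecialLinearGroup (Fin 2) F)) (x y : ↥Q) :
    ((scard_par Q ((x, y), true) : ↥(SQ Q)) : Matrix.symplecticGroup (Fin 2) F) =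
      iot (x : SpecialLinearGroup (Fin 2) F) (y : SpecialLinearGroup (Fin 2) F) * sig := by
  simp [scard_par]

theorem scard_par_false (Q : Subgroup (SpecialLinearGroup (Fin 2) F)) (x y : ↥Q) :
    ((scard_par Q ((x, y), false) : ↥(SQ Q)) : Matrix.symplecticGroup (Fin 2) F) =
      iot (x : SpecialLinearGroup (Fin 2) F) (y : SpecialLinearGroup (Fin 2) F) := by
  simp [scard_par]

theorem scard_par_bijective (Q : Subgroup (SpecialLinearGroup (Fin 2) F)) :
    Function.Bijective (scard_par Q) := by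
  constructor
  · rintro ⟨⟨x, y⟩, ε⟩ ⟨⟨x', y'⟩, ε'⟩ h
    have h' := congrArg (Subtype.val : ↥(SQ Q) → Matrix.symplecticGroup (Fin 2) F) h
    cases ε <;> cases ε'
    · rw [scard_par_false, scard_par_false] at h'
      obtain ⟨h1, h2⟩ := iot_inj h'
      have e1 : x = x' := Subtype.ext h1
      have e2 : y = y' := Subtype.ext h2
      rw [e1, e2]
    · rw [scard_par_false, scard_par_true] at h'
      exact absurd h'.symm (iot_sig_ne_iot _ _ _ _)
    · rw [scard_par_true, scard_par_false] at h'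
      exact absurd h' (iot_sig_ne_iot _ _ _ _)
    · rw [scard_par_true, scard_par_true] at h'
      obtain ⟨h1, h2⟩ := iot_inj (mul_right_cancel h')
      have e1 : x = x' := Subtype.ext h1
      have e2 : y = y' := Subtype.ext h2
      rw [e1, e2]
  · rintro ⟨g, hg⟩
    obtain ⟨x, hx, y, hy, rfl | rfl⟩ := mem_SQ.1 hg
    · exact ⟨((⟨x, hx⟩, ⟨y, hy⟩), false), Subtype.ext (scard_par_false Q ⟨x, hx⟩ ⟨y, hy⟩)⟩
    · exact ⟨((⟨x, hx⟩, ⟨y, hy⟩), true), Subtype.ext (scard_par_true Q ⟨x, hx⟩ ⟨y, hy⟩)⟩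

theorem card_SQ [Fintype F] (Q : Subgroup (SpecialLinearGroup (Fin 2) F)) :
    Nat.card (SQ Q) = 2 * Nat.card Q ^ 2 := by
  rw [← Nat.card_congr (Equiv.ofBijective _ (scard_par_bijective Q)), Nat.card_prod,
    Nat.card_prod, Nat.card_eq_fintype_card (α := Bool), Fintype.card_bool]
  ring

end Cfsg.Agent.Lib.Helper91.Ps4
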