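import Mathlib
import Cfsg.Agent.Lib.Helper91.Ps4D
import Cfsg.Agent.Lib.Helper91.Ps4XSCARD
import Cfsg.Agent.S0245
import Cfsg.Agent.Lib.Helper81.ValTwo
import Cfsg.Agent.Lib.Helper46.Mat2

set_option autoImplicit false

/-! S5320 piece SSYL: `SQ Q` is a Sylow `2`-subgroup of `Sp₄(F)`. -/

namespace Cfsg.Agent.Lib.Helper91.Ps4

open Matrix

variable {F : Type*} [Field F]

theorem sylow_SQ [Fintype F] (hodd : Fintype.card F % 2 = 1)
    (Q : Sylow 2 (SpecialLinearGroup (Fin 2) F)) :
    ∃ S₀ : Sylow 2 (Matrix.symplecticGroup (Fin 2) F),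
      (S₀ : Subgroup (Matrix.symplecticGroup (Fin 2) F)) =
        SQ (Q : Subgroup (SpecialLinearGroup (Fin 2) F)) := by
  classical
  have hfact : Fact (Nat.Prime 2) := ⟨Nat.prime_two⟩
  have hF : Odd (Fintype.card F) := Nat.odd_iff.mpr hodd
  have hq1 : 1 < Fintype.card F := Fintype.one_lt_card
  have hfin : Finite (Matrix.symplecticGroup (Fin 2) F) :=
    Finite.of_injective Subtype.val Subtype.val_injective
  -- the order of `Q`
  have hQ : Nat.card (Q : Subgroup (SpecialLinearGroup (Fin 2) F)) =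
      2 ^ padicValNat 2 (Fintype.card F ^ 2 - 1) := by
    rw [Sylow.card_eq_multiplicity, Cfsg.Agent.Lib.Helper46.card_SL2,
      Nat.factorization_def _ Nat.prime_two,
      padicValNat.mul (by omega)
        (Cfsg.Agent.Lib.Helper81.ValTwo.one_lt_pow_sub hq1 (by norm_num)),
      padicValNat.eq_zero_of_not_dvd
        (Cfsg.Agent.Lib.Helper81.ValTwo.not_two_dvd_of_odd hF), zero_add]
  -- the `2`-part of the order of `Sp₄(F)`
  have hcard := Cfsg.Agent.S0245.result (F := F) (q := Fintype.card F) rfl 2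
  have hval : (Nat.card (Matrix.symplecticGroup (Fin 2) F)).factorization 2 =
      2 * padicValNat 2 (Fintype.card F ^ 2 - 1) + 1 := by
    rw [Nat.factorization_def _ Nat.prime_two, hcard,
      Cfsg.Agent.Lib.Helper81.ValTwo.val_card_sp hq1 hF 2]
    have h2 : padicValNat 2 (Nat.factorial 2) = 1 := by
      rw [show Nat.factorial 2 = 2 from rfl, padicValNat_self]
    rw [h2]
  have hSQ : Nat.card (SQ (Q : Subgroup (SpecialLinearGroup (Fin 2) F))) =
      2 ^ (Nat.card (Matrix.symplecticGroup (Fin 2) F)).factorization 2 := by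
    rw [card_SQ, hQ, hval]
    ring
  exact ⟨Sylow.ofCard _ hSQ, Sylow.coe_ofCard _ hSQ⟩

end Cfsg.Agent.Lib.Helper91.Ps4
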