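import Mathlib
import Cfsg.Agent.Lib.Helper91.Ps4D
import Cfsg.Agent.Lib.Helper91.Ps4XBINJ
import Cfsg.Agent.S0268

set_option autoImplicit false

/-! S5320 piece TZ1 (helper16). -/

namespace Cfsg.Agent.Lib.Helper91.Ps4

open Matrix

variable {F : Type*} [Field F]

theorem tz1_comm_sig (x y w : SpecialLinearGroup (Fin 2) F) :
    iot x y * sig * iot w 1 * (iot x y * sig)⁻¹ * (iot w 1)⁻¹ = iot w⁻¹ (y * w * y⁻¹) := by
  rw [_root_.mul_inv_rev, sig_inv, iot_inv, iot_inv, inv_one]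
  calc iot x y * sig * iot w 1 * (sig * iot x⁻¹ y⁻¹) * iot w⁻¹ 1
      = iot x y * (sig * iot w 1) * sig * iot x⁻¹ y⁻¹ * iot w⁻¹ 1 := by simp only [mul_assoc]
    _ = iot x y * (iot 1 w * sig) * sig * iot x⁻¹ y⁻¹ * iot w⁻¹ 1 := by rw [sig_iot]
    _ = iot x y * iot 1 w * (sig * sig) * iot x⁻¹ y⁻¹ * iot w⁻¹ 1 := by simp only [mul_assoc]
    _ = iot w⁻¹ (y * w * y⁻¹) := by
      rw [sig_mul_sig, mul_one, iot_mul, iot_mul, iot_mul]
      congr 1 <;> group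

theorem tz1_neg_inv : ((-1 : SpecialLinearGroup (Fin 2) F))⁻¹ = -1 :=
  inv_eq_of_mul_eq_one_left (by rw [neg_mul_neg, one_mul])

theorem tz1_iot_pow (A B : SpecialLinearGroup (Fin 2) F) (n : ℕ) :
    (iot A B) ^ n = iot (A ^ n) (B ^ n) := by
  induction n with
  | zero => rw [pow_zero, pow_zero, pow_zero, iot_one]
  | succ n ih => rw [pow_succ, pow_succ, pow_succ, ih, iot_mul]

theorem tz1_pow [Fintype F] (hodd : Fintype.card F % 2 = 1)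
    (w : SpecialLinearGroup (Fin 2) F) (hw1 : w ≠ 1) :
    ∀ n : ℕ, w ^ 2 ^ n = 1 → ∃ j : ℕ, w ^ 2 ^ j = -1 := by
  intro n
  induction n with
  | zero =>
    intro h
    rw [pow_zero, pow_one] at h
    exact absurd h hw1
  | succ n ih =>
    intro h
    by_cases h1 : w ^ 2 ^ n = 1
    · exact ih h1
    · refine ⟨n, ?_⟩
      have h2 : w ^ 2 ^ n * w ^ 2 ^ n = 1 := by
        rw [← pow_add, ← two_mul, ← pow_succ']
        exact h
      have h3 := Cfsg.Agent.S0268.result (Nat.odd_iff.mpr hodd) _ h1 h2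
      have h3' : ((w ^ 2 ^ n : SpecialLinearGroup (Fin 2) F) : Matrix (Fin 2) (Fin 2) F)
          = ((-1 : SpecialLinearGroup (Fin 2) F) : Matrix (Fin 2) (Fin 2) F) := by
        rw [h3]; rfl
      exact Subtype.ext h3'

theorem tz1_a [Fintype F] (hodd : Fintype.card F % 2 = 1)
    (Q : Subgroup (SpecialLinearGroup (Fin 2) F))
    (hnc : ∀ x ∈ Q, x ≠ 1 → x ≠ -1 → ∃ x' ∈ Q, x * x' ≠ x' * x)
    (hQ2 : ∀ x ∈ Q, ∃ n : ℕ, x ^ 2 ^ n = 1)
    (T : Subgroup (Matrix.symplecticGroup (Fin 2) F))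
    (hnorm : ∀ x ∈ T, ∀ s ∈ SQ Q, s * x * s⁻¹ ∈ T)
    (x y : SpecialLinearGroup (Fin 2) F) (hx : x ∈ Q) (hxy : iot x y ∈ T) (hx1 : x ≠ 1)
    (hx2 : x ≠ -1) : iot (-1) 1 ∈ T := by
  obtain ⟨x', hx', hne⟩ := hnc x hx hx1 hx2
  have hs : iot x' 1 ∈ SQ Q := iot_mem_SQ hx' Q.one_mem
  have h1 : iot x' 1 * (iot x y)⁻¹ * (iot x' 1)⁻¹ ∈ T := hnorm _ (T.inv_mem hxy) _ hs
  have h2 : iot x y * (iot x' 1 * (iot x y)⁻¹ * (iot x' 1)⁻¹) ∈ T := T.mul_mem hxy h1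
  have e : iot x y * (iot x' 1 * (iot x y)⁻¹ * (iot x' 1)⁻¹) =
      iot (x * x' * x⁻¹ * x'⁻¹) 1 := by
    rw [iot_inv, iot_inv, iot_mul, iot_mul, iot_mul]
    congr 1 <;> group
  rw [e] at h2
  have hwQ : x * x' * x⁻¹ * x'⁻¹ ∈ Q :=
    Q.mul_mem (Q.mul_mem (Q.mul_mem hx hx') (Q.inv_mem hx)) (Q.inv_mem hx')
  have hw1 : x * x' * x⁻¹ * x'⁻¹ ≠ 1 := by
    intro h
    apply hne
    calc x * x' = (x * x' * x⁻¹ * x'⁻¹) * (x' * x) := by group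
      _ = x' * x := by rw [h, one_mul]
  obtain ⟨n, hn⟩ := hQ2 _ hwQ
  obtain ⟨j, hj⟩ := tz1_pow hodd _ hw1 n hn
  have h3 := T.pow_mem h2 (2 ^ j)
  rw [tz1_iot_pow, hj, one_pow] at h3
  exact h3

theorem z1_mem [Fintype F] (hodd : Fintype.card F % 2 = 1)
    (Q : Subgroup (SpecialLinearGroup (Fin 2) F))
    (hnc : ∀ x ∈ Q, x ≠ 1 → x ≠ -1 → ∃ x' ∈ Q, x * x' ≠ x' * x)
    (hw : ∃ w ∈ Q, w ≠ 1 ∧ w ≠ -1) (hQ2 : ∀ x ∈ Q, ∃ n : ℕ, x ^ 2 ^ n = 1)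
    (T : Subgroup (Matrix.symplecticGroup (Fin 2) F)) (hTS : T ≤ SQ Q)
    (hnorm : ∀ x ∈ T, ∀ s ∈ SQ Q, s * x * s⁻¹ ∈ T) (hneg : iot (-1) (-1) ∈ T)
    (g : Matrix.symplecticGroup (Fin 2) F) (hg : g ∈ T) (hg1 : g ≠ 1)
    (hg2 : g ≠ iot (-1) (-1)) : iot (-1) 1 ∈ T := by
  have hsig : ∀ x y : SpecialLinearGroup (Fin 2) F, iot x y ∈ T → iot y x ∈ T := by
    intro x y h
    have h1 := hnorm _ h sig (sig_mem_SQ Q)
    rw [sig_inv, sig_iot, mul_assoc, sig_mul_sig, mul_one] at h1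
    exact h1
  obtain ⟨x, hx, y, hy, rfl | rfl⟩ := hTS hg
  · by_cases hx' : x ≠ 1 ∧ x ≠ -1
    · exact tz1_a hodd Q hnc hQ2 T hnorm x y hx hg hx'.1 hx'.2
    · by_cases hy' : y ≠ 1 ∧ y ≠ -1
      · exact tz1_a hodd Q hnc hQ2 T hnorm y x hy (hsig x y hg) hy'.1 hy'.2
      · have hx'' : x = 1 ∨ x = -1 := by
          by_contra h
          push Not at h
          exact hx' h
        have hy'' : y = 1 ∨ y = -1 := by
          by_contra h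
          push Not at h
          exact hy' h
        rcases hx'' with rfl | rfl <;> rcases hy'' with rfl | rfl
        · exact absurd iot_one hg1
        · have h := T.mul_mem hneg hg
          rw [iot_mul, mul_one, neg_mul_neg, one_mul] at h
          exact h
        · exact hg
        · exact absurd rfl hg2
  · obtain ⟨w, hwQ, hw1, hw2⟩ := hw
    have hs : iot w 1 ∈ SQ Q := iot_mem_SQ hwQ Q.one_mem
    have h1 : iot w 1 * (iot x y * sig)⁻¹ * (iot w 1)⁻¹ ∈ T := hnorm _ (T.inv_mem hg) _ hs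
    have h2 : iot x y * sig * iot w 1 * (iot x y * sig)⁻¹ * (iot w 1)⁻¹ ∈ T := by
      have h3 := T.mul_mem hg h1
      simp only [mul_assoc] at h3 ⊢
      exact h3
    rw [tz1_comm_sig] at h2
    refine tz1_a hodd Q hnc hQ2 T hnorm w⁻¹ (y * w * y⁻¹) (Q.inv_mem hwQ) h2 ?_ ?_
    · intro h
      exact hw1 (inv_eq_one.1 h)
    · intro h
      apply hw2
      rw [← inv_inv w, h, tz1_neg_inv]

end Cfsg.Agent.Lib.Helper91.Ps4
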