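import Mathlib
import Cfsg.Prelude.Def_CaseTheorems

set_option autoImplicit false
open Cfsg

namespace Cfsg.Agent.Lib.Helper91.QWGlue

open scoped commutatorElement

/-- any two Sylow subgroups of a finite group are isomorphic -/
theorem sylow_iso {G : Type*} [Group G] [Finite G] {p : ℕ} [Fact p.Prime] (P Q : Sylow p G) :
    Nonempty (↥(P : Subgroup G) ≃* ↥(Q : Subgroup G)) := by
  obtain ⟨g, rfl⟩ := MulAction.exists_smul_eq G P Q
  exact ⟨Sylow.equivSMul P g⟩

/-- Sylow subgroups correspond under an isomorphism -/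
theorem sylow_iso_of_equiv {G K : Type*} [Group G] [Group K] [Finite G] [Finite K] {p : ℕ}
    [Fact p.Prime] (e : G ≃* K) (P : Sylow p G) (Q : Sylow p K) :
    Nonempty (↥(P : Subgroup G) ≃* ↥(Q : Subgroup K)) := by
  obtain ⟨f⟩ := sylow_iso (Sylow.mapSurjective (f := e.toMonoidHom) e.surjective P) Q
  have h1 : ((Sylow.mapSurjective (f := e.toMonoidHom) e.surjective P : Sylow p K) : Subgroup K) =
      (P : Subgroup G).map e.toMonoidHom := Sylow.coe_mapSurjective _ _
  exact ⟨((P : Subgroup G).equivMapOfInjective e.toMonoidHom e.injective).trans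
    ((MulEquiv.subgroupCongr h1.symm).trans f)⟩

/-- transport of quasidihedrality -/
theorem isQuasiDihedral_of_equiv {X Y : Type*} [Group X] [Group Y] (e : X ≃* Y)
    (h : Cfsg.IsQuasiDihedral X) : Cfsg.IsQuasiDihedral Y := by
  obtain ⟨n, hn, hc, x, y, hx, hy, hyx⟩ := h
  refine ⟨n, hn, by rw [← Nat.card_congr e.toEquiv, hc], e x, e y, ?_, ?_, ?_⟩
  · rw [MulEquiv.orderOf_eq, hx]
  · rw [MulEquiv.orderOf_eq, hy]
  · rw [← map_inv, ← map_mul, ← map_mul, hyx, map_pow]

/-- transport of wreathedness -/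
theorem isWreathed_of_equiv {X Y : Type*} [Group X] [Group Y] (e : X ≃* Y)
    (h : Cfsg.IsWreathed X) : Cfsg.IsWreathed Y := by
  obtain ⟨n, hn, hc, x, y, z, hx, hxy, hdisj, hz, hzx⟩ := h
  refine ⟨n, hn, by rw [← Nat.card_congr e.toEquiv, hc], e x, e y, e z, ?_, ?_, ?_, ?_, ?_⟩
  · rw [MulEquiv.orderOf_eq, hx]
  · rw [← map_mul, ← map_mul, hxy]
  · rw [eq_bot_iff]
    intro w hw
    obtain ⟨hw1, hw2⟩ := hw
    obtain ⟨i, hi⟩ := Subgroup.mem_zpowers_iff.mp hw1
    obtain ⟨j, hj⟩ := Subgroup.mem_zpowers_iff.mp hw2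
    have h1 : x ^ i = y ^ j := by
      apply e.injective
      rw [map_zpow, map_zpow, hi, hj]
    have h2 : x ^ i ∈ Subgroup.zpowers x ⊓ Subgroup.zpowers y :=
      ⟨Subgroup.zpow_mem_zpowers x i, by rw [h1]; exact Subgroup.zpow_mem_zpowers y j⟩
    rw [hdisj, Subgroup.mem_bot] at h2
    rw [Subgroup.mem_bot, ← hi, ← map_zpow, h2, map_one]
  · rw [MulEquiv.orderOf_eq, hz]
  · rw [← map_inv, ← map_mul, ← map_mul, hzx]

/-- quasidihedral and wreathed groups are not commutative -/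
theorem not_comm_of_qw {X : Type*} [Group X]
    (hX : Cfsg.IsQuasiDihedral X ∨ Cfsg.IsWreathed X) : ∃ a b : X, a * b ≠ b * a := by
  rcases hX with ⟨n, hn, -, x, y, hx, -, hyx⟩ | ⟨n, hn, -, x, y, z, hx, -, hdisj, -, hzx⟩
  · refine ⟨y, x, ?_⟩
    intro h
    have h1 : y * x * y⁻¹ = x := by rw [h]; group
    rw [h1] at hyx
    have h2 : x ^ (2 ^ (n - 1) - 2) = 1 := by
      have h3 : 2 ^ (n - 1) - 1 = (2 ^ (n - 1) - 2) + 1 := by
        have : 2 ^ 2 ≤ 2 ^ (n - 1) := Nat.pow_le_pow_right (by norm_num) (by omega)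
        omega
      rw [h3, pow_succ] at hyx
      exact (mul_eq_right (a := x ^ (2 ^ (n - 1) - 2)) (b := x)).mp hyx.symm
    have h4 := orderOf_dvd_of_pow_eq_one h2
    rw [hx] at h4
    have h5 : 2 ^ 2 ≤ 2 ^ (n - 1) := Nat.pow_le_pow_right (by norm_num) (by omega)
    have h6 : 2 ^ (n - 1) < 2 ^ n := Nat.pow_lt_pow_right (by norm_num) (by omega)
    have h7 := Nat.le_of_dvd (by omega) h4
    omega
  · refine ⟨z, x, ?_⟩
    intro h
    have h1 : z * x * z⁻¹ = x := by rw [h]; group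
    rw [h1] at hzx
    have h2 : x ∈ Subgroup.zpowers x ⊓ Subgroup.zpowers y :=
      ⟨Subgroup.mem_zpowers x, by rw [← hzx]; exact Subgroup.mem_zpowers x⟩
    rw [hdisj, Subgroup.mem_bot] at h2
    rw [h2, orderOf_one] at hx
    have : 2 ^ 2 ≤ 2 ^ n := Nat.pow_le_pow_right (by norm_num) hn
    omega

/-- a simple group with a quasidihedral or wreathed Sylow `2`-subgroup is perfect -/
theorem perfect_of_simple_qw {G : Type*} [Group G] [IsSimpleGroup G] (S : Subgroup G)
    (hS : Cfsg.IsQuasiDihedral ↥S ∨ Cfsg.IsWreathed ↥S) : commutator G = ⊤ := by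
  rcases IsSimpleGroup.eq_bot_or_eq_top_of_normal (commutator G) inferInstance with h | h
  · exfalso
    obtain ⟨a, b, hab⟩ := not_comm_of_qw hS
    apply hab
    have h1 : ⁅(a : G), (b : G)⁆ ∈ commutator G :=
      Subgroup.commutator_mem_commutator (Subgroup.mem_top _) (Subgroup.mem_top _)
    rw [h, Subgroup.mem_bot, commutatorElement_eq_one_iff_mul_comm] at h1
    exact Subtype.ext h1
  · exact h

end Cfsg.Agent.Lib.Helper91.QWGlue
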