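import Mathlib
import Cfsg.Agent.Lib.Helper91.QWGlue

set_option autoImplicit false
open Cfsg

namespace Cfsg.Agent.Lib.Helper91.QWGlue

/-- an element of `2`-power order in a subgroup of odd order is trivial -/
theorem eq_one_of_odd_of_two_pow {H : Type*} [Group H] (Z : Subgroup H) [Finite Z]
    (hZ : Odd (Nat.card Z)) (z : H) (hz : z ∈ Z) (a : ℕ) (hza : z ^ 2 ^ a = 1) : z = 1 := by
  have h1 : orderOf z ∣ 2 ^ a := orderOf_dvd_of_pow_eq_one hza
  have h2 : orderOf z ∣ Nat.card Z := by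
    have := orderOf_dvd_natCard (⟨z, hz⟩ : Z)
    rwa [Subgroup.orderOf_mk] at this
  have h3 : Nat.Coprime (2 ^ a) (Nat.card Z) :=
    Nat.Coprime.pow_left _ (Nat.coprime_two_left.mpr hZ)
  have h4 : orderOf z = 1 := Nat.eq_one_of_dvd_coprimes h3 h1 h2
  exact orderOf_eq_one_iff.mp h4

/-- lifting an involution modulo a centre of odd order -/
theorem exists_invol_lift {H : Type*} [Group H] [Finite H]
    (hZ : Odd (Nat.card (Subgroup.center H))) (u : H ⧸ Subgroup.center H) (hu : orderOf u = 2) :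
    ∃ g : H, g * g = 1 ∧ g ≠ 1 ∧ QuotientGroup.mk' (Subgroup.center H) g = u := by
  obtain ⟨g₀, rfl⟩ := QuotientGroup.mk'_surjective (Subgroup.center H) u
  set π := QuotientGroup.mk' (Subgroup.center H) with hπ
  have huu : π g₀ ^ 2 = 1 := by rw [← hu]; exact pow_orderOf_eq_one _
  have hu1 : π g₀ ≠ 1 := by
    intro h
    rw [h, orderOf_one] at hu
    omega
  have hg0 : orderOf g₀ ≠ 0 := (orderOf_pos g₀).ne'
  obtain ⟨a, m, hm, ham⟩ := Nat.exists_eq_two_pow_mul_odd hg0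
  have hpm : π (g₀ ^ m) = π g₀ := by
    obtain ⟨k, rfl⟩ := hm
    rw [map_pow, pow_succ, pow_mul, huu, one_pow, one_mul]
  have h2 : (g₀ ^ m) ^ 2 ^ a = 1 := by
    rw [← pow_mul, mul_comm, ← ham]
    exact pow_orderOf_eq_one g₀
  have hmem : g₀ ^ m * g₀ ^ m ∈ Subgroup.center H := by
    have h3 : π (g₀ ^ m * g₀ ^ m) = 1 := by rw [map_mul, hpm, ← pow_two, huu]
    exact (QuotientGroup.eq_one_iff _).mp h3
  have hsq : g₀ ^ m * g₀ ^ m = 1 := by
    apply eq_one_of_odd_of_two_pow _ hZ _ hmem a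
    rw [(Commute.refl (g₀ ^ m)).mul_pow, h2, one_mul]
  refine ⟨g₀ ^ m, hsq, ?_, hpm⟩
  intro h
  apply hu1
  rw [← hpm, h, map_one]

/-- involutions stay conjugate modulo a centre of odd order -/
theorem invol_conj_quot_center {H : Type*} [Group H] [Finite H]
    (hZ : Odd (Nat.card (Subgroup.center H)))
    (hconj : ∀ g h : H, g * g = 1 → g ≠ 1 → h * h = 1 → h ≠ 1 → ∃ P : H, P * g * P⁻¹ = h)
    (u v : H ⧸ Subgroup.center H) (hu : orderOf u = 2) (hv : orderOf v = 2) :
    ∃ g, g * u * g⁻¹ = v := by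
  obtain ⟨g, hg, hg1, rfl⟩ := exists_invol_lift hZ u hu
  obtain ⟨h, hh, hh1, rfl⟩ := exists_invol_lift hZ v hv
  obtain ⟨P, hP⟩ := hconj g h hg hg1 hh hh1
  refine ⟨QuotientGroup.mk' (Subgroup.center H) P, ?_⟩
  rw [← map_inv, ← map_mul, ← map_mul, hP]

/-- a Sylow `2`-subgroup maps isomorphically modulo a normal subgroup of odd order -/
theorem sylow_quot_iso {H : Type*} [Group H] [Finite H] (N : Subgroup H) [N.Normal]
    (hN : Odd (Nat.card N)) (P : Sylow 2 H) (S : Sylow 2 (H ⧸ N)) :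
    Nonempty (↥(S : Subgroup (H ⧸ N)) ≃* ↥(P : Subgroup H)) := by
  have : Fact (Nat.Prime 2) := ⟨Nat.prime_two⟩
  set f : ↥(P : Subgroup H) →* H ⧸ N := (QuotientGroup.mk' N).comp (P : Subgroup H).subtype with hf
  have hinj : Function.Injective f := by
    rw [injective_iff_map_eq_one]
    intro x hx
    have hxN : (x : H) ∈ N := (QuotientGroup.eq_one_iff _).mp hx
    obtain ⟨a, ha⟩ := P.isPGroup' x
    have ha' : (x : H) ^ 2 ^ a = 1 := congrArg Subtype.val ha
    exact Subtype.ext (eq_one_of_odd_of_two_pow N hN _ hxN a ha')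
  have hrange : f.range = (P : Subgroup H).map (QuotientGroup.mk' N) := by
    rw [hf, MonoidHom.range_comp, Subgroup.range_subtype]
  have h1 : ((Sylow.mapSurjective (QuotientGroup.mk'_surjective N) P : Sylow 2 (H ⧸ N)) :
      Subgroup (H ⧸ N)) = (P : Subgroup H).map (QuotientGroup.mk' N) := Sylow.coe_mapSurjective _ _
  obtain ⟨e⟩ := sylow_iso S (Sylow.mapSurjective (QuotientGroup.mk'_surjective N) P)
  exact ⟨e.trans ((MulEquiv.subgroupCongr (h1.trans hrange.symm)).trans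
    (MonoidHom.ofInjective hinj).symm)⟩

/-- Sylow `2`-subgroups of `H / Z(H)` and of the centralizer of an involution, when the centre has
odd order and all involutions are conjugate -/
theorem sylow_quot_center_iso {H : Type*} [Group H] [Finite H]
    (hZ : Odd (Nat.card (Subgroup.center H))) (d : H) (hd : d * d = 1) (hd1 : d ≠ 1)
    (hconj : ∀ g : H, g * g = 1 → g ≠ 1 → ∃ P : H, P * g * P⁻¹ = d)
    (S : Sylow 2 (H ⧸ Subgroup.center H)) (R : Sylow 2 ↥(Subgroup.centralizer ({d} : Set H))) :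
    Nonempty (↥(S : Subgroup (H ⧸ Subgroup.center H)) ≃*
      ↥(R : Subgroup ↥(Subgroup.centralizer ({d} : Set H)))) := by
  have : Fact (Nat.Prime 2) := ⟨Nat.prime_two⟩
  obtain ⟨P₀⟩ : Nonempty (Sylow 2 H) := inferInstance
  -- `P₀` is nontrivial
  have hd2 : orderOf d = 2 := orderOf_eq_prime (by rw [pow_two]; exact hd) hd1
  have h2dvd : 2 ∣ Nat.card H := by rw [← hd2]; exact orderOf_dvd_natCard d
  have hP0 : Nontrivial ↥(P₀ : Subgroup H) := by
    rw [← Finite.one_lt_card_iff_nontrivial, P₀.card_eq_multiplicity]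
    have : 0 < (Nat.card H).factorization 2 :=
      Nat.Prime.factorization_pos_of_dvd Nat.prime_two Nat.card_pos.ne' h2dvd
    exact Nat.one_lt_two_pow this.ne'
  have hcn : Nontrivial (Subgroup.center ↥(P₀ : Subgroup H)) := P₀.isPGroup'.center_nontrivial
  obtain ⟨z, hz1⟩ := exists_ne (1 : Subgroup.center ↥(P₀ : Subgroup H))
  -- an involution in the centre of `P₀`
  obtain ⟨k, hk⟩ : ∃ k, orderOf (z : ↥(P₀ : Subgroup H)) = 2 ^ k := by
    obtain ⟨k, hk⟩ := P₀.isPGroup' (z : ↥(P₀ : Subgroup H))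
    obtain ⟨j, -, hj⟩ := (Nat.dvd_prime_pow Nat.prime_two).mp (orderOf_dvd_of_pow_eq_one hk)
    exact ⟨j, hj⟩
  have hk0 : k ≠ 0 := by
    rintro rfl
    rw [pow_zero, orderOf_eq_one_iff] at hk
    exact hz1 (Subtype.ext hk)
  obtain ⟨j, rfl⟩ : ∃ j, k = j + 1 := ⟨k - 1, by omega⟩
  set w : ↥(P₀ : Subgroup H) := (z : ↥(P₀ : Subgroup H)) ^ 2 ^ j with hw
  have hw2 : orderOf w = 2 := by
    rw [hw, orderOf_pow' _ (pow_ne_zero j two_ne_zero), hk, pow_succ,
      Nat.gcd_eq_right (Dvd.intro _ rfl)]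
    exact Nat.mul_div_cancel_left 2 (pow_pos (by norm_num) j)
  have hwc : ∀ x : ↥(P₀ : Subgroup H), x * w = w * x := by
    intro x
    have hzc : ∀ y : ↥(P₀ : Subgroup H), y * (z : ↥(P₀ : Subgroup H)) = z * y :=
      fun y => Subgroup.mem_center_iff.mp z.2 y
    have : Commute x (z : ↥(P₀ : Subgroup H)) := hzc x
    exact this.pow_right _
  have hww : (w : H) * (w : H) = 1 := by
    have h := pow_orderOf_eq_one w
    rw [hw2, pow_two] at h
    exact congrArg Subtype.val h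
  have hw1 : (w : H) ≠ 1 := by
    intro h
    have : w = 1 := Subtype.ext h
    rw [this, orderOf_one] at hw2
    omega
  obtain ⟨g, hg⟩ := hconj (w : H) hww hw1
  -- the conjugate Sylow subgroup lies in the centralizer of `d`
  have hle : ((g • P₀ : Sylow 2 H) : Subgroup H) ≤ Subgroup.centralizer ({d} : Set H) := by
    intro x hx
    rw [Sylow.coe_subgroup_smul, Subgroup.mem_pointwise_smul_iff_inv_smul_mem] at hx
    rw [Subgroup.mem_centralizer_iff]
    intro y hy
    rw [Set.mem_singleton_iff] at hy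
    subst hy
    have h1 := congrArg Subtype.val (hwc ⟨_, hx⟩)
    simp only [Subgroup.coe_mul, MulAut.smul_def, MulAut.conj_inv_apply] at h1
    rw [← hg]
    calc g * ↑w * g⁻¹ * x = g * (↑w * (g⁻¹ * x * g)) * g⁻¹ := by group
      _ = g * ((g⁻¹ * x * g) * ↑w) * g⁻¹ := by rw [h1]
      _ = x * (g * ↑w * g⁻¹) := by group
  obtain ⟨e1⟩ := sylow_quot_iso (Subgroup.center H) hZ P₀ S
  obtain ⟨e2⟩ := sylow_iso ((g • P₀ : Sylow 2 H).subtype hle) R
  have h3 : (((g • P₀ : Sylow 2 H).subtype hle : Sylow 2 ↥(Subgroup.centralizer ({d} : Set H))) :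
      Subgroup ↥(Subgroup.centralizer ({d} : Set H))) =
      ((g • P₀ : Sylow 2 H) : Subgroup H).subgroupOf (Subgroup.centralizer ({d} : Set H)) :=
    Sylow.coe_subtype _ _
  exact ⟨e1.trans ((Sylow.equivSMul P₀ g).trans
    ((Subgroup.subgroupOfEquivOfLe hle).symm.trans ((MulEquiv.subgroupCongr h3.symm).trans e2)))⟩

end Cfsg.Agent.Lib.Helper91.QWGlue
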